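import Mathlib
import Cfsg.Agent.BlkC.AmGm
import Cfsg.Agent.BlkC.Basic

set_option autoImplicit false
set_option linter.style.haveILetI false
set_option linter.unusedSimpArgs false
set_option linter.unusedSectionVars false
set_option linter.unusedVariables false

/-!
# The arithmetic-geometric mean inequality for totally positive cyclotomic integers
-/

namespace Cfsg.Agent.BlkInd

open scoped BigOperators ComplexConjugate
open Cfsg Cfsg.Agent.BlkC

theorem prod_autPow_int {n : ℕ} [hn : NeZero n] {z : ℂ} (hz : z ∈ cycRing n) :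
    ∃ m : ℤ, ∏ u : (ZMod n)ˣ, autPow u z = m := by
  apply Char.exists_int_of_fixed hn.out
  · exact Subring.prod_mem _ fun u _ => (isPow_autPow u).map_mem hz
  · intro k σ hk hσ
    rw [map_prod]
    let v : (ZMod n)ˣ := ZMod.unitOfCoprime k hk
    refine Fintype.prod_equiv (Equiv.mulLeft v) _ _ fun u => ?_
    refine IsPow.map_map (isPow_autPow u) (show IsPow n k σ from hσ)
      (isPow_autPow (v * u)) ?_ hz
    rw [← ZMod.natCast_eq_natCast_iff]
    push_cast
    rw [ZMod.natCast_zmod_val, ZMod.natCast_zmod_val]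
    rfl

/-- a positive real number `z` satisfies `1 + log z ≤ z` -/
theorem card_le_sum_autPow {n : ℕ} [hn : NeZero n] {w : ℂ} {N : ℕ} (hN : N ≠ 0)
    (hw : (N : ℂ) * w ∈ cycRing n) (hint : IsIntegral ℤ w) (x : (ZMod n)ˣ → ℝ)
    (hx : ∀ u, 0 < x u) (hxw : ∀ u, autPow u w = (x u : ℂ)) :
    (Fintype.card (ZMod n)ˣ : ℝ) ≤ ∑ u, x u := by
  classical
  obtain ⟨m, hm⟩ := prod_autPow_int hw
  have h1 : ∏ u : (ZMod n)ˣ, autPow u ((N : ℂ) * w) =
      ((N ^ Fintype.card (ZMod n)ˣ : ℕ) : ℂ) * ((∏ u, x u : ℝ) : ℂ) := by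
    have : ∀ u : (ZMod n)ˣ, autPow u ((N : ℂ) * w) = (N : ℂ) * (x u : ℂ) := by
      intro u
      rw [map_mul, map_natCast, hxw]
    rw [Finset.prod_congr rfl fun u _ => this u, Finset.prod_mul_distrib, Finset.prod_const,
      Finset.card_univ]
    push_cast
    rfl
  rw [h1] at hm
  have hNk : N ^ Fintype.card (ZMod n)ˣ ≠ 0 := pow_ne_zero _ hN
  have hNk' : ((N ^ Fintype.card (ZMod n)ˣ : ℕ) : ℂ) ≠ 0 := by exact_mod_cast hNk
  have h2 : ((∏ u, x u : ℝ) : ℂ) = (m : ℂ) / ((N ^ Fintype.card (ZMod n)ˣ : ℕ) : ℂ) := by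
    rw [eq_div_iff hNk', mul_comm]; exact hm
  have h3 : IsIntegral ℤ ((∏ u, x u : ℝ) : ℂ) := by
    push_cast
    apply IsIntegral.prod
    intro u _
    rw [← hxw]
    exact map_isIntegral_int (autPow u : ℂ →+* ℂ) hint
  rw [h2] at h3
  obtain ⟨a, ha⟩ := int_dvd_of_isIntegral_div hNk h3
  have h4 : (∏ u, x u : ℝ) = (a : ℝ) := by
    have h5 : ((∏ u, x u : ℝ) : ℂ) = ((a : ℝ) : ℂ) := by
      rw [h2, ha]
      push_cast
      push_cast at hNk'
      field_simp
    exact_mod_cast h5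
  have h5 : 0 < ∏ u, x u := Finset.prod_pos fun u _ => hx u
  have h6 : (1 : ℝ) ≤ ∏ u, x u := by
    rw [h4] at h5 ⊢
    have : 0 < a := by exact_mod_cast h5
    exact_mod_cast (by omega : 1 ≤ a)
  have h7 : 0 ≤ ∑ u, Real.log (x u) := by
    rw [← Real.log_prod (fun u _ => (hx u).ne')]
    exact Real.log_nonneg h6
  have h8 : ∀ u ∈ (Finset.univ : Finset (ZMod n)ˣ), Real.log (x u) + 1 ≤ x u := fun u _ => by
    have := Real.log_le_sub_one_of_pos (hx u)
    linarith
  have h9 := Finset.sum_le_sum h8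
  rw [Finset.sum_add_distrib, Finset.sum_const, Finset.card_univ, nsmul_eq_mul, mul_one] at h9
  linarith

end Cfsg.Agent.BlkInd
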