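import Mathlib

/-!
# Average size of fixed point subgroups (owner: helper16)

If `A` is an abelian group of automorphisms of order prime to `p` of an abelian `p`-group `V` without
fixed points and `x` normalises `A`, then the average of `dim C_V(x a)` over `a ∈ A` is at most `dim V / 2`.
-/

set_option autoImplicit false

namespace Cfsg.Agent.BlkInd.AvgFix

/-- fixed points of an automorphism -/
def fixS {V : Type*} [Group V] (g : MulAut V) : Subgroup V where
  carrier := {v | g v = v}
  one_mem' := map_one g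
  mul_mem' := by
    intro a b ha hb
    simp only [Set.mem_ofPred_eq] at *
    rw [map_mul, ha, hb]
  inv_mem' := by
    intro a ha
    simp only [Set.mem_ofPred_eq] at *
    rw [map_inv, ha]

theorem mem_fixS {V : Type*} [Group V] {g : MulAut V} {v : V} : v ∈ fixS g ↔ g v = v := Iff.rfl

/-- the exponent of `p` in the order of a subgroup -/
noncomputable def lg (p : ℕ) {V : Type*} [Group V] (X : Subgroup V) : ℕ := (Nat.card X).factorization p

section basic

variable {V : Type*} [Group V] [Finite V] {p : ℕ} [hp : Fact p.Prime]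

theorem card_eq (hV : IsPGroup p V) (X : Subgroup V) : Nat.card X = p ^ lg p X := by
  obtain ⟨n, hn⟩ := IsPGroup.iff_card.mp (hV.to_subgroup X)
  rw [lg, hn, hp.out.factorization_pow, Finsupp.single_eq_same]

theorem lg_mono (hV : IsPGroup p V) {X Y : Subgroup V} (h : X ≤ Y) : lg p X ≤ lg p Y := by
  have h1 := Subgroup.card_dvd_of_le h
  rw [card_eq hV X, card_eq hV Y] at h1
  exact (Nat.pow_dvd_pow_iff_le_right hp.out.one_lt).mp h1

theorem lg_pos (hV : IsPGroup p V) {X : Subgroup V} (h : X ≠ ⊥) : 0 < lg p X := by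
  rw [Nat.pos_iff_ne_zero]
  intro h0
  apply h
  rw [Subgroup.eq_bot_iff_card, card_eq hV X, h0, pow_zero]

theorem lg_bot : lg p (⊥ : Subgroup V) = 0 := by
  rw [lg, Subgroup.card_bot]
  simp

theorem lg_add_le (hV : IsPGroup p V) {X Y U : Subgroup V} (hX : X ≤ U) (hY : Y ≤ U) (h : X ⊓ Y = ⊥) :
    lg p X + lg p Y ≤ lg p U := by
  have hinj : Function.Injective (fun z : X × Y => (⟨(z.1 : V) * z.2, U.mul_mem (hX z.1.2) (hY z.2.2)⟩ : U)) := by
    rintro ⟨a, b⟩ ⟨c, d⟩ hac
    have h1 : (a : V) * b = c * d := congrArg Subtype.val hac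
    have h2 : (c : V)⁻¹ * a = d * (b : V)⁻¹ := by
      rw [inv_mul_eq_iff_eq_mul, ← mul_assoc, ← h1, mul_assoc, mul_inv_cancel, mul_one]
    have h3 : (c : V)⁻¹ * a ∈ X ⊓ Y :=
      ⟨X.mul_mem (X.inv_mem c.2) a.2, by rw [h2]; exact Y.mul_mem d.2 (Y.inv_mem b.2)⟩
    rw [h, Subgroup.mem_bot] at h3
    have h4 : a = c := Subtype.ext (inv_mul_eq_one.mp h3).symm
    have h5 : (d : V) * (b : V)⁻¹ = 1 := by rw [← h2, h3]
    have h6 : b = d := Subtype.ext (mul_inv_eq_one.mp h5).symm
    rw [h4, h6]
  have h1 := Nat.card_le_card_of_injective _ hinj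
  rw [Nat.card_prod, card_eq hV X, card_eq hV Y, card_eq hV U, ← pow_add] at h1
  exact (Nat.pow_le_pow_iff_right hp.out.one_lt).mp h1

theorem card_map_inf (f : V →* V) (U : Subgroup V) :
    Nat.card U = Nat.card (U ⊓ f.ker : Subgroup V) * Nat.card (U.map f) := by
  have h1 := Subgroup.card_mul_index (f.comp U.subtype).ker
  rw [Subgroup.index_ker] at h1
  rw [← h1]
  congr 1
  · have : (U ⊓ f.ker : Subgroup V) = (f.comp U.subtype).ker.map U.subtype := by
      ext v
      rw [Subgroup.mem_inf, Subgroup.mem_map]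
      constructor
      · rintro ⟨h1, h2⟩
        exact ⟨⟨v, h1⟩, h2, rfl⟩
      · rintro ⟨w, hw, rfl⟩
        exact ⟨w.2, hw⟩
    rw [this, Subgroup.card_map_of_injective U.subtype_injective]
  · rw [MonoidHom.range_comp, Subgroup.range_subtype]

theorem lg_map_inf (hV : IsPGroup p V) (f : V →* V) (U : Subgroup V) :
    lg p U = lg p (U ⊓ f.ker) + lg p (U.map f) := by
  have h1 := card_map_inf f U
  rw [card_eq hV U, card_eq hV (U ⊓ f.ker), card_eq hV (U.map f), ← pow_add] at h1
  exact Nat.pow_right_injective hp.out.two_le h1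

end basic

section norm

variable {V : Type*} [CommGroup V] [Finite V]

/-- the norm with respect to a group of automorphisms -/
noncomputable def nu (B : Subgroup (MulAut V)) : V →* V where
  toFun v := by
    classical
    haveI := Fintype.ofFinite B
    exact ∏ b : B, (b : MulAut V) v
  map_one' := by simp
  map_mul' := by
    intro a b
    simp [Finset.prod_mul_distrib]

theorem nu_apply (B : Subgroup (MulAut V)) [Fintype B] (v : V) : nu B v = ∏ b : B, (b : MulAut V) v := by
  classical
  rw [nu]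
  simp only [MonoidHom.coe_mk, OneHom.coe_mk]
  congr!

theorem map_nu (B : Subgroup (MulAut V)) {y : MulAut V} (hy : ∀ b, b ∈ B ↔ y * b * y⁻¹ ∈ B) (v : V) :
    y (nu B v) = nu B (y v) := by
  classical
  haveI := Fintype.ofFinite B
  rw [nu_apply, nu_apply, map_prod]
  let e : B ≃ B :=
    { toFun := fun b => ⟨y * b * y⁻¹, (hy b).mp b.2⟩
      invFun := fun b => ⟨y⁻¹ * b * y, (hy _).mpr (by
        have : y * (y⁻¹ * b * y) * y⁻¹ = b := by group
        rw [this]; exact b.2)⟩
      left_inv := fun b => Subtype.ext (by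
        change y⁻¹ * (y * b * y⁻¹) * y = b
        group)
      right_inv := fun b => Subtype.ext (by
        change y * (y⁻¹ * b * y) * y⁻¹ = b
        group) }
  refine Fintype.prod_equiv e _ _ fun b => ?_
  change y ((b : MulAut V) v) = (y * b * y⁻¹) (y v)
  simp [MulAut.mul_apply]

theorem nu_map (B : Subgroup (MulAut V)) {b : MulAut V} (hb : b ∈ B) (v : V) :
    b (nu B v) = nu B v := by
  classical
  haveI := Fintype.ofFinite B
  rw [nu_apply, map_prod]
  refine Fintype.prod_equiv (Equiv.mulLeft (⟨b, hb⟩ : B)) _ _ fun c => ?_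
  rfl

theorem nu_fixed (B : Subgroup (MulAut V)) {v : V} (hv : ∀ b ∈ B, b v = v) :
    nu B v = v ^ Nat.card B := by
  classical
  haveI := Fintype.ofFinite B
  rw [nu_apply, Finset.prod_congr rfl (fun (b : B) _ => hv b b.2), Finset.prod_const, Finset.card_univ,
    Nat.card_eq_fintype_card]

theorem nu_mem (B : Subgroup (MulAut V)) {U : Subgroup V} (hU : ∀ b ∈ B, ∀ u ∈ U, b u ∈ U) {u : V}
    (hu : u ∈ U) : nu B u ∈ U := by
  classical
  haveI := Fintype.ofFinite B
  rw [nu_apply]
  exact U.prod_mem fun b _ => hU b b.2 u hu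

end norm

/-- common fixed points -/
def fixB {V : Type*} [Group V] (B : Subgroup (MulAut V)) : Subgroup V where
  carrier := {v | ∀ b ∈ B, b v = v}
  one_mem' := fun b _ => map_one b
  mul_mem' := by
    intro a b ha hb c hc
    rw [map_mul, ha c hc, hb c hc]
  inv_mem' := by
    intro a ha c hc
    rw [map_inv, ha c hc]

theorem mem_fixB {V : Type*} [Group V] {B : Subgroup (MulAut V)} {v : V} :
    v ∈ fixB B ↔ ∀ b ∈ B, b v = v := Iff.rfl

section main

variable {V : Type*} [CommGroup V] [Finite V] {p : ℕ} [hp : Fact p.Prime]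

theorem fix_inf_ker (hV : IsPGroup p V) (B : Subgroup (MulAut V)) (hB : ¬ p ∣ Nat.card B) (U : Subgroup V) :
    (U ⊓ fixB B) ⊓ (U ⊓ (nu B).ker) = ⊥ := by
  rw [eq_bot_iff]
  rintro v ⟨⟨-, h1⟩, -, h2⟩
  have h3 : v ^ Nat.card B = 1 := by
    rw [← nu_fixed B h1]
    exact h2
  obtain ⟨n, hn⟩ := hV v
  have h4 : orderOf v ∣ p ^ n := orderOf_dvd_of_pow_eq_one hn
  have h5 : orderOf v ∣ Nat.card B := orderOf_dvd_of_pow_eq_one h3
  have h6 : (p ^ n).Coprime (Nat.card B) := Nat.Coprime.pow_left _ ((Nat.Prime.coprime_iff_not_dvd hp.out).mpr hB)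
  have h7 : orderOf v = 1 := Nat.eq_one_of_dvd_coprimes h6 h4 h5
  rw [Subgroup.mem_bot]
  exact orderOf_eq_one_iff.mp h7

theorem lg_split (hV : IsPGroup p V) (B : Subgroup (MulAut V)) (hB : ¬ p ∣ Nat.card B) (U : Subgroup V) :
    lg p (U ⊓ fixB B) + lg p (U ⊓ (nu B).ker) ≤ lg p U :=
  lg_add_le hV inf_le_left inf_le_left (fix_inf_ker hV B hB U)

theorem lg_fix_split (hV : IsPGroup p V) (B : Subgroup (MulAut V)) (U : Subgroup V)
    (hU : ∀ b ∈ B, ∀ u ∈ U, b u ∈ U) (y : MulAut V) (hy : ∀ b, b ∈ B ↔ y * b * y⁻¹ ∈ B) :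
    lg p (U ⊓ fixS y) ≤ lg p ((U ⊓ fixB B) ⊓ fixS y) + lg p ((U ⊓ (nu B).ker) ⊓ fixS y) := by
  rw [lg_map_inf hV (nu B) (U ⊓ fixS y), add_comm]
  refine add_le_add (lg_mono hV ?_) (lg_mono hV ?_)
  · rintro _ ⟨v, ⟨hv1, hv2⟩, rfl⟩
    refine ⟨⟨nu_mem B hU hv1, fun b hb => nu_map B hb v⟩, ?_⟩
    change y (nu B v) = nu B v
    rw [map_nu B hy, mem_fixS.mp hv2]
  · rintro v ⟨⟨h1, h2⟩, h3⟩
    exact ⟨⟨h1, h3⟩, h2⟩

theorem card_map_aut (b : MulAut V) (X : Subgroup V) : lg p (X.map b.toMonoidHom) = lg p X := by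
  rw [lg, lg, Subgroup.card_map_of_injective b.injective]

/-- The coset average. -/
theorem coset_avg (hV : IsPGroup p V) (A : Subgroup (MulAut V)) (hA : ∀ a ∈ A, ∀ b ∈ A, a * b = b * a)
    (hcop : ¬ p ∣ Nat.card A) (x : MulAut V) (hx : ∀ a, a ∈ A ↔ x * a * x⁻¹ ∈ A) [Fintype A] (n : ℕ) :
    ∀ U : Subgroup V, lg p U ≤ n → (∀ a ∈ A, ∀ u ∈ U, a u ∈ U) → (∀ u ∈ U, x u ∈ U) →
      (U ⊓ fixB A = ⊥) →
      2 * ∑ a : A, lg p (U ⊓ fixS (x * a)) ≤ Nat.card A * lg p U := by
  classical
  induction n with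
  | zero =>
    intro U hU _ _ _
    have h0 : lg p U = 0 := by omega
    have h1 : ∀ a : A, lg p (U ⊓ fixS (x * a)) = 0 := fun a =>
      Nat.le_zero.mp ((lg_mono hV inf_le_left).trans h0.le)
    simp [h1]
  | succ n ih =>
    intro U hUn hUA hUx hUf
    by_cases hUbot : U = ⊥
    · have h1 : ∀ a : A, lg p (U ⊓ fixS (x * a)) = 0 := fun a => by
        rw [hUbot, bot_inf_eq, lg_bot]
      simp [h1]
    -- the minimal subgroup
    let S : Set (Subgroup (MulAut V)) := {B | B ≤ A ∧ (∀ b, b ∈ B ↔ x * b * x⁻¹ ∈ B) ∧ ¬ U ≤ fixB B}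
    have hSA : A ∈ S := by
      refine ⟨le_rfl, hx, fun h => hUbot ?_⟩
      rw [← hUf, eq_comm, inf_eq_left]
      exact h
    obtain ⟨B, hB⟩ := (Set.toFinite S).exists_minimal ⟨A, hSA⟩
    obtain ⟨⟨hBA, hBx, hBU⟩, hBmin⟩ := hB
    have hmin : ∀ D : Subgroup (MulAut V), D ≤ B → (∀ b, b ∈ D ↔ x * b * x⁻¹ ∈ D) → ¬ U ≤ fixB D → D = B := by
      intro D hDB hDx hDU
      exact le_antisymm hDB (hBmin ⟨hDB.trans hBA, hDx, hDU⟩ hDB)
    have hcopB : ¬ p ∣ Nat.card B := fun h => hcop (h.trans (Subgroup.card_dvd_of_le hBA))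
    have hUB : ∀ b ∈ B, ∀ u ∈ U, b u ∈ U := fun b hb => hUA b (hBA hb)
    -- normalisation by `x a`
    have hya : ∀ a ∈ A, ∀ b ∈ A, (x * a) * b * (x * a)⁻¹ = x * b * x⁻¹ := by
      intro a ha b hb
      have : a * b * a⁻¹ = b := by rw [hA a ha b hb]; group
      calc (x * a) * b * (x * a)⁻¹ = x * (a * b * a⁻¹) * x⁻¹ := by group
        _ = _ := by rw [this]
    have hya2 : ∀ a ∈ A, ∀ b, b ∈ B ↔ (x * a) * b * (x * a)⁻¹ ∈ B := by
      intro a ha b
      constructor
      · intro hb
        rw [hya a ha b (hBA hb)]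
        exact (hBx b).mp hb
      · intro hb
        have h1 : x * (a * b * a⁻¹) * x⁻¹ ∈ B := by
          have : x * (a * b * a⁻¹) * x⁻¹ = (x * a) * b * (x * a)⁻¹ := by group
          rw [this]; exact hb
        have h2 := (hBx _).mpr h1
        have h3 : b = a⁻¹ * (a * b * a⁻¹) * a := by group
        rw [h3, mul_assoc, hA _ (hBA h2) a ha, ← mul_assoc, inv_mul_cancel, one_mul]
        exact h2
    by_cases hC : U ⊓ fixB B = ⊥
    · -- the core case
      by_cases hcase : ∃ b ∈ B, ¬ U ≤ fixS (x⁻¹ * b * x * b⁻¹)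
      · obtain ⟨b, hb, hbU⟩ := hcase
        have key : ∀ a : A, 2 * lg p (U ⊓ fixS (x * a)) ≤ lg p U := by
          intro a
          set y := x * (a : MulAut V) with hy
          have hbA := hBA hb
          have hcB : x⁻¹ * b * x * b⁻¹ ∈ B := by
            refine B.mul_mem ((hBx _).mpr ?_) (B.inv_mem hb)
            have : x * (x⁻¹ * b * x) * x⁻¹ = b := by group
            rw [this]; exact hb
          have hxbA : x⁻¹ * b * x ∈ A := by
            have := A.mul_mem (hBA hcB) hbA
            simpa using this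
          have hcy : y⁻¹ * b * y * b⁻¹ = x⁻¹ * b * x * b⁻¹ := by
            have h1 : (a : MulAut V)⁻¹ * (x⁻¹ * b * x) * a = x⁻¹ * b * x := by
              rw [mul_assoc, hA _ hxbA a a.2, ← mul_assoc, inv_mul_cancel, one_mul]
            calc y⁻¹ * b * y * b⁻¹ = ((a : MulAut V)⁻¹ * (x⁻¹ * b * x) * a) * b⁻¹ := by rw [hy]; group
              _ = _ := by rw [h1]
          let X : Subgroup V := U ⊓ fixS y
          let Y : Subgroup V := X.map b.toMonoidHom
          have hYU : Y ≤ U := by
            rintro _ ⟨v, hv, rfl⟩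
            exact hUB b hb v hv.1
          have hXY : X ⊓ Y = ⊥ := by
            let D : Subgroup (MulAut V) :=
              { carrier := {d | d ∈ B ∧ ∀ w ∈ X ⊓ Y, d w = w}
                one_mem' := ⟨B.one_mem, fun w _ => rfl⟩
                mul_mem' := by
                  rintro c d ⟨hc, hc'⟩ ⟨hd, hd'⟩
                  refine ⟨B.mul_mem hc hd, fun w hw => ?_⟩
                  rw [MulAut.mul_apply, hd' w hw, hc' w hw]
                inv_mem' := by
                  rintro c ⟨hc, hc'⟩
                  refine ⟨B.inv_mem hc, fun w hw => ?_⟩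
                  conv_lhs => rw [← hc' w hw]
                  rw [MulAut.inv_apply_self] }
            have hDB : D ≤ B := fun d hd => hd.1
            have hwy : ∀ w ∈ X ⊓ Y, y w = w := fun w hw => hw.1.2
            have hwyi : ∀ w ∈ X ⊓ Y, y⁻¹ w = w := fun w hw => by
              conv_lhs => rw [← hwy w hw]
              rw [MulAut.inv_apply_self]
            have hDy : ∀ d, d ∈ D ↔ y * d * y⁻¹ ∈ D := by
              intro d
              constructor
              · rintro ⟨h1, h2⟩
                refine ⟨(hya2 a a.2 d).mp h1, fun w hw => ?_⟩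
                rw [MulAut.mul_apply, MulAut.mul_apply, hwyi w hw, h2 w hw, hwy w hw]
              · rintro ⟨h1, h2⟩
                refine ⟨(hya2 a a.2 d).mpr h1, fun w hw => ?_⟩
                have h3 := h2 w hw
                rw [MulAut.mul_apply, MulAut.mul_apply, hwyi w hw] at h3
                have h4 : y (d w) = y w := by rw [h3, hwy w hw]
                exact y.injective h4
            have hDx : ∀ d, d ∈ D ↔ x * d * x⁻¹ ∈ D := by
              intro d
              constructor
              · intro hd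
                rw [← hya a a.2 d (hBA hd.1)]
                exact (hDy d).mp hd
              · intro hd
                have h1 : d ∈ B := (hBx d).mpr hd.1
                rw [hDy, hya a a.2 d (hBA h1)]
                exact hd
            have hcD : x⁻¹ * b * x * b⁻¹ ∈ D := by
              refine ⟨hcB, ?_⟩
              rintro w ⟨hw1, v, hv, hvw⟩
              have hvw' : b v = w := hvw
              have h1 : b⁻¹ w = v := by rw [← hvw', MulAut.inv_apply_self]
              have h2 : y v = v := hv.2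
              have h3 : y⁻¹ w = w := by
                conv_lhs => rw [← mem_fixS.mp hw1.2]
                rw [MulAut.inv_apply_self]
              rw [← hcy, MulAut.mul_apply, MulAut.mul_apply, MulAut.mul_apply, h1, h2, hvw', h3]
            have hDeq : D = B := by
              refine hmin D hDB hDx fun h => hbU fun u hu => ?_
              exact h hu _ hcD
            rw [eq_bot_iff, ← hC]
            intro w hw
            refine ⟨hw.1.1, fun d hd => ?_⟩
            rw [← hDeq] at hd
            exact hd.2 w hw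
          have h1 := lg_add_le hV (inf_le_left : X ≤ U) hYU hXY
          have h2 : lg p Y = lg p X := card_map_aut b X
          rw [h2] at h1
          have h3 : lg p (U ⊓ fixS y) = lg p X := rfl
          rw [h3]
          omega
        calc 2 * ∑ a : A, lg p (U ⊓ fixS (x * a)) = ∑ a : A, 2 * lg p (U ⊓ fixS (x * a)) := by
              rw [Finset.mul_sum]
          _ ≤ ∑ a : A, lg p U := Finset.sum_le_sum fun a _ => key a
          _ = Nat.card A * lg p U := by
              rw [Finset.sum_const, Finset.card_univ, Nat.card_eq_fintype_card, smul_eq_mul]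
      · push Not at hcase
        -- every element of `B` commutes with `x` modulo the kernel
        have hcomm : ∀ b ∈ B, ∀ u ∈ U, (x * b * x⁻¹) u = b u := by
          intro b hb u hu
          have h1 := hcase (x * b * x⁻¹) ((hBx b).mp hb) (hUB b hb u hu)
          have h2 : x⁻¹ * (x * b * x⁻¹) * x * (x * b * x⁻¹)⁻¹ = b * (x * b * x⁻¹)⁻¹ := by group
          rw [h2] at h1
          -- apply to `(x b x⁻¹) u`
          have h3 := hcase (x * b * x⁻¹) ((hBx b).mp hb) (hUB _ ((hBx b).mp hb) u hu)
          rw [h2, mem_fixS, MulAut.mul_apply, MulAut.inv_apply_self] at h3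
          exact h3.symm
        obtain ⟨b, hb, hbU⟩ : ∃ b ∈ B, ¬ U ≤ fixS b := by
          by_contra hcon
          push Not at hcon
          exact hBU fun u hu b hb => hcon b hb hu
        have hbf : U ⊓ fixS b = ⊥ := by
          let D : Subgroup (MulAut V) :=
            { carrier := {d | d ∈ B ∧ ∀ w ∈ U ⊓ fixS b, d w = w}
              one_mem' := ⟨B.one_mem, fun w _ => rfl⟩
              mul_mem' := by
                rintro c d ⟨hc, hc'⟩ ⟨hd, hd'⟩
                refine ⟨B.mul_mem hc hd, fun w hw => ?_⟩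
                rw [MulAut.mul_apply, hd' w hw, hc' w hw]
              inv_mem' := by
                rintro c ⟨hc, hc'⟩
                refine ⟨B.inv_mem hc, fun w hw => ?_⟩
                conv_lhs => rw [← hc' w hw]
                rw [MulAut.inv_apply_self] }
          have hDx : ∀ d, d ∈ D ↔ x * d * x⁻¹ ∈ D := by
            intro d
            constructor
            · rintro ⟨h1, h2⟩
              refine ⟨(hBx d).mp h1, fun w hw => ?_⟩
              rw [hcomm d h1 w hw.1, h2 w hw]
            · rintro ⟨h1, h2⟩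
              have h3 := (hBx d).mpr h1
              refine ⟨h3, fun w hw => ?_⟩
              rw [← hcomm d h3 w hw.1, h2 w hw]
          have hbD : b ∈ D := ⟨hb, fun w hw => hw.2⟩
          have hDeq : D = B := hmin D (fun d hd => hd.1) hDx fun h => hbU fun u hu => h hu _ hbD
          rw [eq_bot_iff, ← hC]
          intro w hw
          refine ⟨hw.1, fun d hd => ?_⟩
          rw [← hDeq] at hd
          exact hd.2 w hw
        have key : ∀ a : A, lg p (U ⊓ fixS (x * a)) + lg p (U ⊓ fixS (x * (a * (⟨b, hBA hb⟩ : A) : A))) ≤ lg p U := by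
          intro a
          refine lg_add_le hV inf_le_left inf_le_left ?_
          rw [eq_bot_iff, ← hbf]
          rintro v ⟨⟨h1, h2⟩, -, h3⟩
          refine ⟨h1, ?_⟩
          have h4 : (x * (a : MulAut V)) v = v := h2
          have h5 : (x * ((a : MulAut V) * b)) v = v := h3
          rw [← mul_assoc, MulAut.mul_apply] at h5
          exact (x * (a : MulAut V)).injective (h5.trans h4.symm)
        have hsum : ∑ a : A, lg p (U ⊓ fixS (x * (a * (⟨b, hBA hb⟩ : A) : A))) = ∑ a : A, lg p (U ⊓ fixS (x * a)) :=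
          Fintype.sum_equiv (Equiv.mulRight (⟨b, hBA hb⟩ : A)) _ _ fun a => rfl
        calc 2 * ∑ a : A, lg p (U ⊓ fixS (x * a))
            = ∑ a : A, (lg p (U ⊓ fixS (x * a)) + lg p (U ⊓ fixS (x * (a * (⟨b, hBA hb⟩ : A) : A)))) := by
              rw [Finset.sum_add_distrib, hsum, two_mul]
          _ ≤ ∑ a : A, lg p U := Finset.sum_le_sum fun a _ => key a
          _ = Nat.card A * lg p U := by
              rw [Finset.sum_const, Finset.card_univ, Nat.card_eq_fintype_card, smul_eq_mul]
    · -- split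
      have hCpos := lg_pos hV hC
      have hsplit := lg_split hV B hcopB U
      have hCne : U ⊓ fixB B ≠ U := fun h => hBU (inf_eq_left.mp h)
      have hClt : lg p (U ⊓ fixB B) < lg p U := by
        refine lt_of_le_of_ne (lg_mono hV inf_le_left) fun h => hCne ?_
        have h1 : Nat.card (U ⊓ fixB B : Subgroup V) = Nat.card U := by rw [card_eq hV, card_eq hV U, h]
        exact Subgroup.eq_of_le_of_card_ge inf_le_left h1.ge
      have hCA : ∀ a ∈ A, ∀ u ∈ U ⊓ fixB B, a u ∈ U ⊓ fixB B := by
        rintro a ha u ⟨h1, h2⟩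
        refine ⟨hUA a ha u h1, fun b hb => ?_⟩
        rw [← MulAut.mul_apply, ← hA a ha b (hBA hb), MulAut.mul_apply, h2 b hb]
      have hCx : ∀ u ∈ U ⊓ fixB B, x u ∈ U ⊓ fixB B := by
        rintro u ⟨h1, h2⟩
        refine ⟨hUx u h1, fun b hb => ?_⟩
        have h3 : x⁻¹ * b * x ∈ B := (hBx _).mpr (by
          have : x * (x⁻¹ * b * x) * x⁻¹ = b := by group
          rw [this]; exact hb)
        have h4 : b * x = x * (x⁻¹ * b * x) := by group
        rw [← MulAut.mul_apply, h4, MulAut.mul_apply, h2 _ h3]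
      have hKA : ∀ a ∈ A, ∀ u ∈ U ⊓ (nu B).ker, a u ∈ U ⊓ (nu B).ker := by
        rintro a ha u ⟨h1, h2⟩
        refine ⟨hUA a ha u h1, ?_⟩
        change nu B (a u) = 1
        have h3 : ∀ b, b ∈ B ↔ a * b * a⁻¹ ∈ B := by
          intro b
          constructor
          · intro hb
            rw [hA a ha b (hBA hb), mul_assoc, mul_inv_cancel, mul_one]
            exact hb
          · intro hb
            have h4 : b = a⁻¹ * (a * b * a⁻¹) * a := by group
            rw [h4, mul_assoc, hA _ (hBA hb) a ha, ← mul_assoc, inv_mul_cancel, one_mul]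
            exact hb
        rw [← map_nu B h3, MonoidHom.mem_ker.mp h2, map_one]
      have hKx : ∀ u ∈ U ⊓ (nu B).ker, x u ∈ U ⊓ (nu B).ker := by
        rintro u ⟨h1, h2⟩
        refine ⟨hUx u h1, ?_⟩
        change nu B (x u) = 1
        rw [← map_nu B hBx, MonoidHom.mem_ker.mp h2, map_one]
      have hCf : (U ⊓ fixB B) ⊓ fixB A = ⊥ := by
        rw [eq_bot_iff, ← hUf]
        exact inf_le_inf_right _ inf_le_left
      have hKf : (U ⊓ (nu B).ker) ⊓ fixB A = ⊥ := by
        rw [eq_bot_iff, ← hUf]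
        exact inf_le_inf_right _ inf_le_left
      have e1 := ih (U ⊓ fixB B) (by omega) hCA hCx hCf
      have e2 := ih (U ⊓ (nu B).ker) (by omega) hKA hKx hKf
      calc 2 * ∑ a : A, lg p (U ⊓ fixS (x * a))
          ≤ 2 * ∑ a : A, (lg p ((U ⊓ fixB B) ⊓ fixS (x * a)) + lg p ((U ⊓ (nu B).ker) ⊓ fixS (x * a))) :=
            Nat.mul_le_mul_left 2 (Finset.sum_le_sum fun a _ => lg_fix_split hV B U hUB (x * a) (hya2 a a.2))
        _ = 2 * ∑ a : A, lg p ((U ⊓ fixB B) ⊓ fixS (x * a)) + 2 * ∑ a : A, lg p ((U ⊓ (nu B).ker) ⊓ fixS (x * a)) := by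
            rw [Finset.sum_add_distrib, mul_add]
        _ ≤ Nat.card A * lg p (U ⊓ fixB B) + Nat.card A * lg p (U ⊓ (nu B).ker) := add_le_add e1 e2
        _ = Nat.card A * (lg p (U ⊓ fixB B) + lg p (U ⊓ (nu B).ker)) := by ring
        _ ≤ Nat.card A * lg p U := Nat.mul_le_mul_left _ hsplit

end main

end Cfsg.Agent.BlkInd.AvgFix
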