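import Cfsg.Agent.BlkInd.AvgFix

/-!
# Average size of fixed point subgroups, II (owner: helper16)
-/

set_option autoImplicit false

namespace Cfsg.Agent.BlkInd.AvgFix

open scoped commutatorElement

/-- A nontrivial solvable finite group has a nontrivial abelian normal subgroup. -/
theorem exists_abelian_normal {H : Type*} [Group H] [Nontrivial H] (hH : Group.IsSolvable H) :
    ∃ A : Subgroup H, A.Normal ∧ A ≠ ⊥ ∧ ∀ a ∈ A, ∀ b ∈ A, a * b = b * a := by
  classical
  have hex : ∃ n, derivedSeries H n = ⊥ := (Group.isSolvable_def H).mp hH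
  have h0 : Nat.find hex ≠ 0 := by
    intro h
    have h1 := Nat.find_spec hex
    rw [h, derivedSeries_zero] at h1
    exact top_ne_bot h1
  obtain ⟨m, hm⟩ := Nat.exists_eq_succ_of_ne_zero h0
  have h1 : derivedSeries H (m + 1) = ⊥ := by
    have := Nat.find_spec hex
    rwa [hm] at this
  have h2 : derivedSeries H m ≠ ⊥ := Nat.find_min hex (by omega)
  refine ⟨derivedSeries H m, inferInstance, h2, fun a ha b hb => ?_⟩
  rw [derivedSeries_succ] at h1
  have h3 : ⁅a, b⁆ ∈ (⊥ : Subgroup H) := by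
    rw [← h1]
    exact Subgroup.commutator_mem_commutator ha hb
  rw [Subgroup.mem_bot, commutatorElement_eq_one_iff_mul_comm] at h3
  exact h3

section

variable {V : Type*} [CommGroup V] [Finite V] {p : ℕ} [hp : Fact p.Prime]

theorem fixB_ne_bot (hV : IsPGroup p V) [Nontrivial V] (P : Subgroup (MulAut V)) (hP : IsPGroup p P) :
    fixB P ≠ ⊥ := by
  classical
  have h1 := hP.card_modEq_card_fixedPoints V
  have h2 : p ∣ Nat.card V := by
    obtain ⟨n, hn⟩ := IsPGroup.iff_card.mp hV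
    have h3 : 1 < Nat.card V := Finite.one_lt_card
    rw [hn] at h3 ⊢
    have h4 : n ≠ 0 := by
      rintro rfl
      simp at h3
    exact dvd_pow_self p h4
  have h3 : p ∣ Nat.card (MulAction.fixedPoints P V) := by
    rw [← Nat.modEq_zero_iff_dvd] at h2 ⊢
    exact h1.symm.trans h2
  intro hbot
  have h4 : Nat.card (MulAction.fixedPoints P V) = 1 := by
    rw [Nat.card_eq_one_iff_unique]
    refine ⟨⟨fun a b => Subtype.ext ?_⟩, ⟨⟨1, fun g => map_one (g : MulAut V)⟩⟩⟩
    have h5 : ∀ c : MulAction.fixedPoints P V, (c : V) = 1 := by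
      intro c
      have h6 : (c : V) ∈ fixB P := fun b hb => c.2 ⟨b, hb⟩
      rw [hbot, Subgroup.mem_bot] at h6
      exact h6
    rw [h5 a, h5 b]
  rw [h4] at h3
  exact hp.out.one_lt.ne' (Nat.dvd_one.mp h3)

/-- Average over an irreducible solvable group of automorphisms. -/
theorem group_avg {G : Type*} [Group G] [Fintype G] (hV : IsPGroup p V) (φ : G →* MulAut V)
    (hsolv : Group.IsSolvable G) (hne : φ.range ≠ ⊥)
    (hirr : ∀ U : Subgroup V, (∀ g : G, ∀ u ∈ U, φ g u ∈ U) → U = ⊥ ∨ U = ⊤) :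
    2 * ∑ g : G, lg p (fixS (φ g)) ≤ Nat.card G * lg p (⊤ : Subgroup V) := by
  classical
  have hVn : Nontrivial V := by
    by_contra h
    rw [not_nontrivial_iff_subsingleton] at h
    apply hne
    rw [eq_bot_iff]
    intro a _
    rw [Subgroup.mem_bot]
    ext v
    exact Subsingleton.elim _ _
  have hRn : Nontrivial φ.range := (Subgroup.nontrivial_iff_ne_bot _).mpr hne
  have hsolR : Group.IsSolvable φ.range := Group.isSolvable_of_surjective φ.rangeRestrict_surjective
  obtain ⟨A', hA'n, hA'ne, hA'c⟩ := exists_abelian_normal hsolR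
  let A : Subgroup (MulAut V) := A'.map φ.range.subtype
  have hAR : A ≤ φ.range := Subgroup.map_subtype_le A'
  have hAc : ∀ a ∈ A, ∀ b ∈ A, a * b = b * a := by
    rintro _ ⟨a, ha, rfl⟩ _ ⟨b, hb, rfl⟩
    have := hA'c a ha b hb
    exact congrArg Subtype.val this
  have hAn : ∀ g : G, ∀ a ∈ A, φ g * a * (φ g)⁻¹ ∈ A := by
    rintro g _ ⟨a, ha, rfl⟩
    exact ⟨_, hA'n.conj_mem a ha ⟨φ g, g, rfl⟩, rfl⟩
  have hAx : ∀ g : G, ∀ a, a ∈ A ↔ φ g * a * (φ g)⁻¹ ∈ A := by
    intro g a
    refine ⟨hAn g a, fun h => ?_⟩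
    have h1 := hAn g⁻¹ _ h
    have h2 : φ g⁻¹ * (φ g * a * (φ g)⁻¹) * (φ g⁻¹)⁻¹ = a := by
      rw [map_inv]; group
    rwa [h2] at h1
  have hAne : A ≠ ⊥ := by
    intro h
    apply hA'ne
    exact (Subgroup.map_eq_bot_iff_of_injective A' φ.range.subtype_injective).mp h
  have hinvfix : ∀ B : Subgroup (MulAut V), (∀ g : G, ∀ a, a ∈ B ↔ φ g * a * (φ g)⁻¹ ∈ B) →
      ∀ g : G, ∀ u ∈ fixB B, φ g u ∈ fixB B := by
    intro B hB g u hu b hb
    have h3 : (φ g)⁻¹ * b * φ g ∈ B := (hB g _).mpr (by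
      have : φ g * ((φ g)⁻¹ * b * φ g) * (φ g)⁻¹ = b := by group
      rw [this]; exact hb)
    have h4 : b * φ g = φ g * ((φ g)⁻¹ * b * φ g) := by group
    rw [← MulAut.mul_apply, h4, MulAut.mul_apply, hu _ h3]
  have hfix_ne_top : ∀ B : Subgroup (MulAut V), B ≠ ⊥ → fixB B ≠ ⊤ := by
    intro B hB h
    apply hB
    rw [eq_bot_iff]
    intro b hb
    rw [Subgroup.mem_bot]
    ext v
    have : v ∈ fixB B := by rw [h]; exact Subgroup.mem_top v
    exact this b hb
  have hcop : ¬ p ∣ Nat.card A := by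
    intro hpA
    let P : Subgroup (MulAut V) :=
      { carrier := {a | a ∈ A ∧ a ^ p = 1}
        one_mem' := ⟨A.one_mem, one_pow p⟩
        mul_mem' := by
          rintro a b ⟨ha, ha'⟩ ⟨hb, hb'⟩
          refine ⟨A.mul_mem ha hb, ?_⟩
          rw [(show Commute a b from hAc a ha b hb).mul_pow, ha', hb', one_mul]
        inv_mem' := by
          rintro a ⟨ha, ha'⟩
          exact ⟨A.inv_mem ha, by rw [inv_pow, ha', inv_one]⟩ }
    have hPx : ∀ g : G, ∀ a, a ∈ P ↔ φ g * a * (φ g)⁻¹ ∈ P := by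
      intro g a
      have h1 : (φ g * a * (φ g)⁻¹) ^ p = φ g * a ^ p * (φ g)⁻¹ := conj_pow
      constructor
      · rintro ⟨h2, h3⟩
        exact ⟨hAn g a h2, by rw [h1, h3]; group⟩
      · rintro ⟨h2, h3⟩
        refine ⟨(hAx g a).mpr h2, ?_⟩
        rw [h1] at h3
        have h4 : a ^ p = (φ g)⁻¹ * (φ g * a ^ p * (φ g)⁻¹) * φ g := by group
        rw [h4, h3]; group
    have hPp : IsPGroup p P := by
      rintro ⟨a, ha, ha'⟩
      exact ⟨1, Subtype.ext (by simpa using ha')⟩
    have h1 := hirr (fixB P) (hinvfix P hPx)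
    rcases h1 with h1 | h1
    · exact fixB_ne_bot hV P hPp h1
    · have hPbot : P = ⊥ := by
        by_contra h
        exact hfix_ne_top P h h1
      obtain ⟨a, ha⟩ := exists_prime_orderOf_dvd_card' p hpA
      have h2 : (a : MulAut V) ∈ P := by
        refine ⟨a.2, ?_⟩
        have h3 : a ^ p = 1 := by rw [← ha]; exact pow_orderOf_eq_one a
        exact congrArg Subtype.val h3
      rw [hPbot, Subgroup.mem_bot] at h2
      have h3 : a = 1 := Subtype.ext h2
      rw [h3, orderOf_one] at ha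
      exact hp.out.one_lt.ne ha
  have hfixA : fixB A = ⊥ := (hirr (fixB A) (hinvfix A hAx)).resolve_right (hfix_ne_top A hAne)
  haveI := Fintype.ofFinite A
  have key : ∀ g : G, 2 * ∑ a : A, lg p (fixS (φ g * (a : MulAut V))) ≤ Nat.card A * lg p (⊤ : Subgroup V) := by
    intro g
    have h1 := coset_avg hV A hAc hcop (φ g) (hAx g) (lg p (⊤ : Subgroup V)) ⊤ le_rfl
      (fun a _ u _ => Subgroup.mem_top _) (fun u _ => Subgroup.mem_top _) (by rw [top_inf_eq, hfixA])
    simpa only [top_inf_eq] using h1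
  have hsw : ∑ g : G, ∑ a : A, lg p (fixS (φ g * (a : MulAut V))) = Nat.card A * ∑ g : G, lg p (fixS (φ g)) := by
    rw [Finset.sum_comm]
    have h1 : ∀ a : A, ∑ g : G, lg p (fixS (φ g * (a : MulAut V))) = ∑ g : G, lg p (fixS (φ g)) := by
      intro a
      obtain ⟨s, hs⟩ := hAR a.2
      rw [← hs]
      refine Fintype.sum_equiv (Equiv.mulRight s) _ _ fun g => ?_
      rw [Equiv.coe_mulRight, map_mul]
    rw [Finset.sum_congr rfl (fun a _ => h1 a), Finset.sum_const, Finset.card_univ, smul_eq_mul,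
      Nat.card_eq_fintype_card]
  have hpos : 0 < Nat.card A := Nat.card_pos
  have htot : Nat.card A * (2 * ∑ g : G, lg p (fixS (φ g))) ≤ Nat.card A * (Nat.card G * lg p (⊤ : Subgroup V)) := by
    calc Nat.card A * (2 * ∑ g : G, lg p (fixS (φ g))) = 2 * (Nat.card A * ∑ g : G, lg p (fixS (φ g))) := by ring
      _ = ∑ g : G, 2 * ∑ a : A, lg p (fixS (φ g * (a : MulAut V))) := by rw [← hsw, Finset.mul_sum]
      _ ≤ ∑ g : G, Nat.card A * lg p (⊤ : Subgroup V) := Finset.sum_le_sum fun g _ => key g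
      _ = Nat.card A * (Nat.card G * lg p (⊤ : Subgroup V)) := by
          rw [Finset.sum_const, Finset.card_univ, smul_eq_mul, Nat.card_eq_fintype_card (α := G)]
          ring
  exact Nat.le_of_mul_le_mul_left htot hpos

end

end Cfsg.Agent.BlkInd.AvgFix
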