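import Cfsg.Agent.BlkInd.AvgFix3
import Cfsg.Agent.H10.Nilp

/-!
# Degrees of primitive characters and class sizes, refined (owner: helper16)
-/

set_option autoImplicit false

namespace Cfsg.Agent.BlkInd.AvgFix

open Cfsg Cfsg.Agent.Char Cfsg.Agent.CharBase Cfsg.Agent.Char.GD
open scoped commutatorElement

universe u

variable {G : Type u} [Group G] [Fintype G]

/-- A function `w` is constant on cosets of the normal subgroups which are `p`-groups modulo the Fitting subgroup. -/
def CosetInv (p : ℕ) (w : G → ℕ) : Prop :=
  ∀ N : Subgroup G, N.Normal → (∀ n ∈ N, ∃ k : ℕ, n ^ (p ^ k) ∈ fittingSubgroup G) → ∀ g : G, ∀ n ∈ N, w (g * n) = w g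

theorem step_fun {p : ℕ} [hp : Fact p.Prime] (hsolv : Group.IsSolvable G) (K L : Subgroup G) [hK : K.Normal] [hL : L.Normal]
    (hLK : L < K) (hchief : ∀ M : Subgroup G, M.Normal → L ≤ M → M ≤ K → M = L ∨ M = K) (hab : ⁅K, K⁆ ≤ L)
    (hpd : p ∣ L.relIndex K) (hsq : IsSquare (L.relIndex K)) :
    ∃ d : G → ℕ, (∀ g : G, (cx L g).factorization p + d g ≤ (cx K g).factorization p) ∧
      Nat.card G * (L.relIndex K).factorization p ≤ 2 * ∑ g : G, d g ∧ CosetInv p d := by
  classical
  set π : G →* G ⧸ L := QuotientGroup.mk' L with hπ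
  have hπs : Function.Surjective π := QuotientGroup.mk'_surjective L
  have hker : π.ker = L := QuotientGroup.ker_mk' L
  set V : Subgroup (G ⧸ L) := K.map π with hVdef
  have hVn : V.Normal := hK.map π hπs
  letI : CommGroup V :=
    { (inferInstance : Group V) with
      mul_comm := by
        rintro ⟨_, a, ha, rfl⟩ ⟨_, b, hb, rfl⟩
        apply Subtype.ext
        change π a * π b = π b * π a
        have h1 : ⁅a, b⁆ ∈ L := hab (Subgroup.commutator_mem_commutator ha hb)
        have h2 : π ⁅a, b⁆ = 1 := by
          rw [← MonoidHom.mem_ker, hker]; exact h1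
        rw [map_commutatorElement, commutatorElement_eq_one_iff_mul_comm] at h2
        exact h2 }
  have hVcard : Nat.card V = L.relIndex K := by
    rw [hVdef, ← Subgroup.relIndex_ker, hker]
  let φ : G →* MulAut V := (MulAut.conjNormal (H := V)).comp π
  have hφ : ∀ (g : G) (v : V), ((φ g v : V) : G ⧸ L) = π g * v * (π g)⁻¹ := fun g v => MulAut.conjNormal_apply _ _
  have hirr : ∀ U : Subgroup V, (∀ g : G, ∀ u ∈ U, φ g u ∈ U) → U = ⊥ ∨ U = ⊤ := by
    intro U hU
    set M : Subgroup G := (U.map V.subtype).comap π with hM
    have hMn : M.Normal := by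
      constructor
      rintro m ⟨u, hu, hum⟩ g
      refine ⟨φ g u, hU g u hu, ?_⟩
      have hum' : (u : G ⧸ L) = π m := hum
      change ((φ g u : V) : G ⧸ L) = π (g * m * g⁻¹)
      rw [hφ, hum', map_mul, map_mul, map_inv]
    have hLM : L ≤ M := by
      intro l hl
      refine ⟨1, U.one_mem, ?_⟩
      rw [← hker] at hl
      rw [MonoidHom.mem_ker.mp hl, map_one]
    have hMK : M ≤ K := by
      rintro m ⟨u, hu, hum⟩
      obtain ⟨k, hk, hku⟩ := u.2
      have h1 : π k = π m := hku.trans hum
      have h2 : k⁻¹ * m ∈ L := by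
        rw [← hker, MonoidHom.mem_ker, map_mul, map_inv, h1, inv_mul_cancel]
      have h3 := K.mul_mem hk (hLK.le h2)
      rwa [mul_inv_cancel_left] at h3
    rcases hchief M hMn hLM hMK with h | h
    · left
      rw [eq_bot_iff]
      intro u hu
      obtain ⟨k, hk, hku⟩ := u.2
      have h1 : k ∈ M := ⟨u, hu, hku.symm⟩
      rw [h, ← hker, MonoidHom.mem_ker] at h1
      rw [Subgroup.mem_bot]
      apply Subtype.ext
      rw [← hku, h1]; rfl
    · right
      rw [eq_top_iff]
      intro u _
      obtain ⟨k, hk, hku⟩ := u.2
      rw [← h] at hk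
      obtain ⟨w, hw, hwk⟩ := hk
      have h1 : w = u := Subtype.ext (hwk.trans hku)
      rwa [← h1]
  -- `V` has exponent `p`
  obtain ⟨v0, hv0⟩ := exists_prime_orderOf_dvd_card' (G := V) p (by rw [hVcard]; exact hpd)
  have hVp : IsPGroup p V := by
    let W : Subgroup V :=
      { carrier := {v | v ^ p = 1}
        one_mem' := one_pow p
        mul_mem' := by
          intro a b ha hb
          have ha' : a ^ p = 1 := ha
          have hb' : b ^ p = 1 := hb
          change (a * b) ^ p = 1
          rw [mul_pow, ha', hb', one_mul]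
        inv_mem' := by
          intro a ha
          have ha' : a ^ p = 1 := ha
          change (a⁻¹) ^ p = 1
          rw [inv_pow, ha', inv_one] }
    have hW := hirr W (by
      intro g u hu
      have hu' : u ^ p = 1 := hu
      change (φ g u) ^ p = 1
      rw [← map_pow, hu', map_one])
    have hv0W : v0 ∈ W := by
      change v0 ^ p = 1
      rw [← hv0]; exact pow_orderOf_eq_one v0
    rcases hW with h | h
    · exfalso
      rw [h, Subgroup.mem_bot] at hv0W
      rw [hv0W, orderOf_one] at hv0
      exact hp.out.one_lt.ne hv0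
    · intro v
      refine ⟨1, ?_⟩
      have : v ∈ W := by rw [h]; exact Subgroup.mem_top v
      rw [pow_one]
      exact this
  have hne : φ.range ≠ ⊥ := by
    intro hbot
    have htriv : ∀ g, φ g = 1 := fun g => by
      have : φ g ∈ φ.range := ⟨g, rfl⟩
      rw [hbot, Subgroup.mem_bot] at this
      exact this
    have h1 := hirr (Subgroup.zpowers v0) (fun g u hu => by rw [htriv g]; exact hu)
    rcases h1 with h1 | h1
    · have h2 := Subgroup.mem_zpowers v0
      rw [h1, Subgroup.mem_bot] at h2
      rw [h2, orderOf_one] at hv0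
      exact hp.out.one_lt.ne hv0
    · have h2 : Nat.card V = p := by
        rw [← Subgroup.card_top (G := V), ← h1, Nat.card_zpowers, hv0]
      rw [← hVcard, h2] at hsq
      exact hp.out.prime.not_isSquare hsq
  have havg := group_avg hVp φ hsolv hne hirr
  have hlgtop : lg p (⊤ : Subgroup V) = (L.relIndex K).factorization p := by
    rw [lg, Subgroup.card_top, hVcard]
  have hg : ∀ g : G, (cx L g).factorization p + (L.relIndex K).factorization p ≤
      (cx K g).factorization p + lg p (fixS (φ g)) := by
    intro g
    have h1 := cx_mul K L hLK.le g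
    have h5 : L.relIndex (Subgroup.centralizer ({g} : Set G) ⊓ K) ≠ 0 := by
      rw [Subgroup.relIndex]; exact Subgroup.index_ne_zero_of_finite
    have h6 : L.relIndex K ≠ 0 := by
      rw [Subgroup.relIndex]; exact Subgroup.index_ne_zero_of_finite
    have h2 : (L.relIndex (Subgroup.centralizer ({g} : Set G) ⊓ K) * cx K g).factorization p =
        (cx L g * L.relIndex K).factorization p := by rw [h1]
    rw [Nat.factorization_mul h5 (cx_ne_zero K g), Nat.factorization_mul (cx_ne_zero L g) h6,
      Finsupp.add_apply, Finsupp.add_apply] at h2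
    have h3 : (L.relIndex (Subgroup.centralizer ({g} : Set G) ⊓ K)).factorization p ≤ lg p (fixS (φ g)) := by
      have h4 : L.relIndex (Subgroup.centralizer ({g} : Set G) ⊓ K) =
          Nat.card ((Subgroup.centralizer ({g} : Set G) ⊓ K).map π) := by
        rw [← Subgroup.relIndex_ker, hker]
      have h7 : ((Subgroup.centralizer ({g} : Set G) ⊓ K).map π) ≤ (fixS (φ g)).map V.subtype := by
        rintro _ ⟨x, ⟨hx1, hx2⟩, rfl⟩
        refine ⟨⟨π x, x, hx2, rfl⟩, ?_, rfl⟩
        change φ g _ = _
        apply Subtype.ext
        rw [hφ]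
        have h8 : g * x = x * g := by
          have := Subgroup.mem_centralizer_iff.mp hx1 g rfl
          exact this
        change π g * π x * (π g)⁻¹ = π x
        rw [← map_mul, h8, map_mul, mul_inv_cancel_right]
      have h8 := Subgroup.card_dvd_of_le h7
      rw [Subgroup.card_map_of_injective V.subtype_injective, ← h4] at h8
      rw [lg]
      exact (Nat.factorization_le_iff_dvd h5 (Nat.card_pos.ne')).mpr h8 p
    omega
  have hlgle : ∀ g : G, lg p (fixS (φ g)) ≤ (L.relIndex K).factorization p := fun g => by
    rw [← hlgtop]; exact lg_mono hVp le_top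
  refine ⟨fun g => (L.relIndex K).factorization p - lg p (fixS (φ g)), ?_, ?_, ?_⟩
  · intro g
    have h1 := hg g
    have h2 := hlgle g
    change (cx L g).factorization p + ((L.relIndex K).factorization p - lg p (fixS (φ g))) ≤ _
    omega
  · have hs : ∑ g : G, ((L.relIndex K).factorization p - lg p (fixS (φ g))) + ∑ g : G, lg p (fixS (φ g)) =
        Nat.card G * (L.relIndex K).factorization p := by
      rw [← Finset.sum_add_distrib]
      rw [Finset.sum_congr rfl (fun g _ => Nat.sub_add_cancel (hlgle g)), Finset.sum_const, Finset.card_univ,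
        smul_eq_mul, ← Nat.card_eq_fintype_card]
    rw [hlgtop] at havg
    change _ ≤ 2 * ∑ g : G, ((L.relIndex K).factorization p - lg p (fixS (φ g)))
    omega
  · intro N hN hNp g n hn
    have hVne : V ≠ ⊥ := by
      intro h
      have h1 : Nat.card V = 1 := by rw [h]; exact Subgroup.card_bot
      rw [hVcard] at h1
      rw [h1] at hpd
      exact hp.out.one_lt.ne' (Nat.dvd_one.mp hpd)
    have hVmin : ∀ M : Subgroup (G ⧸ L), M.Normal → M ≤ V → M = ⊥ ∨ M = V := by
      intro M hM hMV
      have hM1 : (M.comap π).Normal := hM.comap π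
      rcases hchief (M.comap π) hM1 (hker.ge.trans (Subgroup.ker_le_comap π M)) (by
          intro m hm
          obtain ⟨k, hk, hkm⟩ := hMV hm
          have h2 : k⁻¹ * m ∈ L := by
            rw [← hker, MonoidHom.mem_ker, map_mul, map_inv, hkm, inv_mul_cancel]
          have h3 := K.mul_mem hk (hLK.le h2)
          rwa [mul_inv_cancel_left] at h3) with h | h
      · left
        rw [← Subgroup.map_comap_eq_self_of_surjective hπs M, h]
        exact (Subgroup.map_eq_bot_iff L).mpr hker.ge
      · right
        rw [← Subgroup.map_comap_eq_self_of_surjective hπs M, h]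
    have hFC : ∀ x ∈ fittingSubgroup G, φ x = 1 := by
      have h1 : fittingSubgroup G ≤ (Subgroup.centralizer (V : Set (G ⧸ L))).comap π := by
        refine sSup_le ?_
        rintro N' ⟨hN'n, hN'⟩
        rw [← Subgroup.map_le_iff_le_comap]
        have h2 : (N'.map π).Normal := hN'n.map π hπs
        have h3 : Group.IsNilpotent (N'.map π) :=
          Group.nilpotent_of_surjective (π.subgroupMap N') (π.subgroupMap_surjective N')
        exact Cfsg.Agent.H10.nilpotent_normal_le_centralizer_minimal_normal V (N'.map π) h3 hVmin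
      intro x hx
      have h2 := h1 hx
      rw [Subgroup.mem_comap, Subgroup.mem_centralizer_iff] at h2
      ext v
      apply congrArg Subtype.val
      apply Subtype.ext
      rw [hφ]
      have h3 := h2 v v.2
      change π x * v * (π x)⁻¹ = v
      rw [← h3, mul_inv_cancel_right]
    have htriv : ∀ n ∈ N, φ n = 1 := by
      let B : Subgroup (MulAut V) := N.map φ
      have hBp : IsPGroup p B := by
        rintro ⟨_, n, hn, rfl⟩
        obtain ⟨k, hk⟩ := hNp n hn
        refine ⟨k, Subtype.ext ?_⟩
        change (φ n) ^ (p ^ k) = 1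
        rw [← map_pow]
        exact hFC _ hk
      have hVnt : Nontrivial V := (Subgroup.nontrivial_iff_ne_bot V).mpr hVne
      have h1 := fixB_ne_bot hVp B hBp
      have h2 := hirr (fixB B) (by
        rintro g u hu _ ⟨n, hn, rfl⟩
        have h3 : g⁻¹ * n * g ∈ N := by
          have := hN.conj_mem n hn g⁻¹
          simpa using this
        have h4 := hu _ ⟨_, h3, rfl⟩
        have h5 : φ n (φ g u) = φ g (φ (g⁻¹ * n * g) u) := by
          rw [← MulAut.mul_apply, ← MulAut.mul_apply, ← map_mul, ← map_mul]
          congr 2
          group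
        rw [h5, h4])
      have h3 := h2.resolve_left h1
      intro n hn
      ext v
      have h4 : v ∈ fixB B := by rw [h3]; exact Subgroup.mem_top v
      exact congrArg Subtype.val (h4 (φ n) ⟨n, hn, rfl⟩)
    change _ - lg p (fixS (φ (g * n))) = _ - lg p (fixS (φ g))
    rw [map_mul, htriv n hn, mul_one]

theorem main_fun {p : ℕ} [hp : Fact p.Prime] (hsolv : Group.IsSolvable G) {χ : G → ℂ} (hχ : IsIrrCharacter G χ)
    (hhom : ∀ K : Subgroup G, K.Normal → Homog χ K) (n : ℕ) :
    ∀ K : Subgroup G, K.Normal → Nat.card K ≤ n → ∀ (φ : K → ℂ) (e : ℕ), IsIrrCharacter K φ →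
      (fun x : K => χ x) = (e : ℂ) • φ →
      ∃ w : G → ℕ, (∀ g, w g ≤ (cx K g).factorization p) ∧
        Nat.card G * (charDegree φ).factorization p ≤ ∑ g : G, w g ∧ CosetInv p w := by
  classical
  induction n with
  | zero =>
    intro K hK hn
    have : 0 < Nat.card K := Nat.card_pos
    omega
  | succ n ih =>
    intro K hK hn φ e hφ hφe
    by_cases hbot : K = ⊥
    · subst hbot
      have h1 : φ 1 = 1 := Cfsg.Agent.H79.linear_of_comm (G := (⊥ : Subgroup G)) (fun a b => Subsingleton.elim _ _) ⟨φ, hφ⟩
      have h2 : charDegree φ = 1 := by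
        rw [charDegree, h1]
        simp
      refine ⟨fun _ => 0, fun g => Nat.zero_le _, ?_, fun N hN hNp g n hn => rfl⟩
      rw [h2]
      simp
    · have hlt : ⊥ < K := bot_lt_iff_ne_bot.mpr hbot
      have hsolq : Group.IsSolvable (G ⧸ (⊥ : Subgroup G)) := Group.isSolvable_of_surjective (QuotientGroup.mk'_surjective _)
      obtain ⟨L, hLn, -, hLK, hchief, hab⟩ := exists_chief_below ⊥ K hlt hsolq
      have hcf := isClassFunction_of_isCharacter (isCharacter_of_isIrr hχ)
      have he0 : (e : ℂ) ≠ 0 := by
        intro h
        have h1 := congrFun hφe 1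
        rw [h, zero_smul] at h1
        exact irr_one_ne_zero hχ h1
      have hinv : ∀ g : G, cj K g φ = φ := by
        intro g
        have h1 := cj_restrict K g hcf
        rw [hφe, cj_smul] at h1
        exact smul_right_injective _ he0 h1
      have hcardL : Nat.card L ≤ n := by
        have h1 : Nat.card L < Nat.card K := by
          rcases lt_or_ge (Nat.card L) (Nat.card K) with h | h
          · exact h
          · exact absurd (Subgroup.eq_of_le_of_card_ge hLK.le h) hLK.ne
        omega
      have hmono : ∀ g : G, (cx L g).factorization p ≤ (cx K g).factorization p := fun g =>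
          (Nat.factorization_le_iff_dvd (cx_ne_zero L g) (cx_ne_zero K g)).mpr (cx_dvd K L hLK.le g) p
      rcases going_down_chief K L hLK.le hchief hab hφ hinv with h1 | ⟨θ, f, hθ, hθf, hf⟩ | ⟨F, hF, hFc, hFs⟩
      · have h2 := ih L hLn hcardL (fun x : L => φ ⟨(x : G), hLK.le x.2⟩) e h1 (by
          funext x
          exact congrFun hφe ⟨(x : G), hLK.le x.2⟩)
        have h3 : charDegree (fun x : L => φ ⟨(x : G), hLK.le x.2⟩) = charDegree φ := by
          rw [charDegree, charDegree]; rfl
        rw [h3] at h2
        obtain ⟨w, hw1, hw2, hw3⟩ := h2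
        exact ⟨w, fun g => (hw1 g).trans (hmono g), hw2, hw3⟩
      · have h2 := ih L hLn hcardL θ (e * f) hθ (by
          funext x
          have h3 := congrFun hφe ⟨(x : G), hLK.le x.2⟩
          have h4 := congrFun hθf x
          simp only [Pi.smul_apply, smul_eq_mul] at h3 h4 ⊢
          rw [h3, h4]
          push_cast
          ring)
        have h3 : charDegree φ = f * charDegree θ := by
          have h4 := congrFun hθf 1
          have h5 := Cfsg.Agent.H79.irr_one ⟨θ, hθ⟩
          have h6 : φ 1 = ((f * charDegree θ : ℕ) : ℂ) := by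
            simp only [Pi.smul_apply, smul_eq_mul] at h4
            have h5' : θ 1 = (charDegree θ : ℂ) := h5
            rw [h5'] at h4
            push_cast
            rw [← h4]; rfl
          exact Cfsg.Agent.H79.charDegree_eq h6
        have hf0 : f ≠ 0 := by
          rintro rfl
          have : L.relIndex K ≠ 0 := by rw [Subgroup.relIndex]; exact Subgroup.index_ne_zero_of_finite
          apply this
          rw [← hf]; rfl
        have hθ0 : charDegree θ ≠ 0 := by
          intro h0
          have h5 : θ 1 = (charDegree θ : ℂ) := Cfsg.Agent.H79.irr_one ⟨θ, hθ⟩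
          rw [h0] at h5
          exact irr_one_ne_zero hθ (by simpa using h5)
        rw [h3, Nat.factorization_mul hf0 hθ0, Finsupp.add_apply, mul_add]
        by_cases hpf : p ∣ L.relIndex K
        · obtain ⟨d, hd1, hd2, hd3⟩ := step_fun (p := p) hsolv K L hLK hchief hab hpf ⟨f, by rw [← hf, sq]⟩
          obtain ⟨w, hw1, hw2, hw3⟩ := h2
          rw [← hf, Nat.factorization_pow, Finsupp.smul_apply, smul_eq_mul] at hd2
          have h5 : Nat.card G * (2 * f.factorization p) = 2 * (Nat.card G * f.factorization p) := by ring
          rw [h5] at hd2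
          refine ⟨fun g => w g + d g, fun g => ?_, ?_, fun N hN hNp g n hn => ?_⟩
          · have h6 := hd1 g
            have h7 := hw1 g
            change w g + d g ≤ _
            omega
          · rw [Finset.sum_add_distrib]
            omega
          · change w (g * n) + d (g * n) = w g + d g
            rw [hw3 N hN hNp g n hn, hd3 N hN hNp g n hn]
        · have h4 : f.factorization p = 0 := by
            apply Nat.factorization_eq_zero_of_not_dvd
            intro h
            apply hpf
            rw [← hf]
            exact h.trans (dvd_pow_self f two_ne_zero)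
          rw [h4, mul_zero, zero_add]
          obtain ⟨w, hw1, hw2, hw3⟩ := h2
          exact ⟨w, fun g => (hw1 g).trans (hmono g), hw2, hw3⟩
      · exfalso
        have hFs' : (fun x : L => χ x) = (e : ℂ) • ∑ ψ ∈ F, ψ := by
          funext x
          have h3 := congrFun hφe ⟨(x : G), hLK.le x.2⟩
          have h4 := congrFun hFs x
          simp only [Pi.smul_apply, smul_eq_mul] at h3 h4 ⊢
          rw [h3, h4]
        obtain ⟨θ, f, hθ, hθf⟩ := hhom L hLn
        have h5 : F.card ≤ 1 := by
          have := Fintype.ofFinite L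
          rw [Finset.card_le_one]
          have key : ∀ ψ ∈ F, θ = ψ := by
            intro ψ hψ
            by_contra hne
            have h6 : classInner (fun x : L => χ x) ψ = e := by
              rw [hFs', classInner_smul_left, classInner_sum_left, Finset.sum_eq_single ψ]
              · rw [classInner_irr_self (G := L) ⟨ψ, hF ψ hψ⟩, mul_one]
              · intro ξ hξ hne'
                exact classInner_irr_of_ne (χ := ⟨ξ, hF ξ hξ⟩) (ψ := ⟨ψ, hF ψ hψ⟩)
                  (fun h => hne' (congrArg Subtype.val h))
              · intro h; exact absurd hψ h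
            have h7 : classInner (fun x : L => χ x) ψ = 0 := by
              rw [hθf, classInner_smul_left, classInner_irr_of_ne (χ := ⟨θ, hθ⟩) (ψ := ⟨ψ, hF ψ hψ⟩)
                (fun h => hne (congrArg Subtype.val h)), mul_zero]
            rw [h6] at h7
            exact he0 h7
          intro a ha b hb
          rw [← key a ha, ← key b hb]
        rw [hFc] at h5
        have h3 : L.relIndex K ≠ 1 := by
          intro h4
          exact hLK.not_ge (Subgroup.relIndex_eq_one.mp h4)
        have h4 : L.relIndex K ≠ 0 := (Subgroup.index_ne_zero_of_finite (H := L.subgroupOf K))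
        omega

/-- One element for two primes. -/
theorem exists_class_fun {p : ℕ} [hp : Fact p.Prime] (hsolv : Group.IsSolvable G) {χ : G → ℂ} (hχ : IsIrrCharacter G χ)
    (hhom : ∀ K : Subgroup G, K.Normal → Homog χ K) :
    ∃ (w : G → ℕ) (g : G), (∀ g, w g ≤ ((Subgroup.centralizer ({g} : Set G)).index).factorization p) ∧
      (charDegree χ).factorization p ≤ w g ∧ CosetInv p w := by
  classical
  obtain ⟨w, hw1, hw2, hw3⟩ := main_fun (p := p) hsolv hχ hhom (Nat.card (⊤ : Subgroup G)) ⊤ inferInstance le_rfl
    (fun x : (⊤ : Subgroup G) => χ x) 1 (isIrr_comp_equiv Subgroup.topEquiv hχ) (by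
      funext x; simp)
  have h2 : charDegree (fun x : (⊤ : Subgroup G) => χ x) = charDegree χ := rfl
  rw [h2] at hw2
  by_cases hcon : ∃ g, (charDegree χ).factorization p ≤ w g
  · obtain ⟨g, hg⟩ := hcon
    refine ⟨w, g, fun g => ?_, hg, hw3⟩
    have := hw1 g
    rwa [cx, Subgroup.relIndex_top_right] at this
  · exfalso
    push Not at hcon
    have h3 : ∑ g : G, w g < ∑ g : G, (charDegree χ).factorization p := by
      apply Finset.sum_lt_sum_of_nonempty ⟨1, Finset.mem_univ _⟩
      intro g _
      exact hcon g
    rw [Finset.sum_const, Finset.card_univ, smul_eq_mul, ← Nat.card_eq_fintype_card] at h3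
    omega

end Cfsg.Agent.BlkInd.AvgFix
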