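import Mathlib
import Cfsg.Agent.BlkInd.NCent3
import Cfsg.Agent.Glaub.Cyclic
import Cfsg.Agent.H76.DetMul
import Cfsg.Agent.Blk.Gal

set_option autoImplicit false
set_option linter.style.haveILetI false
set_option linter.unusedSimpArgs false
set_option linter.unusedSectionVars false
set_option linter.unusedVariables false

/-!
# The canonical extension in the principal block, `G = N C_G(P)`
-/

namespace Cfsg.Agent.BlkInd

open scoped BigOperators ComplexConjugate commutatorElement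
open Cfsg Cfsg.Agent.CharBase Cfsg.Agent.Char Cfsg.Agent.Blk Cfsg.Agent.H76

universe u v w

section Det

variable {K : Type u} [Group K] [Fintype K]

theorem detChar_hom_mul {χ : K → ℂ} (hχ : IsIrrCharacter K χ) (μ : K →* ℂ) {d : ℕ} (hd : χ 1 = d)
    (g : K) : detChar ((μ : K → ℂ) * χ) g = μ g ^ d * detChar χ g := by
  obtain ⟨k, σ, hσ, rfl⟩ := hχ
  have h1 := isIrrCharacter_hom_mul (⟨k, σ, hσ, rfl⟩ : IsIrrCharacter K σ.character) μ
  rw [← twistRep_character, detChar_eq (twistRep μ σ) (by rw [twistRep_character]; exact h1),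
    detHom_twistRep, detChar_eq σ ⟨k, σ, hσ, rfl⟩]
  have h6 : Module.finrank ℂ (Fin k → ℂ) = d := by
    rw [Representation.char_one] at hd
    exact_mod_cast hd
  rw [h6]

theorem not_dvd_detOrder_iff {p : ℕ} {χ : K → ℂ} :
    ¬ p ∣ detOrder χ ↔ ¬ p ∣ orderOf (detChar χ) := Iff.rfl

theorem detChar_pow_detOrder (χ : K → ℂ) (g : K) : detChar χ g ^ detOrder χ = 1 :=
  pow_fun_eq_one_iff.mp (pow_orderOf_eq_one (detChar χ)) g

theorem detOrder_dvd {χ : K → ℂ} {m : ℕ} (h : ∀ g, detChar χ g ^ m = 1) : detOrder χ ∣ m :=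
  orderOf_dvd_of_pow_eq_one (pow_fun_eq_one_iff.mpr h)

end Det

section Arith

theorem exists_exponent {P m d : ℕ} (hP : P ≠ 0) (h : Nat.Coprime (m * d) P) :
    ∃ s, m ∣ s ∧ P ∣ s * d + 1 := by
  haveI : NeZero P := ⟨hP⟩
  refine ⟨m * (-(((m * d : ℕ) : ZMod P)⁻¹)).val, dvd_mul_right _ _, ?_⟩
  rw [← ZMod.natCast_eq_zero_iff]
  push_cast
  rw [ZMod.natCast_val, ZMod.cast_id]
  have h1 := ZMod.coe_mul_inv_eq_one (m * d) h
  push_cast at h1
  linear_combination -h1

end Arith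

section Good

variable {K : Type u} [Group K] [Fintype K] {M : Ideal AlgInt} [hMp : M.IsPrime] {p : ℕ}
  [hp : Fact p.Prime]

/-- the congruences for the values of a good extension -/
def RdGood (M : Ideal AlgInt) [M.IsPrime] (N : Subgroup K) (χ : K → ℂ) : Prop :=
  ∀ z : K, MemLocalRing M ((mN N z : ℂ) * (χ z / χ 1)) ∧
    rd M ((mN N z : ℂ) * (χ z / χ 1)) = (mN N z : kM M)

/-- the restrictions to all intermediate groups are in the principal blocks -/
def BlkGood (M : Ideal AlgInt) (N : Subgroup K) (χ : K → ℂ) : Prop :=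
  ∀ J : Subgroup K, N ≤ J →
    ∃ ξ : IrrCharacter J, ξ ∈ principalBlock M J ∧ ∀ y : J, (ξ : J → ℂ) y = χ y

theorem rdGood_of_blkGood (N : Subgroup K) [hN : N.Normal] {χ : K → ℂ} (h : BlkGood M N χ) :
    RdGood M N χ := by
  classical
  intro z
  set J := N ⊔ Subgroup.zpowers z with hJ
  haveI := Fintype.ofFinite J
  obtain ⟨ξ, hξ, hξχ⟩ := h J le_sup_left
  have hzJ : z ∈ J := Subgroup.mem_sup_right (Subgroup.mem_zpowers z)
  have hidx : (Subgroup.centralizer ({(⟨z, hzJ⟩ : J)} : Set J)).index = mN N z :=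
    index_centralizer_eq_mN N J le_sup_left ⟨z, hzJ⟩ le_rfl
  have h1 : centralChar (ξ : J → ℂ) ⟨z, hzJ⟩ = (mN N z : ℂ) * (χ z / χ 1) := by
    unfold centralChar
    rw [hidx, hξχ, hξχ]
    change _ * χ z / χ 1 = _
    ring
  have h3 : centralChar (fun _ : J => (1 : ℂ)) ⟨z, hzJ⟩ = (mN N z : ℂ) := by
    unfold centralChar
    rw [hidx]; ring
  have h2 := hξ ⟨z, hzJ⟩
  rw [h3, h1] at h2
  have hint : IsIntegral ℤ (centralChar (ξ : J → ℂ) ⟨z, hzJ⟩) :=
    isIntegral_centralChar ξ.2 (⟨z, hzJ⟩ : J)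
  rw [h1] at hint
  refine ⟨mlr_of_isIntegral hint, ?_⟩
  rw [(rd_eq_iff (mlr_of_isIntegral hint) (mlr_natCast _)).mpr (mli_symm h2), rd_natCast]

theorem blkGood_of_rdGood (N : Subgroup K) [hN : N.Normal] [Fintype N] {χ : K → ℂ}
    (hχ : IsIrrCharacter K χ) (hNirr : IsIrrCharacter N (fun n => χ n)) (h : RdGood M N χ) :
    BlkGood M N χ := by
  classical
  intro J hNJ
  haveI := Fintype.ofFinite J
  exact good_mem N (χ := ⟨χ, hχ⟩) hNirr h J hNJ

theorem rdGood_mem (N : Subgroup K) [hN : N.Normal] {χ : IrrCharacter K} (h : RdGood M N χ) :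
    χ ∈ principalBlock M K := by
  intro g
  obtain ⟨h1, h2⟩ := h g
  obtain ⟨k, hk⟩ := mN_dvd_index N (⊤ : Subgroup K) le_top ⟨g, trivial⟩
  have hk' : (Subgroup.centralizer ({g} : Set K)).index = mN N g * k := by
    rw [← hk]
    have h3 : Subgroup.centralizer ({(⟨g, trivial⟩ : (⊤ : Subgroup K))} : Set (⊤ : Subgroup K)) =
        (Subgroup.centralizer ({g} : Set K)).subgroupOf ⊤ := by
      ext z
      rw [Subgroup.mem_subgroupOf, Subgroup.mem_centralizer_singleton_iff,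
        Subgroup.mem_centralizer_singleton_iff]
      exact ⟨fun h => congrArg Subtype.val h, fun h => Subtype.ext h⟩
    rw [h3]
    exact (Subgroup.relIndex_top_right _).symm
  have h3 : centralChar (χ : K → ℂ) g =
      (k : ℂ) * ((mN N g : ℂ) * ((χ : K → ℂ) g / (χ : K → ℂ) 1)) := by
    unfold centralChar
    rw [hk']; push_cast; ring
  have h4 : centralChar (fun _ : K => (1 : ℂ)) g = (k : ℂ) * (mN N g : ℂ) := by
    unfold centralChar
    rw [hk']; push_cast; ring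
  have h5 : MemLocalRing M (mN N g : ℂ) := mlr_natCast _
  rw [h3, h4, ← rd_eq_iff (mlr_mul (mlr_natCast _) h5) (mlr_mul (mlr_natCast _) h1),
    rd_mul (mlr_natCast _) h5, rd_mul (mlr_natCast _) h1, h2, rd_natCast, rd_natCast]

/-- uniqueness of the canonical good extension -/
theorem good_unique (hM : IsPModular p M) (N : Subgroup K) [hN : N.Normal] (P : Sylow p N)
    (hcov : N ⊔ Subgroup.centralizer (((P : Subgroup N).map N.subtype : Subgroup K) : Set K) = ⊤)
    {θ : N → ℂ} (hθ : IsIrrCharacter N θ) {d : ℕ} (hd : θ 1 = d) (hpd : ¬ p ∣ d) {χ χ' : K → ℂ}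
    (hχ : IsIrrCharacter K χ) (hχ' : IsIrrCharacter K χ') (h : ∀ n : N, χ n = θ n)
    (h' : ∀ n : N, χ' n = θ n) (hg : RdGood M N χ) (hg' : RdGood M N χ')
    (ho : ¬ p ∣ detOrder χ) (ho' : ¬ p ∣ detOrder χ') : χ' = χ := by
  classical
  have := charP_kM hM
  obtain ⟨β, hβN, hβ, hβd⟩ := exists_hom_of_same_restrict hχ hχ' hθ h h' hd
  have hpow : ∀ g, β g ^ (d * (detOrder χ * detOrder χ')) = 1 := by
    intro g
    have h1 := hβd g
    have h2 := detChar_pow_detOrder χ g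
    have h3 := detChar_pow_detOrder χ' g
    have h4 : detChar χ' g ^ (detOrder χ * detOrder χ') = 1 := by
      rw [mul_comm, pow_mul, h3, one_pow]
    rw [h1, mul_pow, pow_mul (detChar χ g), h2, one_pow, mul_one, ← pow_mul] at h4
    exact h4
  have hm : ¬ p ∣ d * (detOrder χ * detOrder χ') := by
    rw [hp.out.dvd_mul, hp.out.dvd_mul]
    tauto
  have hm0 : 0 < d * (detOrder χ * detOrder χ') :=
    Nat.pos_of_ne_zero (by intro h0; rw [h0] at hm; simp at hm)
  have hβR : ∀ g, MemLocalRing M (β g) := fun g =>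
    mlr_of_isIntegral (isIntegral_of_pow_one hm0 (hpow g))
  have hβ1 : ∀ g, β g = 1 := by
    intro g
    apply eq_one_of_mli_sub_one hM hm (hpow g)
    rw [← rd_eq_iff (hβR g) mlr_one, rd_one]
    have hgt : g ∈ N ⊔ Subgroup.centralizer
      (((P : Subgroup N).map N.subtype : Subgroup K) : Set K) := by rw [hcov]; trivial
    rw [Subgroup.mem_sup_of_normal_left] at hgt
    obtain ⟨n, hn, c, hc, rfl⟩ := hgt
    rw [map_mul, hβN ⟨n, hn⟩, one_mul]
    have hmN : (mN N c : kM M) ≠ 0 := by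
      rw [Ne, CharP.cast_eq_zero_iff (kM M) p]
      exact not_dvd_mN N P hc
    obtain ⟨h1, h2⟩ := hg c
    obtain ⟨h3, h4⟩ := hg' c
    have h5 : (mN N c : ℂ) * (χ' c / χ' 1) = β c * ((mN N c : ℂ) * (χ c / χ 1)) := by
      rw [hβ]
      simp only [Pi.mul_apply, map_one, one_mul]
      ring
    rw [h5, rd_mul (hβR c) h1, h2] at h4
    exact mul_right_cancel₀ hmN (by rw [h4, one_mul])
  rw [hβ]
  funext g
  rw [Pi.mul_apply, hβ1, one_mul]

/-- existence of the canonical good extension -/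
theorem exists_good_canonical (hM : IsPModular p M) (N : Subgroup K) [hN : N.Normal] [Fintype N]
    (P : Sylow p N)
    (hcov : N ⊔ Subgroup.centralizer (((P : Subgroup N).map N.subtype : Subgroup K) : Set K) = ⊤)
    {θ : IrrCharacter N} (hθB : θ ∈ principalBlock M N) {d : ℕ} (hd : (θ : N → ℂ) 1 = d)
    (hpd : ¬ p ∣ d) (ho : ¬ p ∣ detOrder (θ : N → ℂ)) {χ0 : IrrCharacter K}
    (hext : ∀ n : N, (χ0 : K → ℂ) n = (θ : N → ℂ) n) :
    ∃ χ : IrrCharacter K, (∀ n : N, (χ : K → ℂ) n = (θ : N → ℂ) n) ∧ RdGood M N χ ∧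
      ¬ p ∣ detOrder (χ : K → ℂ) := by
  classical
  obtain ⟨β, χ1, -, hχ1, hg1⟩ := exists_good_extension hM N P hcov hθB hext
  have hdc := detChar_isCharacter χ1.2
  let δ : K →* ℂ := linHom hdc.1 hdc.2
  have hδ : ∀ g, δ g = detChar (χ1 : K → ℂ) g := fun g => rfl
  obtain ⟨a, m, hm, hcard⟩ := Nat.exists_eq_pow_mul_and_not_dvd (Nat.card_pos (α := K)).ne' p
    hp.out.ne_one
  have hδpow : ∀ g, δ g ^ (p ^ a * m) = 1 := by
    intro g
    rw [← hcard, ← map_pow, pow_card_eq_one', map_one]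
  have hcop : Nat.Coprime (m * d) (p ^ a) := by
    apply Nat.Coprime.pow_right
    apply Nat.Coprime.symm
    rw [Nat.Prime.coprime_iff_not_dvd hp.out, hp.out.dvd_mul]
    tauto
  obtain ⟨s, ⟨t, ht⟩, ⟨r, hr⟩⟩ := exists_exponent (pow_pos hp.out.pos a).ne' hcop
  let μ : K →* ℂ := δ ^ s
  have hμ : ∀ g, μ g = δ g ^ s := fun g => rfl
  have hd1 : (χ1 : K → ℂ) 1 = d := by
    rw [← hd]
    exact hχ1 1
  have hμN : ∀ n : N, μ n = 1 := by
    intro n
    rw [hμ, hδ, detChar_restrict N χ1.2 θ.2 hχ1]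
    have h1 : detChar (θ : N → ℂ) n ^ detOrder (θ : N → ℂ) = 1 := detChar_pow_detOrder _ n
    have h2 : detChar (θ : N → ℂ) n ^ (p ^ a * m) = 1 := by
      rw [← detChar_restrict N χ1.2 θ.2 hχ1, ← hδ, hδpow]
    have h3 : orderOf (detChar (θ : N → ℂ) n) ∣ m := by
      have h4 := orderOf_dvd_of_pow_eq_one h1
      have h5 := orderOf_dvd_of_pow_eq_one h2
      have h6 : Nat.Coprime (orderOf (detChar (θ : N → ℂ) n)) (p ^ a) := by
        apply Nat.Coprime.pow_right
        apply Nat.Coprime.symm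
        rw [Nat.Prime.coprime_iff_not_dvd hp.out]
        exact fun h => ho (h.trans h4)
      exact h6.dvd_of_dvd_mul_left h5
    rw [ht, pow_mul, orderOf_dvd_iff_pow_eq_one.mp h3, one_pow]
  have hμp : ∀ g, μ g ^ p ^ a = 1 := by
    intro g
    rw [hμ, ← pow_mul, ht]
    have : m * t * p ^ a = p ^ a * m * t := by ring
    rw [this, pow_mul, hδpow, one_pow]
  have hμR : ∀ g, MemLocalRing M (μ g) := fun g =>
    mlr_of_isIntegral (isIntegral_of_pow_one (pow_pos hp.out.pos a) (hμp g))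
  have hμ1 : ∀ g, rd M (μ g) = 1 := fun g => by
    rw [← rd_one (M := M), rd_eq_iff (hμR g) mlr_one]
    exact mli_sub_one_of_pow_eq_one hM (hμp g)
  refine ⟨⟨_, isIrrCharacter_hom_mul χ1.2 μ⟩, ?_, ?_, ?_⟩
  · intro n
    change μ n * (χ1 : K → ℂ) n = _
    rw [hμN, one_mul, hχ1]
  · intro z
    obtain ⟨h1, h2⟩ := hg1 z
    have h5 : (mN N z : ℂ) * (((μ : K → ℂ) * (χ1 : K → ℂ)) z / ((μ : K → ℂ) * (χ1 : K → ℂ)) 1) =
        μ z * ((mN N z : ℂ) * ((χ1 : K → ℂ) z / (χ1 : K → ℂ) 1)) := by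
      simp only [Pi.mul_apply, map_one, one_mul]
      ring
    change MemLocalRing M ((mN N z : ℂ) * (((μ : K → ℂ) * (χ1 : K → ℂ)) z /
      ((μ : K → ℂ) * (χ1 : K → ℂ)) 1)) ∧ rd M ((mN N z : ℂ) * (((μ : K → ℂ) * (χ1 : K → ℂ)) z /
      ((μ : K → ℂ) * (χ1 : K → ℂ)) 1)) = _
    rw [h5]
    refine ⟨mlr_mul (hμR z) h1, ?_⟩
    rw [rd_mul (hμR z) h1, h2, hμ1, one_mul]
  · intro h
    apply hm
    refine h.trans (detOrder_dvd fun g => ?_)
    change detChar ((μ : K → ℂ) * (χ1 : K → ℂ)) g ^ m = 1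
    rw [detChar_hom_mul χ1.2 μ hd1, hμ, ← hδ, ← pow_mul, ← pow_succ, hr, ← pow_mul]
    have : p ^ a * r * m = p ^ a * m * r := by ring
    rw [this, pow_mul, hδpow, one_pow]

theorem mN_map (N : Subgroup K) (α : K ≃* K) (hα : ∀ n, α n ∈ N ↔ n ∈ N) (z : K) :
    mN N (α z) = mN N z := by
  have h1 : N.map α.toMonoidHom = N := by
    ext n
    rw [Subgroup.mem_map]
    constructor
    · rintro ⟨m, hm, rfl⟩
      exact (hα m).mpr hm
    · intro hn
      refine ⟨α.symm n, ?_, α.apply_symm_apply n⟩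
      rw [← hα, α.apply_symm_apply]; exact hn
  have h2 : (Subgroup.centralizer ({z} : Set K)).map α.toMonoidHom =
      Subgroup.centralizer ({α z} : Set K) := by
    ext n
    rw [Subgroup.mem_map, Subgroup.mem_centralizer_singleton_iff]
    constructor
    · rintro ⟨m, hm, rfl⟩
      rw [Subgroup.mem_centralizer_singleton_iff] at hm
      change α m * α z = α z * α m
      rw [← map_mul, hm, map_mul]
    · intro hn
      refine ⟨α.symm n, ?_, α.apply_symm_apply n⟩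
      rw [Subgroup.mem_centralizer_singleton_iff]
      apply α.injective
      rw [map_mul, map_mul, α.apply_symm_apply, hn]
  unfold mN
  rw [← h2]
  conv_lhs => rw [← h1]
  exact Subgroup.relIndex_map_map_of_injective _ _ α.injective

theorem rdGood_comp (N : Subgroup K) (α : K ≃* K) (hα : ∀ n, α n ∈ N ↔ n ∈ N) {χ : K → ℂ}
    (h : RdGood M N χ) : RdGood M N (fun z => χ (α z)) := by
  intro z
  have h1 := h (α z)
  rw [mN_map N α hα z] at h1
  simp only [map_one]
  exact h1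

theorem blkGood_gal (hM : IsPModular p M) (N : Subgroup K) {n : ℕ}
    (hn : Nat.card K / p ^ (Nat.card K).factorization p ∣ n) {σ : ℂ ≃+* ℂ}
    (hσ : ∀ ζ : ℂ, ζ ^ n = 1 → σ ζ = ζ) {χ : K → ℂ} (h : BlkGood M N χ) :
    BlkGood M N (fun z => σ (χ z)) := by
  classical
  intro J hNJ
  haveI := Fintype.ofFinite J
  obtain ⟨ξ, hξ, hξχ⟩ := h J hNJ
  refine ⟨irrGal σ ξ, irrGal_mem hM (isPBlock_principalBlock (M := M) (G := J)) ?_ hξ, ?_⟩
  · intro ζ hζ
    apply hσ
    obtain ⟨k, hk⟩ : Nat.card J / p ^ (Nat.card J).factorization p ∣ n :=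
      (Nat.ordCompl_dvd_ordCompl_of_dvd (Subgroup.card_subgroup_dvd_card J) p).trans hn
    rw [hk, pow_mul, hζ, one_pow]
  · intro y
    change σ ((ξ : J → ℂ) y) = _
    rw [hξχ]

end Good

end Cfsg.Agent.BlkInd
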