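import Mathlib
import Cfsg.Agent.BlkInd.NCent4

set_option autoImplicit false
set_option linter.style.haveILetI false
set_option linter.unusedSimpArgs false
set_option linter.unusedSectionVars false
set_option linter.unusedVariables false

/-!
# `p`-rational extensions in the principal block
-/

namespace Cfsg.Agent.BlkInd

open scoped BigOperators ComplexConjugate commutatorElement
open Cfsg Cfsg.Agent.CharBase Cfsg.Agent.Char Cfsg.Agent.Blk Cfsg.Agent.H76

universe u v w

section Transfer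

variable {G : Type u} [Group G] [Fintype G] {p : ℕ} [hp : Fact p.Prime]

theorem sylow_transfer (N R : Subgroup G) [hN : N.Normal] (hNR : N ≤ R) (Q : Sylow p N)
    (hcov : R ≤ N ⊔ Subgroup.centralizer (((Q : Subgroup N).map N.subtype : Subgroup G) : Set G)) :
    ∃ Q' : Sylow p (N.subgroupOf R), N.subgroupOf R ⊔
      Subgroup.centralizer (((Q' : Subgroup (N.subgroupOf R)).map (N.subgroupOf R).subtype :
        Subgroup R) : Set R) = ⊤ := by
  classical
  let e : N.subgroupOf R ≃* N := Subgroup.subgroupOfEquivOfLe hNR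
  refine ⟨Q.comapOfInjective e.toMonoidHom e.injective (by
    rw [MonoidHom.range_eq_top.mpr e.surjective]; exact le_top), ?_⟩
  rw [eq_top_iff]
  rintro ⟨x, hx⟩ -
  obtain ⟨n, hn, c, hc, rfl⟩ := Subgroup.mem_sup_of_normal_left.mp (hcov hx)
  have hcR : c ∈ R := by
    have := R.mul_mem (R.inv_mem (hNR hn)) hx
    rwa [inv_mul_cancel_left] at this
  have h1 : (⟨n * c, hx⟩ : R) = ⟨n, hNR hn⟩ * ⟨c, hcR⟩ := rfl
  rw [h1]
  refine Subgroup.mul_mem_sup (show (⟨n, hNR hn⟩ : R) ∈ N.subgroupOf R from hn) ?_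
  rw [Subgroup.mem_centralizer_iff]
  rintro _ ⟨z, hz, rfl⟩
  apply Subtype.ext
  refine Subgroup.mem_centralizer_iff.mp hc _ ⟨e z, ?_, rfl⟩
  exact hz

end Transfer

section Ext

variable {K : Type u} [Group K] [Fintype K] {M : Ideal AlgInt} [hMp : M.IsPrime] {p : ℕ}
  [hp : Fact p.Prime]

/-- `r`-power index, `r ≠ p` -/
theorem exists_ext_rGroup (hM : IsPModular p M) (N : Subgroup K) [hN : N.Normal]
    (Q : Sylow p N)
    (hcov : N ⊔ Subgroup.centralizer (((Q : Subgroup N).map N.subtype : Subgroup K) : Set K) = ⊤)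
    {r k : ℕ} (hr : r.Prime) (hrp : r ≠ p) (hidx : N.index = r ^ k) {θ : IrrCharacter N}
    (hθ : θ ∈ principalBlock M N) :
    ∃ χ : IrrCharacter K, ∀ n : N, (χ : K → ℂ) n = (θ : N → ℂ) n := by
  have hNp : ¬ p ∣ N.index := by
    rw [hidx]
    intro h
    have := (Nat.prime_dvd_prime_iff_eq hp.out hr).mp (hp.out.dvd_of_dvd_pow h)
    exact hrp this.symm
  have hPi : ¬ p ∣ ((Q : Subgroup N).map N.subtype).index := by
    rw [Subgroup.index_map_subtype, hp.out.dvd_mul]
    rintro (h | h)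
    · exact Q.not_dvd_index h
    · exact hNp h
  have hPp : IsPGroup p ((Q : Subgroup N).map N.subtype) := Q.isPGroup'.map _
  obtain ⟨χ, -, h⟩ := exists_ext_qGroup hM (hPp.toSylow hPi) hr k N hNp (by
    rw [IsPGroup.toSylow_coe]; exact hcov) hidx θ hθ
  exact ⟨χ, h⟩

/-- extension to `N C(Q)` -/
theorem exists_ext_cover (hM : IsPModular p M) (N : Subgroup K) [hN : N.Normal]
    (Q : Sylow p N)
    (hcov : N ⊔ Subgroup.centralizer (((Q : Subgroup N).map N.subtype : Subgroup K) : Set K) = ⊤)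
    {θ : IrrCharacter N} (hθ : θ ∈ principalBlock M N)
    (hinv : ∀ g : K, Char.cj N g (θ : N → ℂ) = (θ : N → ℂ)) {d : ℕ} (hd : (θ : N → ℂ) 1 = d)
    (hpd : ¬ p ∣ d) (ho : ¬ p ∣ detOrder (θ : N → ℂ)) :
    ∃ χ : IrrCharacter K, ∀ n : N, (χ : K → ℂ) n = (θ : N → ℂ) n := by
  classical
  haveI := Fintype.ofFinite N
  obtain ⟨χ, hχ, h⟩ := exists_extension_of_primes_det θ.2 hinv fun r hr => by
    by_cases hrp : r = p
    · subst hrp
      right
      refine ⟨1, detOrder (θ : N → ℂ), d, hd, ?_, fun n => ?_⟩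
      · rw [hr.dvd_mul]; tauto
      · rw [detChar_pow_detOrder]; rfl
    · left
      have := Fact.mk hr
      obtain ⟨R⟩ : Nonempty (Sylow r (K ⧸ N)) := inferInstance
      set S : Subgroup K := (R : Subgroup (K ⧸ N)).comap (QuotientGroup.mk' N) with hS
      have hNS : N ≤ S := by
        intro x hx
        rw [hS, Subgroup.mem_comap, QuotientGroup.mk'_apply, (QuotientGroup.eq_one_iff x).mpr hx]
        exact Subgroup.one_mem _
      have hSi : S.index = (R : Subgroup (K ⧸ N)).index := by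
        rw [hS, Subgroup.index_comap_of_surjective _ (QuotientGroup.mk'_surjective N)]
      obtain ⟨k, hk⟩ := IsPGroup.iff_card.mp R.isPGroup'
      have hNSi : (N.subgroupOf S).index = r ^ k := by
        have h1 := Subgroup.relIndex_mul_index hNS
        have h2 := (R : Subgroup (K ⧸ N)).card_mul_index
        rw [hk] at h2
        have h3 : Nat.card (K ⧸ N) = N.index := rfl
        rw [h3, ← h1, hSi] at h2
        exact (Nat.eq_of_mul_eq_mul_right
          (Nat.pos_of_ne_zero Subgroup.index_ne_zero_of_finite) h2).symm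
      haveI := Fintype.ofFinite S
      haveI := Fintype.ofFinite (N.subgroupOf S)
      let e : N.subgroupOf S ≃* N := Subgroup.subgroupOfEquivOfLe hNS
      let θ' : IrrCharacter (N.subgroupOf S) := ⟨fun x => (θ : N → ℂ) (e x),
        isIrrCharacter_comp_surjective θ.2 e.toMonoidHom e.surjective⟩
      have hθ' : θ' ∈ principalBlock M (N.subgroupOf S) :=
        comp_equiv_mem_principalBlock e hθ fun x => rfl
      obtain ⟨Q', hQ'⟩ := sylow_transfer N S hNS Q (by rw [hcov]; exact le_top)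
      obtain ⟨χ1, h1⟩ := exists_ext_rGroup hM (N.subgroupOf S) Q' hQ' hr hrp hNSi hθ'
      refine ⟨indFun S χ1, S.index, indFun_isCharacter S _ (irr_isCharacter χ1), ?_, ?_⟩
      · rw [hSi]; exact R.not_dvd_index
      · rw [indFun_restrict_of_extends hNS hinv (η := (χ1 : S → ℂ)) (fun n => h1 ⟨⟨n, hNS n.2⟩, n.2⟩),
          classInner_smul_left, classInner_self_of_irr θ.2, mul_one]
  exact ⟨⟨χ, hχ⟩, h⟩

end Ext

section Rational

variable {p : ℕ} [hp : Fact p.Prime]

/-- a linear character fixed by the automorphisms fixing the `n`-th roots of unity, `p ∤ n`, has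
order prime to `p` when `p` is odd -/
theorem not_dvd_orderOf_of_fixed (hp2 : p ≠ 2) {n : ℕ} (hn : ¬ p ∣ n) {z : ℂ} {o : ℕ} (ho : 0 < o)
    (hz : z ^ o = 1) (hfix : ∀ σ : ℂ ≃+* ℂ, (∀ ζ : ℂ, ζ ^ n = 1 → σ ζ = ζ) → σ z = z) :
    ¬ p ∣ orderOf z := by
  intro hdvd
  obtain ⟨k, hk⟩ := hdvd
  have hfin : 0 < orderOf z := by
    rw [orderOf_pos_iff, isOfFinOrder_iff_pow_eq_one]
    exact ⟨o, ho, hz⟩
  have hk0 : 0 < k := Nat.pos_of_ne_zero (by rintro rfl; rw [mul_zero] at hk; omega)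
  obtain ⟨ω, hωdef⟩ : ∃ ω, ω = z ^ k := ⟨_, rfl⟩
  have hω : orderOf ω = p := by
    rw [hωdef, orderOf_pow_of_dvd hk0.ne' ⟨p, by rw [hk]; ring⟩, hk]
    exact Nat.mul_div_cancel _ hk0
  have hn0 : n ≠ 0 := by rintro rfl; simp at hn
  have hcop : Nat.Coprime n p := ((Nat.Prime.coprime_iff_not_dvd hp.out).mpr hn).symm
  obtain ⟨j, hj1, hj2⟩ : ∃ j, j ≡ 1 [MOD n] ∧ j ≡ 2 [MOD p] :=
    ⟨_, (Nat.chineseRemainder hcop 1 2).2⟩
  have hjc : j.Coprime (n * p) := by
    apply Nat.Coprime.mul_right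
    · have : Nat.gcd j n = Nat.gcd 1 n := hj1.gcd_eq
      rw [Nat.gcd_one_left] at this
      exact this
    · have : Nat.gcd j p = Nat.gcd 2 p := hj2.gcd_eq
      rw [Nat.Coprime, this]
      exact (Nat.coprime_primes Nat.prime_two hp.out).mpr (Ne.symm hp2)
  obtain ⟨σ, hσ⟩ := exists_aut_pow (Nat.mul_ne_zero hn0 hp.out.ne_zero) hjc
  have hpm : ∀ (w : ℂ) {a b : ℕ}, a ≡ b [MOD orderOf w] → w ^ a = w ^ b := by
    intro w a b hab
    rw [← pow_mod_orderOf w a, ← pow_mod_orderOf w b]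
    rw [hab]
  have h1 : σ z = z := by
    apply hfix
    intro ζ hζ
    rw [hσ ζ (by rw [pow_mul, hζ, one_pow])]
    have h2 : orderOf ζ ∣ n := orderOf_dvd_of_pow_eq_one hζ
    have h3 : ζ ^ j = ζ ^ 1 := hpm ζ (hj1.of_dvd h2)
    rw [h3, pow_one]
  have h2 : σ ω = ω := by rw [hωdef, map_pow, h1]
  have h3 : ω ^ p = 1 := by rw [← hω]; exact pow_orderOf_eq_one ω
  rw [hσ ω (by rw [mul_comm, pow_mul, h3, one_pow])] at h2
  have h4 : ω ^ j = ω ^ 2 := hpm ω (by rw [hω]; exact hj2)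
  rw [h4] at h2
  have h5 : ω = 1 := by
    have h6 : ω ≠ 0 := by
      rintro rfl
      rw [zero_pow hp.out.ne_zero] at h3
      exact zero_ne_one h3
    apply mul_left_cancel₀ h6
    rw [mul_one, ← pow_two, h2]
  rw [h5, orderOf_one] at hω
  exact hp.out.one_lt.ne hω

end Rational

end Cfsg.Agent.BlkInd
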