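import Mathlib
import Cfsg.Agent.BlkInd.NCent5
import Cfsg.Agent.S0867

set_option autoImplicit false
set_option linter.style.haveILetI false
set_option linter.unusedSimpArgs false
set_option linter.unusedSectionVars false
set_option linter.unusedVariables false

/-!
# `p`-rational extensions in the principal block: main theorem
-/

namespace Cfsg.Agent.BlkInd

open scoped BigOperators ComplexConjugate commutatorElement
open Cfsg Cfsg.Agent.CharBase Cfsg.Agent.Char Cfsg.Agent.Blk Cfsg.Agent.H76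

universe u v w

/-- an automorphism fixing `s` fixes the field generated by `s` -/
theorem fix_adjoin (σ : ℂ ≃+* ℂ) {s : Set ℂ} (hs : ∀ x ∈ s, σ x = x) {z : ℂ}
    (hz : z ∈ IntermediateField.adjoin ℚ s) : σ z = z := by
  induction hz using IntermediateField.adjoin_induction with
  | mem x hx => exact hs x hx
  | algebraMap x => exact map_ratCast σ x
  | add x y hx hy h1 h2 => rw [map_add, h1, h2]
  | inv x hx h => rw [map_inv₀, h]
  | mul x y hx hy h1 h2 => rw [map_mul, h1, h2]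

/-- `N C_G(Q)` is normal -/
theorem normal_sup_centralizerN {G : Type u} [Group G] [Finite G] {p : ℕ} [hp : Fact p.Prime]
    (N : Subgroup G) [hN : N.Normal] (Q : Sylow p N) :
    (N ⊔ Subgroup.centralizer (((Q : Subgroup N).map N.subtype : Subgroup G) : Set G)).Normal := by
  set S : Subgroup G := (Q : Subgroup N).map N.subtype with hS
  have hF : Subgroup.normalizer (S : Set G) ⊔ N = ⊤ := Sylow.normalizer_sup_eq_top Q
  have key : ∀ g : G, g ∈ Subgroup.normalizer (S : Set G) →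
      ∀ k ∈ N ⊔ Subgroup.centralizer (S : Set G), g * k * g⁻¹ ∈
        N ⊔ Subgroup.centralizer (S : Set G) := by
    intro h hh k hk
    rw [Subgroup.mem_sup_of_normal_left] at hk
    obtain ⟨m, hm, c, hc, rfl⟩ := hk
    have h1 : h * (m * c) * h⁻¹ = (h * m * h⁻¹) * (h * c * h⁻¹) := by group
    rw [h1]
    refine Subgroup.mul_mem_sup (hN.conj_mem m hm h) ?_
    rw [Subgroup.mem_centralizer_iff] at hc ⊢
    intro s hs
    have h2 : h⁻¹ * s * h ∈ S := by
      have := (Subgroup.mem_normalizer_iff.mp ((Subgroup.normalizer (S : Set G)).inv_mem hh) s).mp hs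
      rwa [inv_inv] at this
    have h3 := hc _ h2
    calc s * (h * c * h⁻¹) = h * ((h⁻¹ * s * h) * c) * h⁻¹ := by group
      _ = h * (c * (h⁻¹ * s * h)) * h⁻¹ := by rw [h3]
      _ = _ := by group
  refine ⟨fun k hk g => ?_⟩
  have hg : g ∈ Subgroup.normalizer (S : Set G) ⊔ N := by rw [hF]; trivial
  rw [Subgroup.mem_sup_of_normal_right] at hg
  obtain ⟨h, hh, n, hn, rfl⟩ := hg
  have h1 : h * n * k * (h * n)⁻¹ = h * (n * k * n⁻¹) * h⁻¹ := by group
  rw [h1]
  apply key h hh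
  have hn' : n ∈ N ⊔ Subgroup.centralizer (S : Set G) := Subgroup.mem_sup_left hn
  exact Subgroup.mul_mem _ (Subgroup.mul_mem _ hn' hk) (Subgroup.inv_mem _ hn')

section Main

variable {G : Type u} [Group G] [Fintype G] {M : Ideal AlgInt} [hMp : M.IsPrime] {p : ℕ}
  [hp : Fact p.Prime]

theorem not_dvd_detOrder_of_fixed {N : Type u} [Group N] [Fintype N] (hp2 : p ≠ 2) {n : ℕ}
    (hn : ¬ p ∣ n) {θ : N → ℂ} (hθ : IsIrrCharacter N θ)
    (hfix : ∀ σ : ℂ ≃+* ℂ, (∀ ζ : ℂ, ζ ^ n = 1 → σ ζ = ζ) → ∀ x, σ (θ x) = θ x) :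
    ¬ p ∣ detOrder θ := by
  have hdc := detChar_isCharacter hθ
  have hpow : ∀ x, detChar θ x ^ Nat.card N = 1 := fun x => linChar_pow_card hdc.1 hdc.2 x
  have h1 : ∀ x, ¬ p ∣ orderOf (detChar θ x) := by
    intro x
    refine not_dvd_orderOf_of_fixed hp2 hn Nat.card_pos (hpow x) fun σ hσ => ?_
    have h2 := Glaub.detChar_map σ hθ
    have h3 : (fun g => σ (θ g)) = θ := funext fun g => hfix σ hσ g
    rw [h3] at h2
    exact (congrFun h2 x).symm
  intro hdvd
  obtain ⟨k, hk⟩ := hdvd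
  have ho : 0 < detOrder θ :=
    Nat.pos_of_dvd_of_pos (detOrder_dvd hpow) Nat.card_pos
  have h2 : ∀ x, detChar θ x ^ k = 1 := by
    intro x
    have h3 : orderOf (detChar θ x) ∣ p * k := by
      rw [← hk]; exact orderOf_dvd_of_pow_eq_one (detChar_pow_detOrder θ x)
    have h4 : Nat.Coprime (orderOf (detChar θ x)) p :=
      ((Nat.Prime.coprime_iff_not_dvd hp.out).mpr (h1 x)).symm
    exact orderOf_dvd_iff_pow_eq_one.mp (h4.dvd_of_dvd_mul_left h3)
  have h3 := detOrder_dvd h2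
  rw [hk] at h3 ho
  have hk0 : 0 < k := Nat.pos_of_mul_pos_left ho
  have h4 := Nat.le_of_dvd hk0 h3
  nlinarith [hp.out.two_le]

theorem exists_rational_extension (hM : IsPModular p M) (hp2 : p ≠ 2) (N : Subgroup G)
    [hN : N.Normal] (θ : IrrCharacter N)
    (hinv : ∀ g : G, ∀ n n' : N, (n' : G) = g * (n : G) * g⁻¹ → (θ : N → ℂ) n' = (θ : N → ℂ) n)
    {d : ℕ} (hd : (θ : N → ℂ) 1 = d) (hpd : ¬ p ∣ d) {m : ℕ} (hm : ¬ p ∣ m)
    (hrat : ∀ n : N, (θ : N → ℂ) n ∈
      IntermediateField.adjoin ℚ ({Complex.exp (2 * Real.pi * Complex.I / m)} : Set ℂ))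
    (hB : θ ∈ principalBlock M N) (Q : Sylow p N) {a : ℕ}
    (hidx : (N ⊔ Subgroup.centralizer
      (((Q : Subgroup N).map N.subtype : Subgroup G) : Set G)).index = p ^ a) :
    ∃ χ : IrrCharacter G, χ ∈ principalBlock M G ∧
      (∃ n : ℕ, ¬ p ∣ n ∧ ∀ g : G, (χ : G → ℂ) g ∈
        IntermediateField.adjoin ℚ ({Complex.exp (2 * Real.pi * Complex.I / n)} : Set ℂ)) ∧
      ∀ n : N, (χ : G → ℂ) n = (θ : N → ℂ) n := by
  classical
  haveI := Fintype.ofFinite N
  have := charP_kM hM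
  have hm0 : m ≠ 0 := by rintro rfl; simp at hm
  -- the modulus
  obtain ⟨mG, hmG⟩ : ∃ mG, mG = Nat.card G / p ^ (Nat.card G).factorization p := ⟨_, rfl⟩
  have hpmG : ¬ p ∣ mG := by
    rw [hmG]; exact Nat.not_dvd_ordCompl hp.out Nat.card_pos.ne'
  obtain ⟨n, hn⟩ : ∃ n, n = m * mG := ⟨_, rfl⟩
  have hpn : ¬ p ∣ n := by rw [hn, hp.out.dvd_mul]; tauto
  have hn0 : n ≠ 0 := by rintro rfl; simp at hpn
  have hθfix : ∀ σ : ℂ ≃+* ℂ, (∀ ζ : ℂ, ζ ^ n = 1 → σ ζ = ζ) →
      ∀ x, σ ((θ : N → ℂ) x) = (θ : N → ℂ) x := by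
    intro σ hσ x
    refine fix_adjoin σ ?_ (hrat x)
    rintro _ rfl
    apply hσ
    rw [hn, pow_mul, (Complex.isPrimitiveRoot_exp m hm0).pow_eq_one, one_pow]
  have hoθ : ¬ p ∣ detOrder (θ : N → ℂ) := not_dvd_detOrder_of_fixed hp2 hpn θ.2 hθfix
  -- the group `K`
  haveI hKn := normal_sup_centralizerN N Q
  set K := N ⊔ Subgroup.centralizer (((Q : Subgroup N).map N.subtype : Subgroup G) : Set G)
    with hK
  have hNK : N ≤ K := le_sup_left
  haveI := Fintype.ofFinite K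
  haveI := Fintype.ofFinite (N.subgroupOf K)
  obtain ⟨Q', hcov⟩ := sylow_transfer N K hNK Q le_rfl
  let e : N.subgroupOf K ≃* N := Subgroup.subgroupOfEquivOfLe hNK
  let θ' : IrrCharacter (N.subgroupOf K) := ⟨fun x => (θ : N → ℂ) (e x),
    isIrrCharacter_comp_surjective θ.2 e.toMonoidHom e.surjective⟩
  have hθ'e : ∀ x, (θ' : N.subgroupOf K → ℂ) x = (θ : N → ℂ) (e x) := fun x => rfl
  have hθ'B : θ' ∈ principalBlock M (N.subgroupOf K) :=
    comp_equiv_mem_principalBlock e hB fun x => rfl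
  have hd' : (θ' : N.subgroupOf K → ℂ) 1 = d := by
    rw [hθ'e, map_one, hd]
  have hoθ' : ¬ p ∣ detOrder (θ' : N.subgroupOf K → ℂ) := by
    have h1 : detOrder (fun x => (θ : N → ℂ) (e.toMonoidHom x)) = detOrder (θ : N → ℂ) :=
      detOrder_comp e.toMonoidHom e.surjective θ.2
    have h2 : (θ' : N.subgroupOf K → ℂ) = fun x => (θ : N → ℂ) (e.toMonoidHom x) := rfl
    rw [h2, h1]; exact hoθ
  have hinv' : ∀ k : K, Char.cj (N.subgroupOf K) k (θ' : N.subgroupOf K → ℂ) =
      (θ' : N.subgroupOf K → ℂ) := by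
    intro k
    funext x
    rw [Char.cj_apply, hθ'e, hθ'e]
    exact hinv (k : G) _ _ rfl
  obtain ⟨χ0, hχ0⟩ := exists_ext_cover hM (N.subgroupOf K) Q' hcov hθ'B hinv' hd' hpd hoθ'
  obtain ⟨χK, hχK, hgK, hoK⟩ := exists_good_canonical hM (N.subgroupOf K) Q' hcov hθ'B hd' hpd
    hoθ' hχ0
  have hχK1 : (χK : K → ℂ) 1 = d := by rw [← hd']; exact hχK 1
  -- invariance
  have hKinv : ∀ g : G, Char.cj K g (χK : K → ℂ) = (χK : K → ℂ) := by
    intro g
    let α : K ≃* K := Char.cjEquiv K g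
    have hα : ∀ x, α x ∈ N.subgroupOf K ↔ x ∈ N.subgroupOf K := by
      intro x
      rw [Subgroup.mem_subgroupOf, Subgroup.mem_subgroupOf]
      change g * (x : G) * g⁻¹ ∈ N ↔ _
      constructor
      · intro h
        have h2 := hN.conj_mem _ h g⁻¹
        have h3 : g⁻¹ * (g * (x : G) * g⁻¹) * g⁻¹⁻¹ = x := by group
        rwa [h3] at h2
      · intro h; exact hN.conj_mem _ h g
    have h1 : ∀ x : N.subgroupOf K, Char.cj K g (χK : K → ℂ) x =
        (θ' : N.subgroupOf K → ℂ) x := by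
      intro x
      change (χK : K → ℂ) (α x) = _
      have h2 : (χK : K → ℂ) ((⟨α x, (hα x).mpr x.2⟩ : N.subgroupOf K) : K) = _ :=
        hχK ⟨α x, (hα x).mpr x.2⟩
      change (χK : K → ℂ) (α x) = _ at h2
      rw [h2, hθ'e, hθ'e]
      exact hinv g _ _ rfl
    refine good_unique hM (N.subgroupOf K) Q' hcov θ'.2 hd' hpd χK.2
      (Char.isIrrCharacter_cj K g χK.2) hχK h1 hgK
      (rdGood_comp (N.subgroupOf K) α hα hgK) hoK ?_
    have h3 : detOrder (fun x => (χK : K → ℂ) (α.toMonoidHom x)) = detOrder (χK : K → ℂ) :=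
      detOrder_comp α.toMonoidHom α.surjective χK.2
    change ¬ p ∣ detOrder (fun x => (χK : K → ℂ) (α.toMonoidHom x))
    rw [h3]; exact hoK
  -- the canonical extension to `G`
  have hcopd : Nat.Coprime (p ^ a) (detOrder (χK : K → ℂ) * d) := by
    apply Nat.Coprime.pow_left
    rw [Nat.Prime.coprime_iff_not_dvd hp.out, hp.out.dvd_mul]
    tauto
  obtain ⟨χ, ⟨hχ, hχext, hχdet⟩, hχu⟩ := Cfsg.Agent.S0867.result K (χK : K → ℂ) χK.2
    (fun g x => congrFun (hKinv g) x) d hχK1 (by rw [hidx]; exact hcopd)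
  refine ⟨⟨χ, hχ⟩, ?_, ⟨n, hpn, ?_⟩, ?_⟩
  · refine mem_principalBlock_of_restrict hM K.subtype K.subtype_injective ?_ ⟨χ, hχ⟩ χK hχext
      (rdGood_mem (N.subgroupOf K) hgK)
    intro g hg
    rw [K.range_subtype]
    have h1 : g ^ p ^ a ∈ K := by rw [← hidx]; exact K.pow_index_mem g
    have h2 : Nat.Coprime (orderOf g) (p ^ a) :=
      Nat.Coprime.pow_right a ((Nat.Prime.coprime_iff_not_dvd hp.out).mpr hg).symm
    obtain ⟨b, hb⟩ := exists_pow_eq_self_of_coprime h2.symm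
    rw [← hb]
    exact K.pow_mem h1 b
  · intro g
    set η := Complex.exp (2 * Real.pi * Complex.I / (n : ℂ)) with hη
    have hprim : IsPrimitiveRoot η n := Complex.isPrimitiveRoot_exp n hn0
    have hηF : η ∈ IntermediateField.adjoin ℚ ({η} : Set ℂ) :=
      IntermediateField.mem_adjoin_simple_self ℚ η
    have hint : IsIntegral ℚ η := (hprim.isIntegral (Nat.pos_of_ne_zero hn0)).tower_top
    haveI hfd : FiniteDimensional ℚ (IntermediateField.adjoin ℚ ({η} : Set ℂ)) :=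
      IntermediateField.adjoin.finiteDimensional hint
    have hcard : Cardinal.mk (IntermediateField.adjoin ℚ ({η} : Set ℂ)) ≤ Cardinal.aleph0 := by
      have : Algebra.IsAlgebraic ℚ (IntermediateField.adjoin ℚ ({η} : Set ℂ)) :=
        Algebra.IsAlgebraic.of_finite ℚ _
      have h1 := Algebra.IsAlgebraic.cardinalMk_le_max ℚ
        (IntermediateField.adjoin ℚ ({η} : Set ℂ))
      rwa [Cardinal.mk_eq_aleph0 ℚ, max_self] at h1
    refine mem_of_fixed_by_aut _ hcard ?_ ?_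
    · have h1 : IsIntegral ℤ (χ g) := irr_isIntegral ⟨χ, hχ⟩ g
      exact (h1.tower_top (A := ℚ)).tower_top.isAlgebraic
    · intro σ hσ
      have hσ' : ∀ ζ : ℂ, ζ ^ n = 1 → σ ζ = ζ := by
        intro ζ hζ
        haveI : NeZero n := ⟨hn0⟩
        obtain ⟨i, -, rfl⟩ := hprim.eq_pow_of_pow_eq_one hζ
        rw [map_pow, hσ η hηF]
      have hirrK : IsIrrCharacter K (fun x => (χK : K → ℂ) x) := χK.2
      have h1 : (fun x => σ ((χK : K → ℂ) x)) = (χK : K → ℂ) := by
        have hNirr : IsIrrCharacter (N.subgroupOf K) (fun x => (χK : K → ℂ) x) := by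
          have h5 : (fun x : N.subgroupOf K => (χK : K → ℂ) x) = (θ' : N.subgroupOf K → ℂ) :=
            funext hχK
          rw [h5]; exact θ'.2
        refine good_unique hM (N.subgroupOf K) Q' hcov θ'.2 hd' hpd χK.2
          (isIrrCharacter_map σ χK.2) hχK ?_ hgK ?_ hoK ?_
        · intro x
          change σ ((χK : K → ℂ) x) = _
          rw [hχK, hθ'e, hθfix σ hσ']
        · apply rdGood_of_blkGood
          apply blkGood_gal hM (N.subgroupOf K) (n := n) ?_ hσ'
            (blkGood_of_rdGood (N.subgroupOf K) χK.2 hNirr hgK)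
          rw [hn, hmG]
          exact (Nat.ordCompl_dvd_ordCompl_of_dvd (Subgroup.card_subgroup_dvd_card K) p).trans
            (dvd_mul_left _ _)
        · rw [Glaub.detOrder_map σ χK.2]; exact hoK
      have h2 := hχu (fun x => σ (χ x)) (isIrrCharacter_map σ hχ) (fun x => by
        rw [hχext]; exact congrFun h1 x) (by
          rw [Glaub.detOrder_map σ hχ, hχdet, hidx]
          exact Nat.Coprime.coprime_dvd_right (Dvd.intro _ rfl) hcopd)
      exact congrFun h2 g
  · intro x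
    have h1 := hχext ⟨x, hNK x.2⟩
    change χ (x : G) = _
    rw [h1]
    exact hχK ⟨⟨x, hNK x.2⟩, x.2⟩

end Main

end Cfsg.Agent.BlkInd
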