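import Mathlib
import Cfsg.Prelude.Def_Transfer

/-!
# Commutator subgroups `[U, x]` for an abelian group `U` (tools for S4404)
-/

set_option autoImplicit false

namespace Cfsg.Agent.BlkInd.NG

open scoped commutatorElement

variable {S : Type*} [Group S]

theorem mem_norm_of_conj [Finite S] {U : Subgroup S} {g : S} (h : ∀ u ∈ U, g * u * g⁻¹ ∈ U) :
    g ∈ Subgroup.normalizer (U : Set S) :=
  Subgroup.mem_normalizer_fintype (S := (U : Set S)) (fun n hn => h n hn)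

theorem conj_mem {U : Subgroup S} {g u : S} (hg : g ∈ Subgroup.normalizer (U : Set S)) (hu : u ∈ U) :
    g * u * g⁻¹ ∈ U := (Subgroup.mem_normalizer_iff.1 hg u).1 hu

theorem conj_mem' {U : Subgroup S} {g u : S} (hg : g ∈ Subgroup.normalizer (U : Set S)) (hu : u ∈ U) :
    g⁻¹ * u * g ∈ U := (Subgroup.mem_normalizer_iff''.1 hg u).1 hu

/-- the homomorphism `u ↦ [x, u]` on an abelian group. -/
def phi (U : Subgroup S) (hc : ∀ a ∈ U, ∀ b ∈ U, a * b = b * a) (x : S)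
    (hx : x ∈ Subgroup.normalizer (U : Set S)) : U →* S where
  toFun u := ⁅x, (u : S)⁆
  map_one' := by simp
  map_mul' := by
    intro a b
    have h1 : x * (b : S) * x⁻¹ ∈ U := conj_mem hx b.2
    have h2 := hc _ h1 _ (U.inv_mem a.2)
    have h3 : (a : S)⁻¹ * (b : S)⁻¹ = (b : S)⁻¹ * (a : S)⁻¹ := hc _ (U.inv_mem a.2) _ (U.inv_mem b.2)
    have h4 := h2
    simp only [commutatorElement_def, Subgroup.coe_mul, mul_inv_rev]
    calc x * ((a : S) * b) * x⁻¹ * ((b : S)⁻¹ * (a : S)⁻¹)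
        = x * a * x⁻¹ * (x * b * x⁻¹) * ((b : S)⁻¹ * (a : S)⁻¹) := by group
      _ = x * a * x⁻¹ * ((x * b * x⁻¹) * (a : S)⁻¹) * (b : S)⁻¹ := by rw [← h3]; group
      _ = x * a * x⁻¹ * ((a : S)⁻¹ * (x * b * x⁻¹)) * (b : S)⁻¹ := by rw [h4]
      _ = x * a * x⁻¹ * (a : S)⁻¹ * (x * b * x⁻¹ * (b : S)⁻¹) := by group

/-- `[x, U]` -/
def cS (U : Subgroup S) (hc : ∀ a ∈ U, ∀ b ∈ U, a * b = b * a) (x : S)
    (hx : x ∈ Subgroup.normalizer (U : Set S)) : Subgroup S := (phi U hc x hx).range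

theorem mem_cS {U : Subgroup S} {hc : ∀ a ∈ U, ∀ b ∈ U, a * b = b * a} {x : S}
    {hx : x ∈ Subgroup.normalizer (U : Set S)} {d : S} : d ∈ cS U hc x hx ↔ ∃ u ∈ U, ⁅x, u⁆ = d := by
  constructor
  · rintro ⟨u, rfl⟩; exact ⟨u, u.2, rfl⟩
  · rintro ⟨u, hu, rfl⟩; exact ⟨⟨u, hu⟩, rfl⟩

theorem cS_le {U : Subgroup S} {hc : ∀ a ∈ U, ∀ b ∈ U, a * b = b * a} {x : S}
    {hx : x ∈ Subgroup.normalizer (U : Set S)} : cS U hc x hx ≤ U := by
  intro d hd
  obtain ⟨u, hu, rfl⟩ := mem_cS.1 hd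
  rw [commutatorElement_def]
  exact U.mul_mem (conj_mem hx hu) (U.inv_mem hu)

/-- the key computation. -/
theorem pow_conj {y u : S} (hb : Commute y ⁅y, u⁆) (n : ℕ) : y ^ n * u = ⁅y, u⁆ ^ n * u * y ^ n := by
  have h1 : y * u = ⁅y, u⁆ * u * y := by rw [commutatorElement_def]; group
  induction n with
  | zero => simp
  | succ n ih =>
    have h2 : y * ⁅y, u⁆ ^ n = ⁅y, u⁆ ^ n * y := (hb.pow_right n).eq
    calc y ^ (n + 1) * u = y * (y ^ n * u) := by rw [pow_succ']; group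
      _ = y * (⁅y, u⁆ ^ n * u * y ^ n) := by rw [ih]
      _ = (y * ⁅y, u⁆ ^ n) * u * y ^ n := by group
      _ = ⁅y, u⁆ ^ n * (y * u) * y ^ n := by rw [h2]; group
      _ = ⁅y, u⁆ ^ n * (⁅y, u⁆ * u * y) * y ^ n := by rw [h1]
      _ = ⁅y, u⁆ ^ (n + 1) * u * y ^ (n + 1) := by rw [pow_succ, pow_succ']; group

theorem eq_one_of_comm {y u : S} {k : ℕ} (hb : Commute y ⁅y, u⁆) (hk : y ^ k * u = u * y ^ k)
    (h2 : ⁅y, u⁆ ^ 2 = 1) (hodd : Odd k) : ⁅y, u⁆ = 1 := by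
  have h := pow_conj hb k
  rw [hk] at h
  have h3 : ⁅y, u⁆ ^ k = 1 := by
    have : u * y ^ k = (⁅y, u⁆ ^ k * u) * y ^ k := h
    have h4 : u = ⁅y, u⁆ ^ k * u := mul_right_cancel this
    exact (mul_eq_right.1 h4.symm)
  obtain ⟨j, rfl⟩ := hodd
  rw [pow_succ, pow_mul, h2, one_pow, one_mul] at h3
  exact h3

/-- a fiber count: `|N| ≤ |T| |C_N(d)|` if all `N`-conjugates of `d` lie in `T`. -/
theorem card_le_mul_card_centralizer [Finite S] (N : Subgroup S) (d : S) (T : Set S)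
    (hT : ∀ n ∈ N, n * d * n⁻¹ ∈ T) :
    Nat.card N ≤ Nat.card T * Nat.card ↥(N ⊓ Subgroup.centralizer ({d} : Set S)) := by
  classical
  have := Fintype.ofFinite S
  have h := Finset.card_le_mul_card_image_of_maps_to (s := (Finset.univ : Finset N)) (t := (Finset.univ : Finset T))
    (f := fun n : N => (⟨n * d * (n : S)⁻¹, hT n n.2⟩ : T)) (fun _ _ => Finset.mem_univ _)
    (Nat.card ↥(N ⊓ Subgroup.centralizer ({d} : Set S))) ?_
  · rw [Nat.card_eq_fintype_card, Nat.card_eq_fintype_card (α := T), mul_comm]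
    simpa using h
  · intro b _
    by_cases hne : ((Finset.univ : Finset N).filter (fun n : N => (⟨n * d * (n : S)⁻¹, hT n n.2⟩ : T) = b)).Nonempty
    · obtain ⟨n₀, hn₀⟩ := hne
      rw [Finset.mem_filter] at hn₀
      have hn₀' : (n₀ : S) * d * (n₀ : S)⁻¹ = b := congrArg Subtype.val hn₀.2
      rw [Nat.card_eq_fintype_card]
      rw [← Finset.card_univ (α := ↥(N ⊓ Subgroup.centralizer ({d} : Set S)))]
      refine Finset.card_le_card_of_injOn
        (fun n => if h : (n₀ : S)⁻¹ * n ∈ N ⊓ Subgroup.centralizer ({d} : Set S) then ⟨_, h⟩ else 1) (fun _ _ => Finset.mem_coe.2 (Finset.mem_univ _)) ?_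
      have key : ∀ n : N, (⟨n * d * (n : S)⁻¹, hT n n.2⟩ : T) = b →
          (n₀ : S)⁻¹ * n ∈ N ⊓ Subgroup.centralizer ({d} : Set S) := by
        intro n hn
        have hn' : (n : S) * d * (n : S)⁻¹ = b := congrArg Subtype.val hn
        refine Subgroup.mem_inf.2 ⟨N.mul_mem (N.inv_mem n₀.2) n.2, Subgroup.mem_centralizer_singleton_iff.2 ?_⟩
        have h1 : (n : S) * d * (n : S)⁻¹ = n₀ * d * (n₀ : S)⁻¹ := by rw [hn', hn₀']
        calc (n₀ : S)⁻¹ * n * d = (n₀ : S)⁻¹ * (n * d * (n : S)⁻¹) * n := by group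
          _ = d * ((n₀ : S)⁻¹ * n) := by rw [h1]; group
      intro n hn m hm hnm
      rw [Finset.mem_coe, Finset.mem_filter] at hn hm
      simp only [dif_pos (key n hn.2), dif_pos (key m hm.2)] at hnm
      have := congrArg Subtype.val hnm
      simp only at this
      exact Subtype.ext (mul_left_cancel this)
    · rw [Finset.not_nonempty_iff_eq_empty] at hne
      rw [hne]; simp

end Cfsg.Agent.BlkInd.NG
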