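import Cfsg.Agent.BlkInd.NGa
import Cfsg.Agent.Transfer.Frobenius

/-!
# Elements of order 3 with four-group commutator (tools for S4404), abelian 3-groups
-/

set_option autoImplicit false

namespace Cfsg.Agent.BlkInd.NG

open scoped commutatorElement

variable {S : Type*} [Group S]

theorem nM (M : Subgroup S) [M.Normal] (g : S) : g ∈ Subgroup.normalizer (M : Set S) := by
  rw [Subgroup.normalizer_eq_top]; trivial

theorem comm_conj (g x u : S) : g * ⁅x, u⁆ * g⁻¹ = ⁅g * x * g⁻¹, g * u * g⁻¹⁆ := by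
  simp only [commutatorElement_def]; group

section four

variable {D : Subgroup S}

theorem four (h4 : Nat.card D = 4) (h2 : ∀ d ∈ D, d ^ 2 = 1) {e f : S} (he : e ∈ D) (hf : f ∈ D)
    (he1 : e ≠ 1) (hf1 : f ≠ 1) (hef : e ≠ f) {d : S} (hd : d ∈ D) : d = 1 ∨ d = e ∨ d = f ∨ d = e * f := by
  have hfin : (D : Set S).Finite := by
    have : Finite D := Nat.finite_of_card_ne_zero (by rw [h4]; norm_num)
    exact Set.toFinite _
  have hef1 : e * f ≠ 1 := by
    intro h
    have h5 : e = f⁻¹ := eq_inv_of_mul_eq_one_left h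
    have h6 : f⁻¹ = f := by
      have := h2 f hf
      rw [pow_two] at this
      exact inv_eq_of_mul_eq_one_left this
    exact hef (h5.trans h6)
  have hsub : ({1, e, f, e * f} : Set S) ⊆ (D : Set S) := by
    intro z hz
    rcases hz with rfl | rfl | rfl | rfl
    · exact D.one_mem
    · exact he
    · exact hf
    · exact D.mul_mem he hf
  have hcard : ({1, e, f, e * f} : Set S).ncard = 4 := by
    rw [Set.ncard_insert_of_notMem, Set.ncard_insert_of_notMem, Set.ncard_pair]
    · intro h; exact he1 (by simpa using h.symm)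
    · simp only [Set.mem_insert_iff, Set.mem_singleton_iff, not_or]
      exact ⟨hef, fun h => hf1 (by simpa using h.symm)⟩
    · simp only [Set.mem_insert_iff, Set.mem_singleton_iff, not_or]
      exact ⟨he1.symm, hf1.symm, hef1.symm⟩
  have heq := Set.eq_of_subset_of_ncard_le hsub (by
    rw [hcard, ← Nat.card_coe_set_eq]; exact h4.le) hfin
  have : d ∈ ({1, e, f, e * f} : Set S) := by rw [heq]; exact hd
  simpa using this

/-- an element of odd order which fixes some `e ≠ 1` centralizes the four-group. -/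
theorem centralize_of_fix [Finite S] (h4 : Nat.card D = 4) (h2 : ∀ d ∈ D, d ^ 2 = 1) {g e : S}
    (hg : g ∈ Subgroup.normalizer (D : Set S)) (hodd : Odd (orderOf g)) (he : e ∈ D) (he1 : e ≠ 1)
    (hge : g * e = e * g) : g ∈ Subgroup.centralizer (D : Set S) := by
  rw [Subgroup.mem_centralizer_iff]
  intro f hf
  by_contra hcon
  have hf1 : f ≠ 1 := by rintro rfl; simp at hcon
  have hef : e ≠ f := by rintro rfl; exact hcon hge.symm
  have h1 := four h4 h2 he hf he1 hf1 hef (conj_mem hg hf)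
  have hgne : g * f * g⁻¹ ≠ f := by
    intro h; exact hcon (by rw [mul_inv_eq_iff_eq_mul] at h; exact h.symm)
  rcases h1 with h | h | h | h
  · exact hf1 (conj_eq_one_iff.1 h)
  · apply hef
    have h3 : g * f = e * g := mul_inv_eq_iff_eq_mul.1 h
    rw [← hge] at h3
    exact (mul_left_cancel h3).symm
  · exact hgne h
  · have hcf : ⁅g, f⁆ = e := by
      rw [commutatorElement_def, h, mul_assoc, mul_inv_cancel, mul_one]
    have := eq_one_of_comm (y := g) (u := f) (k := orderOf g) (by rw [hcf]; exact hge)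
      (by rw [pow_orderOf_eq_one]; simp) (by rw [hcf]; exact h2 e he) hodd
    exact he1 (hcf.symm.trans this)

theorem comm_of_pow_coprime [Finite S] {g e : S} {k : ℕ} (hk : k.Coprime (orderOf g)) (h : g ^ k * e = e * g ^ k) :
    g * e = e * g := by
  have h1 : g ∈ Subgroup.zpowers (g ^ k) := by
    rw [mem_zpowers_pow_iff]
    exact hk
  have h2 : g ^ k ∈ Subgroup.centralizer ({e} : Set S) := Subgroup.mem_centralizer_singleton_iff.2 h
  exact Subgroup.mem_centralizer_singleton_iff.1 ((Subgroup.zpowers_le.2 h2) h1)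

/-- an element of order prime to `6` normalizing a four-group centralizes it. -/
theorem centralize_of_coprime_six [Finite S] (h4 : Nat.card D = 4) (h2 : ∀ d ∈ D, d ^ 2 = 1) {g : S}
    (hg : g ∈ Subgroup.normalizer (D : Set S)) (ho2 : Odd (orderOf g)) (ho3 : (orderOf g).Coprime 3) :
    g ∈ Subgroup.centralizer (D : Set S) := by
  rw [Subgroup.mem_centralizer_iff]
  intro e he
  by_contra hcon
  have he1 : e ≠ 1 := by rintro rfl; simp at hcon
  set f := g * e * g⁻¹ with hf
  have hfD : f ∈ D := conj_mem hg he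
  have hf1 : f ≠ 1 := fun h => he1 (conj_eq_one_iff.1 h)
  have hef : e ≠ f := by
    intro h; exact hcon (by rw [hf, eq_mul_inv_iff_mul_eq] at h; exact h)
  rcases four h4 h2 he hfD he1 hf1 hef (conj_mem hg hfD) with h | h | h | h
  · exact hf1 (conj_eq_one_iff.1 h)
  · -- g² fixes e
    apply hcon
    refine (comm_of_pow_coprime (k := 2) ?_ ?_).symm
    · exact (Nat.coprime_two_left.2 ho2)
    · have : g ^ 2 * e * (g ^ 2)⁻¹ = e := by
        have h12 : g ^ 2 * e * (g ^ 2)⁻¹ = g * (g * e * g⁻¹) * g⁻¹ := by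
          simp only [pow_succ, pow_zero, one_mul, mul_inv_rev, mul_assoc]
        rw [h12, ← hf, h]
      rwa [mul_inv_eq_iff_eq_mul] at this
  · apply hef
    have h3 : g * f = f * g := mul_inv_eq_iff_eq_mul.1 h
    have h4 : g * e = f * g := by rw [hf]; group
    rw [← h3] at h4
    exact mul_left_cancel h4
  · apply hcon
    refine (comm_of_pow_coprime (k := 3) ?_ ?_).symm
    · exact ho3.symm
    · have h5 : g * (e * f) * g⁻¹ = e := by
        have h6 : g * (e * f) * g⁻¹ = (g * e * g⁻¹) * (g * f * g⁻¹) := by group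
        rw [h6, h, ← hf]
        have h7 : f * e = e * f := by
          have h8 := h2 (e * f) (D.mul_mem he hfD)
          have h9 := h2 e he
          have h10 := h2 f hfD
          rw [pow_two] at h8 h9 h10
          have h11 : e * f = (e * f)⁻¹ := eq_inv_of_mul_eq_one_left h8
          rw [mul_inv_rev, inv_eq_of_mul_eq_one_left h9, inv_eq_of_mul_eq_one_left h10] at h11
          exact h11.symm
        have h10 := h2 f hfD
        rw [pow_two] at h10
        rw [← mul_assoc, h7, mul_assoc, h10, mul_one]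
      have : g ^ 3 * e * (g ^ 3)⁻¹ = e := by
        have h12 : g ^ 3 * e * (g ^ 3)⁻¹ = g * (g * (g * e * g⁻¹) * g⁻¹) * g⁻¹ := by
          simp only [pow_succ, pow_zero, one_mul, mul_inv_rev, mul_assoc]
        rw [h12, ← hf, h, h5]
      rwa [mul_inv_eq_iff_eq_mul] at this

end four

section main

variable [Finite S] {M : Subgroup S} [hMn : M.Normal] (hc : ∀ a ∈ M, ∀ b ∈ M, a * b = b * a)
  (h2 : ∀ a ∈ M, a ^ 2 = 1) {x : S} (hx3 : x ^ 3 ∈ Subgroup.centralizer (M : Set S))

omit [Finite S] in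
include h2 hx3 in
theorem fix_one {d : S} (hd : d ∈ cS M hc x (nM M x)) (hcomm : x * d = d * x) : d = 1 := by
  obtain ⟨u, hu, rfl⟩ := mem_cS.1 hd
  refine eq_one_of_comm (k := 3) hcomm ?_ (h2 _ (cS_le hd)) (by decide)
  exact (Subgroup.mem_centralizer_iff.1 hx3 u hu).symm

omit [Finite S] in
theorem comm_mem {a u : S} (hu : u ∈ M) : ⁅a, u⁆ ∈ cS M hc a (nM M a) := mem_cS.2 ⟨u, hu, rfl⟩

omit [Finite S] in
theorem conj_cS (g : S) {d : S} (hd : d ∈ cS M hc x (nM M x)) :
    g * d * g⁻¹ ∈ cS M hc (g * x * g⁻¹) (nM M _) := by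
  obtain ⟨u, hu, rfl⟩ := mem_cS.1 hd
  rw [comm_conj]
  exact comm_mem hc (hMn.conj_mem u hu g)

theorem x_norm : x ∈ Subgroup.normalizer (cS M hc x (nM M x) : Set S) := by
  refine mem_norm_of_conj fun d hd => ?_
  have := conj_cS hc x hd
  simpa using this

variable (h4 : Nat.card (cS M hc x (nM M x)) = 4)

include h2 hx3 h4 in
theorem sub_eq {K : Subgroup S} (hK : K ≤ cS M hc x (nM M x)) {e : S} (he : e ∈ K) (he1 : e ≠ 1)
    (hxe : x * e * x⁻¹ ∈ K) : K = cS M hc x (nM M x) := by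
  have hne : e ≠ x * e * x⁻¹ := by
    intro h
    exact he1 (fix_one hc h2 hx3 (hK he) (by rw [eq_mul_inv_iff_mul_eq] at h; exact h.symm))
  refine le_antisymm hK fun d hd => ?_
  have hne1 : x * e * x⁻¹ ≠ 1 := fun h => he1 (conj_eq_one_iff.1 h)
  rcases four h4 (fun d hd => h2 d (cS_le hd)) (hK he) (hK hxe) he1 hne1 hne hd with h | h | h | h
  · rw [h]; exact K.one_mem
  · rw [h]; exact he
  · rw [h]; exact hxe
  · rw [h]; exact K.mul_mem he hxe

include h2 hx3 h4 in
/-- if `x` normalizes a conjugate `gDg⁻¹ ≠ D` of `D`, then it centralizes it. -/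
theorem conj_centralize {g : S} (hg : g ∉ Subgroup.normalizer (cS M hc x (nM M x) : Set S))
    (hx : g⁻¹ * x * g ∈ Subgroup.normalizer (cS M hc x (nM M x) : Set S)) :
    g⁻¹ * x * g ∈ Subgroup.centralizer (cS M hc x (nM M x) : Set S) := by
  set D := cS M hc x (nM M x) with hD
  rw [Subgroup.mem_centralizer_iff]
  intro d hd
  -- `k = g d g⁻¹`
  have hkM : g * d * g⁻¹ ∈ M := hMn.conj_mem d (cS_le hd) g
  have h1 : ⁅x, g * d * g⁻¹⁆ ∈ D := comm_mem hc hkM
  have h3 : g⁻¹ * ⁅x, g * d * g⁻¹⁆ * g ∈ D := by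
    have h5 : g⁻¹ * ⁅x, g * d * g⁻¹⁆ * g = ((g⁻¹ * x * g) * d * (g⁻¹ * x * g)⁻¹) * d⁻¹ := by
      simp only [commutatorElement_def]; group
    rw [h5]
    exact D.mul_mem (conj_mem hx hd) (D.inv_mem hd)
  -- `K = D ⊓ g D g⁻¹`
  by_cases he : ⁅x, g * d * g⁻¹⁆ = 1
  · rw [commutatorElement_eq_one_iff_mul_comm] at he
    calc d * (g⁻¹ * x * g) = g⁻¹ * ((g * d * g⁻¹) * x) * g := by group
      _ = g⁻¹ * x * g * d := by rw [← he]; group
  · exfalso
    set K : Subgroup S := D ⊓ D.map (MulAut.conj g).toMonoidHom with hK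
    have hmemK : ∀ z, z ∈ K ↔ z ∈ D ∧ g⁻¹ * z * g ∈ D := by
      intro z
      rw [hK, Subgroup.mem_inf, Subgroup.mem_map]
      refine and_congr_right fun _ => ⟨?_, fun h => ⟨_, h, ?_⟩⟩
      · rintro ⟨w, hw, rfl⟩
        have : g⁻¹ * (MulAut.conj g).toMonoidHom w * g = w := by
          simp [MulAut.conj_apply, mul_assoc]
        rw [this]; exact hw
      · simp [MulAut.conj_apply, mul_assoc]
    have heK : ⁅x, g * d * g⁻¹⁆ ∈ K := (hmemK _).2 ⟨h1, h3⟩
    have hxe : x * ⁅x, g * d * g⁻¹⁆ * x⁻¹ ∈ K := by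
      refine (hmemK _).2 ⟨conj_mem (x_norm hc) h1, ?_⟩
      have h5 : g⁻¹ * (x * ⁅x, g * d * g⁻¹⁆ * x⁻¹) * g =
          (g⁻¹ * x * g) * (g⁻¹ * ⁅x, g * d * g⁻¹⁆ * g) * (g⁻¹ * x * g)⁻¹ := by group
      rw [h5]
      exact conj_mem hx h3
    have hKD : K = D := sub_eq hc h2 hx3 h4 (by rw [hK]; exact inf_le_left) heK he hxe
    apply hg
    have h6 : g⁻¹ ∈ Subgroup.normalizer (D : Set S) := by
      refine mem_norm_of_conj fun z hz => ?_
      have := ((hmemK z).1 (by rw [hKD]; exact hz)).2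
      simpa using this
    simpa using Subgroup.inv_mem _ h6

include h2 hx3 h4 in
/-- **Lemma A**: abelian 3-groups normalized by `x` normalize `D = [x, M]`. -/
theorem lemmaA (N P : Subgroup S) (hNc : ∀ a ∈ N, ∀ b ∈ N, a * b = b * a) (hP : IsPGroup 3 P) (hNP : N ≤ P)
    (hxP : x ∈ P) (hxN : x ∈ Subgroup.normalizer (N : Set S)) :
    N ≤ Subgroup.normalizer (cS M hc x (nM M x) : Set S) := by
  have := Fact.mk Nat.prime_three
  set D := cS M hc x (nM M x) with hD
  by_contra hcon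
  set X : Subgroup S := Subgroup.zpowers x ⊔ N with hX
  have hzN : Subgroup.zpowers x ≤ Subgroup.normalizer (N : Set S) := Subgroup.zpowers_le.2 hxN
  have hXP : X ≤ P := sup_le (Subgroup.zpowers_le.2 hxP) hNP
  have hX3 : IsPGroup 3 X := hP.to_le hXP
  set Y : Subgroup S := X ⊓ Subgroup.normalizer (D : Set S) with hY
  have hYX : Y < X := by
    refine lt_of_le_of_ne inf_le_left fun h => hcon ?_
    have : X ≤ Subgroup.normalizer (D : Set S) := by rw [← h]; exact inf_le_right
    exact le_sup_right.trans this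
  obtain ⟨g, hg, hgY⟩ := SetLike.exists_of_lt (Cfsg.Agent.Transfer.lt_normalizer_inf_of_isPGroup hX3 hYX)
  obtain ⟨hgN, hgX⟩ := Subgroup.mem_inf.1 hg
  have hxY : x ∈ Y := Subgroup.mem_inf.2 ⟨(le_sup_left : Subgroup.zpowers x ≤ X) (Subgroup.mem_zpowers x), x_norm hc⟩
  have hgX' : g ∈ ((Subgroup.zpowers x ⊔ N : Subgroup S) : Set S) := hgX
  rw [Subgroup.coe_mul_of_left_le_normalizer_right _ _ hzN] at hgX'
  obtain ⟨h, hh, n, hn, rfl⟩ := hgX'
  have hhY : h ∈ Y := (Subgroup.zpowers_le.2 hxY) hh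
  have hnY : n ∈ Subgroup.normalizer (Y : Set S) := by
    have h5 : h⁻¹ * (h * n) ∈ Subgroup.normalizer (Y : Set S) :=
      Subgroup.mul_mem _ (Subgroup.inv_mem _ (Subgroup.le_normalizer hhY)) hgN
    simpa using h5
  have hnnY : n ∉ Y := by
    intro h5; exact hgY (Y.mul_mem hhY h5)
  have hnX : n ∈ X := (le_sup_right : N ≤ X) hn
  have hnD : n ∉ Subgroup.normalizer (D : Set S) := fun h5 => hnnY (Subgroup.mem_inf.2 ⟨hnX, h5⟩)
  have hnD' : n⁻¹ ∉ Subgroup.normalizer (D : Set S) := fun h5 => hnD (by simpa using Subgroup.inv_mem _ h5)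
  have hle : Y ≤ Subgroup.normalizer (D : Set S) := inf_le_right
  have hA1 := conj_centralize hc h2 hx3 h4 hnD (hle (conj_mem' hnY hxY))
  have hA2 := conj_centralize hc h2 hx3 h4 (g := n⁻¹) hnD' (hle (by simpa using conj_mem hnY hxY))
  simp only [inv_inv] at hA2
  set c := n⁻¹ * (x * n * x⁻¹) with hc'
  have hcN : c ∈ N := N.mul_mem (N.inv_mem hn) (conj_mem hxN hn)
  have hcn : c * n = n * c := hNc c hcN n hn
  have e1 : n⁻¹ * x * n = c * x := by rw [hc']; group
  have e2 : n * x * n⁻¹ = c⁻¹ * x := by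
    have h5 : n * (c * x) * n⁻¹ = x := by rw [← e1]; group
    have h6 : n * (c * x) * n⁻¹ = c * (n * x * n⁻¹) := by
      calc n * (c * x) * n⁻¹ = (n * c) * x * n⁻¹ := by group
        _ = c * (n * x * n⁻¹) := by rw [← hcn]; group
    rw [h6] at h5
    exact eq_inv_mul_of_mul_eq h5
  rw [e1] at hA1
  rw [e2] at hA2
  have hc2 : c ^ 2 ∈ Subgroup.centralizer (D : Set S) := by
    have h5 := Subgroup.mul_mem _ hA1 (Subgroup.inv_mem _ hA2)
    have h6 : c * x * (c⁻¹ * x)⁻¹ = c ^ 2 := by rw [pow_two]; group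
    rwa [h6] at h5
  have hcodd : Odd (orderOf c) := by
    obtain ⟨k, hk⟩ := IsPGroup.iff_orderOf.1 hP ⟨c, hNP hcN⟩
    rw [Subgroup.orderOf_mk] at hk
    rw [hk]; exact Odd.pow (by decide)
  have hcC : c ∈ Subgroup.centralizer (D : Set S) := by
    have h1 : c ∈ Subgroup.zpowers (c ^ 2) := by
      rw [mem_zpowers_pow_iff]
      exact (Nat.coprime_two_left.2 hcodd)
    exact (Subgroup.zpowers_le.2 hc2) h1
  have hxC : x ∈ Subgroup.centralizer (D : Set S) := by
    have := Subgroup.mul_mem _ (Subgroup.inv_mem _ hcC) hA1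
    simpa using this
  -- contradiction
  have hbot : D = ⊥ := by
    rw [Subgroup.eq_bot_iff_forall]
    intro d hd
    exact fix_one hc h2 hx3 hd (Subgroup.mem_centralizer_iff.1 hxC d hd).symm
  have h4' : Nat.card D = 4 := h4
  rw [hbot, Subgroup.card_bot] at h4'
  norm_num at h4'

end main

end Cfsg.Agent.BlkInd.NG
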