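import Cfsg.Agent.BlkInd.NGb

/-!
# `p`-groups, `p ≥ 5`, normalized by an element of order 3 with four-group commutator (tools for S4404)
-/

set_option autoImplicit false

namespace Cfsg.Agent.BlkInd.NG

open scoped commutatorElement Pointwise

variable {S : Type*} [Group S] [Finite S]

/-- fixed point count for the conjugation action of a `p`-element on a subgroup. -/
theorem card_modEq_fix {p : ℕ} [Fact p.Prime] (B : Subgroup S) (g : S) (hg : g ∈ Subgroup.normalizer (B : Set S))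
    (hp : IsPGroup p (Subgroup.zpowers g)) :
    Nat.card B ≡ Nat.card ↥(B ⊓ Subgroup.centralizer ({g} : Set S)) [MOD p] := by
  let act : MulAction (Subgroup.zpowers g) B :=
    { smul := fun h b => ⟨(h : S) * b * (h : S)⁻¹, conj_mem ((Subgroup.zpowers_le.2 hg) h.2) b.2⟩
      one_smul := by
        intro b; apply Subtype.ext; change (1 : S) * b * (1 : S)⁻¹ = b; simp
      mul_smul := by
        intro a c b; apply Subtype.ext
        change ((a : S) * c) * b * ((a : S) * c)⁻¹ = a * (c * b * (c : S)⁻¹) * (a : S)⁻¹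
        group }
  have hsm : ∀ (h : Subgroup.zpowers g) (b : B), ((h • b : B) : S) = (h : S) * b * (h : S)⁻¹ := fun _ _ => rfl
  have h := hp.card_modEq_card_fixedPoints B
  refine h.trans ?_
  have : Nat.card (MulAction.fixedPoints (Subgroup.zpowers g) B) =
      Nat.card ↥(B ⊓ Subgroup.centralizer ({g} : Set S)) := by
    refine Nat.card_congr ⟨fun b => ⟨(b : B), Subgroup.mem_inf.2 ⟨(b : B).2, ?_⟩⟩,
      fun b => ⟨⟨b, (Subgroup.mem_inf.1 b.2).1⟩, ?_⟩, ?_, ?_⟩
    · rw [Subgroup.mem_centralizer_singleton_iff]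
      have h1 := b.2 ⟨g, Subgroup.mem_zpowers g⟩
      have h2 := congrArg Subtype.val h1
      rw [hsm] at h2
      exact (mul_inv_eq_iff_eq_mul.1 h2).symm
    · intro h
      apply Subtype.ext
      rw [hsm]
      have h1 : (b : S) ∈ Subgroup.centralizer ({g} : Set S) := (Subgroup.mem_inf.1 b.2).2
      have h2 : g ∈ Subgroup.centralizer ({(b : S)} : Set S) :=
        Subgroup.mem_centralizer_singleton_iff.2 (Subgroup.mem_centralizer_singleton_iff.1 h1).symm
      have h3 : (h : S) ∈ Subgroup.centralizer ({(b : S)} : Set S) := (Subgroup.zpowers_le.2 h2) h.2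
      have h4 := Subgroup.mem_centralizer_singleton_iff.1 h3
      change (h : S) * b * (h : S)⁻¹ = b
      rw [h4]; group
    · intro b; rfl
    · intro b; rfl
  rw [this]

/-- the normal closure of `D` under `V`. -/
def ncl (V D : Subgroup S) : Subgroup S := Subgroup.closure {z | ∃ v ∈ V, ∃ d ∈ D, v * d * v⁻¹ = z}

omit [Finite S] in
theorem le_ncl (V D : Subgroup S) : D ≤ ncl V D := fun d hd =>
  Subgroup.subset_closure ⟨1, V.one_mem, d, hd, by simp⟩

omit [Finite S] in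
theorem ncl_le {V D K : Subgroup S} (h : ∀ v ∈ V, ∀ d ∈ D, v * d * v⁻¹ ∈ K) : ncl V D ≤ K := by
  unfold ncl
  rw [Subgroup.closure_le]
  rintro z ⟨v, hv, d, hd, rfl⟩
  exact h v hv d hd

theorem normalizer_ncl {V D : Subgroup S} {g : S} (hV : g ∈ Subgroup.normalizer (V : Set S))
    (hD : ∀ d ∈ D, g * d * g⁻¹ ∈ ncl V D) (hVn : V ≤ Subgroup.normalizer ((ncl V D : Subgroup S) : Set S)) :
    g ∈ Subgroup.normalizer ((ncl V D : Subgroup S) : Set S) := by
  refine mem_norm_of_conj fun u hu => ?_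
  have : ncl V D ≤ (ncl V D).comap (MulAut.conj g).toMonoidHom := by
    refine ncl_le fun v hv d hd => ?_
    change g * (v * d * v⁻¹) * g⁻¹ ∈ ncl V D
    have h1 : g * (v * d * v⁻¹) * g⁻¹ = (g * v * g⁻¹) * (g * d * g⁻¹) * (g * v * g⁻¹)⁻¹ := by group
    rw [h1]
    exact conj_mem (hVn (conj_mem hV hv)) (hD d hd)
  exact this hu

theorem le_normalizer_ncl (V D : Subgroup S) : V ≤ Subgroup.normalizer ((ncl V D : Subgroup S) : Set S) := by
  intro w hw
  refine mem_norm_of_conj fun u hu => ?_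
  have : ncl V D ≤ (ncl V D).comap (MulAut.conj w).toMonoidHom := by
    unfold ncl
    rw [Subgroup.closure_le]
    rintro z ⟨v, hv, d, hd, rfl⟩
    change w * (v * d * v⁻¹) * w⁻¹ ∈ Subgroup.closure _
    exact Subgroup.subset_closure ⟨w * v, V.mul_mem hw hv, d, hd, by group⟩
  exact this hu

/-- the elements of `V` which are central modulo `C`. -/
def zm (V C : Subgroup S) (_hCV : C ≤ V) (hn : ∀ w ∈ V, ∀ c ∈ C, w * c * w⁻¹ ∈ C) : Subgroup S where
  carrier := {z | z ∈ V ∧ ∀ w ∈ V, ⁅z, w⁆ ∈ C}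
  one_mem' := ⟨V.one_mem, fun w _ => by simp [C.one_mem]⟩
  mul_mem' := by
    rintro a b ⟨ha, ha'⟩ ⟨hb, hb'⟩
    refine ⟨V.mul_mem ha hb, fun w hw => ?_⟩
    have : ⁅a * b, w⁆ = (a * ⁅b, w⁆ * a⁻¹) * ⁅a, w⁆ := by simp only [commutatorElement_def]; group
    rw [this]
    exact C.mul_mem (hn a ha _ (hb' w hw)) (ha' w hw)
  inv_mem' := by
    rintro a ⟨ha, ha'⟩
    refine ⟨V.inv_mem ha, fun w hw => ?_⟩
    have : ⁅a⁻¹, w⁆ = a⁻¹ * ⁅a, w⁆⁻¹ * (a⁻¹)⁻¹ := by simp only [commutatorElement_def]; group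
    rw [this]
    exact hn _ (V.inv_mem ha) _ (C.inv_mem (ha' w hw))

omit [Finite S] in
theorem mem_zm {V C : Subgroup S} {hCV : C ≤ V} {hn : ∀ w ∈ V, ∀ c ∈ C, w * c * w⁻¹ ∈ C} {z : S} :
    z ∈ zm V C hCV hn ↔ z ∈ V ∧ ∀ w ∈ V, ⁅z, w⁆ ∈ C := Iff.rfl

theorem exists_mem_zm {p : ℕ} [Fact p.Prime] {V C : Subgroup S} (hV : IsPGroup p V) (hCV : C ≤ V)
    (hn : ∀ w ∈ V, ∀ c ∈ C, w * c * w⁻¹ ∈ C) (hne : C ≠ V) : ∃ z ∈ zm V C hCV hn, z ∉ C := by
  set C' : Subgroup V := C.subgroupOf V with hC'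
  have hC'n : C'.Normal := by
    refine ⟨fun c hc w => ?_⟩
    rw [hC', Subgroup.mem_subgroupOf] at hc ⊢
    exact hn w w.2 _ hc
  have hnt : Nontrivial (V ⧸ C') := by
    rw [← not_subsingleton_iff_nontrivial]
    intro hs
    apply hne
    refine le_antisymm hCV fun v hv => ?_
    have h1 : (QuotientGroup.mk (⟨v, hv⟩ : V) : V ⧸ C') = 1 := Subsingleton.elim _ _
    rw [QuotientGroup.eq_one_iff] at h1
    exact h1
  have hQ : IsPGroup p (V ⧸ C') := hV.to_quotient C'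
  have hcn := hQ.center_nontrivial
  obtain ⟨q, hq⟩ := exists_ne (1 : Subgroup.center (V ⧸ C'))
  obtain ⟨v, hv⟩ := QuotientGroup.mk_surjective (q : V ⧸ C')
  refine ⟨v, mem_zm.2 ⟨v.2, fun w hw => ?_⟩, fun hvC => ?_⟩
  · have h1 : (q : V ⧸ C') * (QuotientGroup.mk (⟨w, hw⟩ : V) : V ⧸ C') =
        (QuotientGroup.mk (⟨w, hw⟩ : V) : V ⧸ C') * (q : V ⧸ C') :=
      ((Subgroup.mem_center_iff.1 q.2) _).symm
    rw [← hv, ← QuotientGroup.mk_mul, ← QuotientGroup.mk_mul] at h1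
    have h2 : ((v * ⟨w, hw⟩ * v⁻¹ * (⟨w, hw⟩ : V)⁻¹ : V) : V ⧸ C') = 1 := by
      rw [QuotientGroup.mk_mul, QuotientGroup.mk_mul, h1]
      simp
    rw [QuotientGroup.eq_one_iff] at h2
    exact h2
  · apply hq
    apply Subtype.ext
    rw [← hv]
    change (QuotientGroup.mk v : V ⧸ C') = 1
    rw [QuotientGroup.eq_one_iff]
    exact hvC

end Cfsg.Agent.BlkInd.NG
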