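import Cfsg.Agent.BlkInd.NGc

/-!
# `p`-groups, `p ≥ 5`, normalized by an element of order 3 with four-group commutator, part 2
-/

set_option autoImplicit false

namespace Cfsg.Agent.BlkInd.NG

open scoped commutatorElement Pointwise

variable {S : Type*} [Group S]

theorem conj_centralizer {U : Subgroup S} {w c : S} (hw : w ∈ Subgroup.normalizer (U : Set S))
    (hcU : c ∈ Subgroup.centralizer (U : Set S)) : w * c * w⁻¹ ∈ Subgroup.centralizer (U : Set S) := by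
  rw [Subgroup.mem_centralizer_iff] at hcU ⊢
  intro u hu
  have h1 := hcU (w⁻¹ * u * w) (conj_mem' hw hu)
  calc u * (w * c * w⁻¹) = w * ((w⁻¹ * u * w) * c) * w⁻¹ := by group
    _ = w * c * w⁻¹ * u := by rw [h1]; group

theorem conj_centralizer' {U : Subgroup S} {w c : S} (hw : w ∈ Subgroup.normalizer (U : Set S))
    (hcU : c ∈ Subgroup.centralizer (U : Set S)) : w⁻¹ * c * w ∈ Subgroup.centralizer (U : Set S) := by
  have := conj_centralizer (Subgroup.inv_mem _ hw) hcU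
  simpa using this

theorem act_eq {U : Subgroup S} {c u : S} (hcU : c ∈ Subgroup.centralizer (U : Set S)) (hu : u ∈ U) :
    c * u * c⁻¹ = u := by
  rw [← Subgroup.mem_centralizer_iff.1 hcU u hu]; group

theorem numeric {p n k : ℕ} (hp : p.Prime) (h5 : 5 ≤ p) (hn : n = 2 ^ k) (h1 : 1 < n) (h16 : n ≤ 16)
    (hmod : n ≡ 1 [MOD p]) : (p = 7 ∧ n = 8) ∨ (p = 5 ∧ n = 16) := by
  have hdvd : p ∣ n - 1 := (Nat.modEq_iff_dvd' h1.le).1 hmod.symm
  have hk : k ≤ 4 := by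
    by_contra hk
    have : 2 ^ 5 ≤ 2 ^ k := Nat.pow_le_pow_right (by norm_num) (by omega)
    omega
  interval_cases k
  · omega
  · subst hn; norm_num at hdvd; omega
  · subst hn; norm_num at hdvd
    have := Nat.le_of_dvd (by norm_num) hdvd; omega
  · subst hn; norm_num at hdvd
    left; exact ⟨(Nat.prime_dvd_prime_iff_eq hp (by norm_num)).1 hdvd, rfl⟩
  · subst hn; norm_num at hdvd
    right
    refine ⟨?_, rfl⟩
    have h15 : p ∣ 3 * 5 := hdvd
    rcases (hp.dvd_mul).1 h15 with h | h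
    · have := Nat.le_of_dvd (by norm_num) h; omega
    · exact (Nat.prime_dvd_prime_iff_eq hp (by norm_num)).1 h

theorem numeric2 {p n m j : ℕ} (hcase : (p = 7 ∧ n = 8) ∨ (p = 5 ∧ n = 16)) (hm : m = 2 ^ j) (hmn : m ≤ n) (h1 : 1 < m)
    (hmod : m ≡ 1 [MOD p]) : m = n := by
  have hdvd : p ∣ m - 1 := (Nat.modEq_iff_dvd' h1.le).1 hmod.symm
  have hj : j ≤ 4 := by
    by_contra hk
    have : 2 ^ 5 ≤ 2 ^ j := Nat.pow_le_pow_right (by norm_num) (by omega)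
    omega
  rcases hcase with ⟨rfl, rfl⟩ | ⟨rfl, rfl⟩
  · interval_cases j <;> subst hm <;> omega
  · interval_cases j <;> subst hm <;> omega

variable [Finite S]

theorem ord_odd {p : ℕ} (hp : p.Prime) (h5 : 5 ≤ p) {V : Subgroup S} (hV : IsPGroup p V) {v : S} (hv : v ∈ V) :
    Odd (orderOf v) := by
  have := Fact.mk hp
  obtain ⟨k, hk⟩ := IsPGroup.iff_orderOf.1 hV ⟨v, hv⟩
  rw [Subgroup.orderOf_mk] at hk
  rw [hk]
  exact (hp.odd_of_ne_two (by omega)).pow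

theorem ord_cop {p : ℕ} (hp : p.Prime) (h5 : 5 ≤ p) {V : Subgroup S} (hV : IsPGroup p V) {v : S} (hv : v ∈ V) :
    (orderOf v).Coprime 3 := by
  have := Fact.mk hp
  obtain ⟨k, hk⟩ := IsPGroup.iff_orderOf.1 hV ⟨v, hv⟩
  rw [Subgroup.orderOf_mk] at hk
  rw [hk]
  exact Nat.Coprime.pow_left k ((Nat.coprime_primes hp Nat.prime_three).2 (by omega))

omit [Finite S] in
theorem zp_pgroup {p : ℕ} {V : Subgroup S} (hV : IsPGroup p V) {v : S} (hv : v ∈ V) :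
    IsPGroup p (Subgroup.zpowers v) := hV.to_le (Subgroup.zpowers_le.2 hv)

theorem card_two_pow {B : Subgroup S} (h2 : ∀ b ∈ B, b ^ 2 = 1) : ∃ k, Nat.card B = 2 ^ k := by
  have := Fact.mk Nat.prime_two
  refine IsPGroup.iff_card.1 (fun b => ⟨1, ?_⟩)
  apply Subtype.ext
  simpa using h2 b b.2

section main

variable {M : Subgroup S} [hMn : M.Normal] (hc : ∀ a ∈ M, ∀ b ∈ M, a * b = b * a)
  (h2 : ∀ a ∈ M, a ^ 2 = 1) {x : S} (hx3 : x ^ 3 ∈ Subgroup.centralizer (M : Set S))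
  (h4 : Nat.card (cS M hc x (nM M x)) = 4)

include h2 hx3 in
theorem surjD {d : S} (hd : d ∈ cS M hc x (nM M x)) : ∃ m ∈ cS M hc x (nM M x), ⁅x, m⁆ = d := by
  set D := cS M hc x (nM M x) with hD
  let f : D → D := fun m => ⟨⁅x, (m : S)⁆, comm_mem hc (cS_le m.2)⟩
  have hinj : Function.Injective f := by
    intro a b hab
    have h1 : ⁅x, (a : S)⁆ = ⁅x, (b : S)⁆ := congrArg Subtype.val hab
    have h3 : phi M hc x (nM M x) (⟨a, cS_le a.2⟩ * ⟨b, cS_le b.2⟩⁻¹) = 1 := by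
      rw [map_mul, map_inv]
      change ⁅x, (a : S)⁆ * ⁅x, (b : S)⁆⁻¹ = 1
      rw [h1, mul_inv_cancel]
    have h5 : ⁅x, (a : S) * (b : S)⁻¹⁆ = 1 := h3
    rw [commutatorElement_eq_one_iff_mul_comm] at h5
    have h6 := fix_one hc h2 hx3 (D.mul_mem a.2 (D.inv_mem b.2)) h5
    exact Subtype.ext (mul_inv_eq_one.1 h6)
  obtain ⟨m, hm⟩ := Finite.surjective_of_injective hinj ⟨d, hd⟩
  exact ⟨m, m.2, congrArg Subtype.val hm⟩

variable {p : ℕ} (hp : p.Prime) (h5 : 5 ≤ p) {V : Subgroup S} (hV : IsPGroup p V)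
  (hxV : x ∈ Subgroup.normalizer (V : Set S))

omit [Finite S] in
theorem U_le : ncl V (cS M hc x (nM M x)) ≤ M :=
  ncl_le fun v _ d hd => hMn.conj_mem d (cS_le hd) v

omit [Finite S] in
theorem U_comm : ∀ a ∈ ncl V (cS M hc x (nM M x)), ∀ b ∈ ncl V (cS M hc x (nM M x)), a * b = b * a :=
  fun a ha b hb => hc a (U_le hc ha) b (U_le hc hb)

include hxV in
theorem U_norm : x ∈ Subgroup.normalizer ((ncl V (cS M hc x (nM M x)) : Subgroup S) : Set S) :=
  normalizer_ncl hxV (fun _ hd => le_ncl _ _ (conj_mem (x_norm hc) hd)) (le_normalizer_ncl _ _)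

omit [Finite S] in
theorem C_conj (U : Subgroup S) (hVU : V ≤ Subgroup.normalizer (U : Set S)) :
    ∀ w ∈ V, ∀ c ∈ V ⊓ Subgroup.centralizer (U : Set S), w * c * w⁻¹ ∈ V ⊓ Subgroup.centralizer (U : Set S) := by
  intro w hw c hcc
  obtain ⟨h1, h3⟩ := Subgroup.mem_inf.1 hcc
  exact Subgroup.mem_inf.2 ⟨V.mul_mem (V.mul_mem hw h1) (V.inv_mem hw), conj_centralizer (hVU hw) h3⟩

/-- the centre of `V` modulo `C_V(U)` -/
noncomputable abbrev ZZ (V : Subgroup S) (x : S) : Subgroup S :=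
  zm V (V ⊓ Subgroup.centralizer ((ncl V (cS M hc x (nM M x)) : Subgroup S) : Set S)) inf_le_left
    (C_conj _ (le_normalizer_ncl _ _))

include h2 hx3 h4 hp h5 hV hxV in
theorem L1 {z : S} (hz : z ∈ ZZ hc V x)
    (hxz : ⁅x, z⁆ ∈ V ⊓ Subgroup.centralizer ((ncl V (cS M hc x (nM M x)) : Subgroup S) : Set S)) :
    z ∈ V ⊓ Subgroup.centralizer ((ncl V (cS M hc x (nM M x)) : Subgroup S) : Set S) := by
  set D := cS M hc x (nM M x) with hD
  set U := ncl V D with hU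
  obtain ⟨hzV, hzc⟩ := mem_zm.1 hz
  have hVU : V ≤ Subgroup.normalizer (U : Set S) := le_normalizer_ncl _ _
  have hxU : x ∈ Subgroup.normalizer (U : Set S) := U_norm hc hxV
  have hcc := (Subgroup.mem_inf.1 hxz).2
  have hc' : z⁻¹ * ⁅x, z⁆ * z ∈ Subgroup.centralizer (U : Set S) := conj_centralizer' (hVU hzV) hcc
  have hzN : z⁻¹ ∈ Subgroup.normalizer (D : Set S) := by
    refine mem_norm_of_conj fun d hd => ?_
    obtain ⟨m, hm, rfl⟩ := surjD hc h2 hx3 hd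
    have hmU : z⁻¹ * m * z ∈ U := conj_mem' (hVU hzV) (le_ncl _ _ hm)
    have e1 : z⁻¹ * ⁅x, m⁆ * z⁻¹⁻¹ =
        ((z⁻¹ * ⁅x, z⁆ * z) * (x * (z⁻¹ * m * z) * x⁻¹) * (z⁻¹ * ⁅x, z⁆ * z)⁻¹) * (z⁻¹ * m * z)⁻¹ := by
      simp only [commutatorElement_def]; group
    rw [e1, act_eq hc' (conj_mem hxU hmU)]
    exact comm_mem hc (U_le hc hmU)
  have hzN' : z ∈ Subgroup.normalizer (D : Set S) := by simpa using Subgroup.inv_mem _ hzN
  have hzD : z ∈ Subgroup.centralizer (D : Set S) :=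
    centralize_of_coprime_six h4 (fun d hd => h2 d (cS_le hd)) hzN' (ord_odd hp h5 hV hzV) (ord_cop hp h5 hV hzV)
  refine Subgroup.mem_inf.2 ⟨hzV, ?_⟩
  have hle : U ≤ Subgroup.centralizer ({z} : Set S) := by
    refine ncl_le fun v hv d hd => ?_
    rw [Subgroup.mem_centralizer_singleton_iff]
    have hcv := (Subgroup.mem_inf.1 (hzc v hv)).2
    have hvd : v * d * v⁻¹ ∈ U := conj_mem (hVU hv) (le_ncl _ _ hd)
    have e2 : z * (v * d * v⁻¹) = ⁅z, v⁆ * (v * d * v⁻¹) * ⁅z, v⁆⁻¹ * z := by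
      have e3 : z * d = d * z := (Subgroup.mem_centralizer_iff.1 hzD d hd).symm
      have e4 : ⁅z, v⁆ * (v * d * v⁻¹) * ⁅z, v⁆⁻¹ * z = z * v * (z⁻¹ * (d * z)) * v⁻¹ := by
        simp only [commutatorElement_def]; group
      rw [e4, ← e3]; group
    rw [e2, act_eq hcv hvd]
  rw [Subgroup.mem_centralizer_iff]
  intro u hu
  exact Subgroup.mem_centralizer_singleton_iff.1 (hle hu)

include hxV in
theorem Z_norm {z : S} (hz : z ∈ ZZ hc V x) : x * z * x⁻¹ ∈ ZZ hc V x := by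
  obtain ⟨hzV, hzc⟩ := mem_zm.1 hz
  refine mem_zm.2 ⟨conj_mem hxV hzV, fun w hw => ?_⟩
  have h1 := hzc (x⁻¹ * w * x) (conj_mem' hxV hw)
  have h3 : ⁅x * z * x⁻¹, w⁆ = x * ⁅z, x⁻¹ * w * x⁆ * x⁻¹ := by simp only [commutatorElement_def]; group
  rw [h3]
  obtain ⟨h5, h6⟩ := Subgroup.mem_inf.1 h1
  exact Subgroup.mem_inf.2 ⟨conj_mem hxV h5, conj_centralizer (U_norm hc hxV) h6⟩

end main

end Cfsg.Agent.BlkInd.NG
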