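import Cfsg.Agent.BlkInd.NGd

/-!
# `p`-groups, `p ≥ 5`, normalized by an element of order 3 with four-group commutator, part 3: Lemma B
-/

set_option autoImplicit false

namespace Cfsg.Agent.BlkInd.NG

open scoped commutatorElement Pointwise

variable {S : Type*} [Group S]

theorem cS_conj_mem {U : Subgroup S} {hcU : ∀ a ∈ U, ∀ b ∈ U, a * b = b * a} {y : S}
    {hy : y ∈ Subgroup.normalizer (U : Set S)} {w : S} (hw : w ∈ Subgroup.normalizer (U : Set S))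
    (hcen : w * y * w⁻¹ * y⁻¹ ∈ Subgroup.centralizer (U : Set S)) {b : S} (hb : b ∈ cS U hcU y hy) :
    w * b * w⁻¹ ∈ cS U hcU y hy := by
  obtain ⟨u, hu, rfl⟩ := mem_cS.1 hb
  have hu' : w * u * w⁻¹ ∈ U := conj_mem hw hu
  have e1 : w * ⁅y, u⁆ * w⁻¹ = ((w * y * w⁻¹ * y⁻¹) * (y * (w * u * w⁻¹) * y⁻¹) * (w * y * w⁻¹ * y⁻¹)⁻¹) *
      (w * u * w⁻¹)⁻¹ := by
    simp only [commutatorElement_def]; group
  rw [e1, act_eq hcen (conj_mem hy hu')]
  exact mem_cS.2 ⟨_, hu', rfl⟩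

variable [Finite S]

/-- counting pairs. -/
theorem card_mul_le {D B K : Subgroup S} (hD : D ≤ K) (hB : B ≤ K) (h : D ⊓ B = ⊥) :
    Nat.card D * Nat.card B ≤ Nat.card K := by
  rw [← Nat.card_prod]
  refine Nat.card_le_card_of_injective (fun q : D × B => (⟨(q.1 : S) * q.2, K.mul_mem (hD q.1.2) (hB q.2.2)⟩ : K)) ?_
  rintro ⟨d, b⟩ ⟨d', b'⟩ hdb
  have h1 : (d : S) * b = d' * b' := congrArg Subtype.val hdb
  have h3 : (d' : S)⁻¹ * d = b' * (b : S)⁻¹ := by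
    rw [eq_mul_inv_iff_mul_eq, mul_assoc, h1]; group
  have h5 : (d' : S)⁻¹ * d ∈ D ⊓ B := Subgroup.mem_inf.2 ⟨D.mul_mem (D.inv_mem d'.2) d.2,
    by rw [h3]; exact B.mul_mem b'.2 (B.inv_mem b.2)⟩
  rw [h, Subgroup.mem_bot] at h5
  have h6 : (d : S) = d' := (inv_mul_eq_one.1 h5).symm
  rw [h6] at h1
  have h7 : (b : S) = b' := mul_left_cancel h1
  exact Prod.ext (Subtype.ext h6) (Subtype.ext h7)

theorem card_sup_le {D B : Subgroup S} (hc : ∀ d ∈ D, ∀ b ∈ B, d * b = b * d) :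
    Nat.card ↥(D ⊔ B) ≤ Nat.card D * Nat.card B := by
  have hDB : D ≤ Subgroup.normalizer (B : Set S) := by
    intro d hd
    refine mem_norm_of_conj fun b hb => ?_
    rw [hc d hd b hb]; simpa using hb
  have h1 : ((D ⊔ B : Subgroup S) : Set S) = (D : Set S) * (B : Set S) :=
    Subgroup.coe_mul_of_left_le_normalizer_right _ _ hDB
  have h3 : Nat.card ↥(D ⊔ B) = Nat.card ↥((D : Set S) * (B : Set S)) := by
    rw [← h1]; rfl
  rw [h3]
  exact Set.natCard_mul_le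

/-- if `|D ⊔ B| = |D| |B|` then `D ∩ B = 1`. -/
theorem inf_eq_bot_of_card {D B : Subgroup S} (hc : ∀ d ∈ D, ∀ b ∈ B, d * b = b * d)
    (hcard : Nat.card D * Nat.card B ≤ Nat.card ↥(D ⊔ B)) : D ⊓ B = ⊥ := by
  have hDB : D ≤ Subgroup.normalizer (B : Set S) := by
    intro d hd
    refine mem_norm_of_conj fun b hb => ?_
    rw [hc d hd b hb]; simpa using hb
  have h1 : ((D ⊔ B : Subgroup S) : Set S) = (D : Set S) * (B : Set S) :=
    Subgroup.coe_mul_of_left_le_normalizer_right _ _ hDB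
  let f : D × B → ↥(D ⊔ B) := fun q => ⟨(q.1 : S) * q.2, Subgroup.mul_mem_sup q.1.2 q.2.2⟩
  have hsurj : Function.Surjective f := by
    intro z
    have hz : (z : S) ∈ (D : Set S) * (B : Set S) := by rw [← h1]; exact z.2
    obtain ⟨d, hd, b, hb, hdb⟩ := hz
    exact ⟨(⟨d, hd⟩, ⟨b, hb⟩), Subtype.ext hdb⟩
  have hcard' : Nat.card (D × B) = Nat.card ↥(D ⊔ B) := by
    refine le_antisymm (by rw [Nat.card_prod]; exact hcard) (Nat.card_le_card_of_surjective f hsurj)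
  have hbij : Function.Bijective f := by
    have := (Nat.bijective_iff_surjective_and_card f).2 ⟨hsurj, hcard'⟩
    exact this
  rw [Subgroup.eq_bot_iff_forall]
  intro e he
  obtain ⟨heD, heB⟩ := Subgroup.mem_inf.1 he
  have h3 : f (⟨e, heD⟩, ⟨e⁻¹, B.inv_mem heB⟩) = f (1, 1) := by
    apply Subtype.ext
    change e * e⁻¹ = (1 : S) * 1
    simp
  have h5 := hbij.1 h3
  have h6 := congrArg Prod.fst h5
  exact congrArg Subtype.val h6

section main

variable {M : Subgroup S} [hMn : M.Normal] (hc : ∀ a ∈ M, ∀ b ∈ M, a * b = b * a)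
  (h2 : ∀ a ∈ M, a ^ 2 = 1) {x : S} (hx3 : x ^ 3 ∈ Subgroup.centralizer (M : Set S))
  (h4 : Nat.card (cS M hc x (nM M x)) = 4)
  {p : ℕ} (hp : p.Prime) (h5 : 5 ≤ p) {V : Subgroup S} (hV : IsPGroup p V)
  (hxV : x ∈ Subgroup.normalizer (V : Set S))

/-- conjugate of `D` -/
noncomputable abbrev DC (x z : S) : Subgroup S := (cS M hc x (nM M x)).map (MulAut.conj z).toMonoidHom

omit [Finite S] in
theorem mem_DC {z d : S} : d ∈ DC hc x z ↔ z⁻¹ * d * z ∈ cS M hc x (nM M x) := by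
  constructor
  · rintro ⟨w, hw, rfl⟩
    have : z⁻¹ * (MulAut.conj z).toMonoidHom w * z = w := by simp [MulAut.conj_apply, mul_assoc]
    rw [this]; exact hw
  · intro h; exact ⟨_, h, by simp [MulAut.conj_apply, mul_assoc]⟩

omit [Finite S] in
theorem DC_le {z : S} : DC hc x z ≤ M := by
  rintro d ⟨w, hw, rfl⟩
  exact hMn.conj_mem w (cS_le hw) z

omit [Finite S] in
theorem card_DC {z : S} : Nat.card (DC hc x z) = Nat.card (cS M hc x (nM M x)) :=
  (Nat.card_congr ((cS M hc x (nM M x)).equivMapOfInjective _ (MulAut.conj z).injective).toEquiv).symm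

omit [Finite S] in
/-- `[[x, z], u] ∈ D D^z` -/
theorem comm_comm_mem {z u : S} (hu : u ∈ M) : ⁅⁅x, z⁆, u⁆ ∈ cS M hc x (nM M x) ⊔ DC hc x z := by
  set w := z * x⁻¹ * z⁻¹ with hw
  have hwu : ⁅w, u⁆ ∈ DC hc x z := by
    rw [mem_DC]
    have hu' : z⁻¹ * u * z ∈ M := by
      have := hMn.conj_mem u hu z⁻¹
      simpa using this
    have hu'' : x⁻¹ * (z⁻¹ * u * z) * x ∈ M := by
      have := hMn.conj_mem _ hu' x⁻¹
      simpa using this
    have e1 : z⁻¹ * ⁅w, u⁆ * z = ⁅x, x⁻¹ * (z⁻¹ * u * z) * x⁆⁻¹ := by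
      simp only [commutatorElement_def, hw]; group
    rw [e1]
    exact Subgroup.inv_mem _ (comm_mem hc hu'')
  have e2 : ⁅⁅x, z⁆, u⁆ = ⁅x, ⁅w, u⁆⁆ * ⁅w, u⁆ * ⁅x, u⁆ := by
    simp only [commutatorElement_def, hw]; group
  rw [e2]
  have h1 : ⁅x, ⁅w, u⁆⁆ ∈ cS M hc x (nM M x) := comm_mem hc (DC_le hc hwu)
  have h3 : ⁅x, u⁆ ∈ cS M hc x (nM M x) := comm_mem hc hu
  exact Subgroup.mul_mem _ (Subgroup.mul_mem _ (Subgroup.mem_sup_left h1) (Subgroup.mem_sup_right hwu))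
    (Subgroup.mem_sup_left h3)

include h4 in
theorem card_sup_DC (z : S) : Nat.card ↥(cS M hc x (nM M x) ⊔ DC hc x z) ≤ 16 := by
  have h := card_sup_le (D := cS M hc x (nM M x)) (B := DC hc x z)
    (fun d hd b hb => hc d (cS_le hd) b (DC_le hc hb))
  rw [card_DC, h4] at h
  exact h

end main

end Cfsg.Agent.BlkInd.NG
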