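import Cfsg.Agent.BlkInd.NGe

/-!
# `p`-groups, `p ≥ 5`, normalized by an element of order 3 with four-group commutator, part 4: Lemma B
-/

set_option autoImplicit false

namespace Cfsg.Agent.BlkInd.NG

open scoped commutatorElement Pointwise

variable {S : Type*} [Group S] [Finite S]

section main

variable {M : Subgroup S} [hMn : M.Normal] (hc : ∀ a ∈ M, ∀ b ∈ M, a * b = b * a)
  (h2 : ∀ a ∈ M, a ^ 2 = 1) {x : S} (hx3 : x ^ 3 ∈ Subgroup.centralizer (M : Set S))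
  (h4 : Nat.card (cS M hc x (nM M x)) = 4)
  {p : ℕ} (hp : p.Prime) (h5 : 5 ≤ p) {V : Subgroup S} (hV : IsPGroup p V)
  (hxV : x ∈ Subgroup.normalizer (V : Set S))

include h2 hx3 h4 hp h5 hV hxV in
theorem core {z : S} (hz : z ∈ ZZ hc V x)
    (hzC : z ∉ V ⊓ Subgroup.centralizer ((ncl V (cS M hc x (nM M x)) : Subgroup S) : Set S)) :
    ∃ (y : S) (B : Subgroup S), y ∈ V ∧ B ≤ ncl V (cS M hc x (nM M x)) ∧ B ≤ cS M hc x (nM M x) ⊔ DC hc x z ∧
      V ≤ Subgroup.normalizer (B : Set S) ∧ ((p = 7 ∧ Nat.card B = 8) ∨ (p = 5 ∧ Nat.card B = 16)) ∧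
      ∀ K : Subgroup S, K ≤ B → K ≠ ⊥ → (∀ k ∈ K, y * k * y⁻¹ ∈ K) → K = B := by
  have hpf := Fact.mk hp
  set D := cS M hc x (nM M x) with hD
  set U := ncl V D with hU
  obtain ⟨hzV, hzc⟩ := mem_zm.1 hz
  have hVU : V ≤ Subgroup.normalizer (U : Set S) := le_normalizer_ncl _ _
  have hxU : x ∈ Subgroup.normalizer (U : Set S) := U_norm hc hxV
  have hyZ : ⁅x, z⁆ ∈ ZZ hc V x := by
    have h1 := (ZZ hc V x).mul_mem (Z_norm hc hxV hz) ((ZZ hc V x).inv_mem hz)
    have h3 : ⁅x, z⁆ = x * z * x⁻¹ * z⁻¹ := commutatorElement_def _ _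
    rw [h3]; exact h1
  obtain ⟨hyV, hyc⟩ := mem_zm.1 hyZ
  have hyC : ⁅x, z⁆ ∉ V ⊓ Subgroup.centralizer (U : Set S) := fun h => hzC (L1 hc h2 hx3 h4 hp h5 hV hxV hz h)
  set y := ⁅x, z⁆ with hy
  have hyU : y ∈ Subgroup.normalizer (U : Set S) := hVU hyV
  have hcU : ∀ a ∈ U, ∀ b ∈ U, a * b = b * a := U_comm hc
  have hUM : U ≤ M := U_le hc
  set B := cS U hcU y hyU with hB
  have hBU : B ≤ U := cS_le
  have hfix : ∀ b ∈ B, y * b = b * y → b = 1 := by
    intro b hb hyb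
    obtain ⟨u, hu, rfl⟩ := mem_cS.1 hb
    exact eq_one_of_comm (k := orderOf y) hyb (by rw [pow_orderOf_eq_one]; simp) (h2 _ (hUM (hBU hb)))
      (ord_odd hp h5 hV hyV)
  have hBle : B ≤ D ⊔ DC hc x z := by
    intro b hb
    obtain ⟨u, hu, rfl⟩ := mem_cS.1 hb
    exact comm_comm_mem hc (hUM hu)
  have hVB : V ≤ Subgroup.normalizer (B : Set S) := by
    intro w hw
    refine mem_norm_of_conj fun b hb => ?_
    refine cS_conj_mem (hVU hw) ?_ hb
    have h1 := (Subgroup.mem_inf.1 (hyc w hw)).2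
    have h3 : w * y * w⁻¹ * y⁻¹ = ⁅y, w⁆⁻¹ := by simp only [commutatorElement_def]; group
    rw [h3]; exact Subgroup.inv_mem _ h1
  have hmodK : ∀ K : Subgroup S, K ≤ B → (∀ k ∈ K, y * k * y⁻¹ ∈ K) → Nat.card K ≡ 1 [MOD p] := by
    intro K hK hyK
    have h1 := card_modEq_fix K y (mem_norm_of_conj hyK) (zp_pgroup hV hyV)
    have h3 : K ⊓ Subgroup.centralizer ({y} : Set S) = ⊥ := by
      rw [Subgroup.eq_bot_iff_forall]
      intro b hb
      obtain ⟨hb1, hb2⟩ := Subgroup.mem_inf.1 hb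
      exact hfix b (hK hb1) (Subgroup.mem_centralizer_singleton_iff.1 hb2).symm
    rw [h3, Subgroup.card_bot] at h1
    exact h1
  have hB1 : 1 < Nat.card B := by
    rw [Finite.one_lt_card_iff_nontrivial, Subgroup.nontrivial_iff_ne_bot]
    intro hbot
    apply hyC
    refine Subgroup.mem_inf.2 ⟨hyV, ?_⟩
    rw [Subgroup.mem_centralizer_iff]
    intro u hu
    have : ⁅y, u⁆ ∈ B := mem_cS.2 ⟨u, hu, rfl⟩
    rw [hbot, Subgroup.mem_bot, commutatorElement_eq_one_iff_mul_comm] at this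
    exact this.symm
  obtain ⟨k, hk⟩ := card_two_pow (B := B) (fun b hb => h2 b (hUM (hBU hb)))
  have hB16 : Nat.card B ≤ 16 :=
    (Nat.card_le_card_of_injective _ (Subgroup.inclusion_injective hBle)).trans (card_sup_DC hc h4 z)
  have hnum := numeric hp h5 hk hB1 hB16
    (hmodK B le_rfl (fun b hb => conj_mem (hVB hyV) hb))
  refine ⟨y, B, hyV, hBU, hBle, hVB, hnum, ?_⟩
  intro K hK hKne hyK
  obtain ⟨j, hj⟩ := card_two_pow (B := K) (fun b hb => h2 b (hUM (hBU (hK hb))))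
  have hK1 : 1 < Nat.card K := by
    rw [Finite.one_lt_card_iff_nontrivial, Subgroup.nontrivial_iff_ne_bot]; exact hKne
  have hKle : Nat.card K ≤ Nat.card B := Nat.card_le_card_of_injective _ (Subgroup.inclusion_injective hK)
  have := numeric2 hnum hj hKle hK1 (hmodK K hK hyK)
  exact Subgroup.eq_of_le_of_card_ge hK this.ge

include h2 hx3 h4 hp h5 hV hxV in
theorem core2 {z : S} (hz : z ∈ ZZ hc V x)
    (hzC : z ∉ V ⊓ Subgroup.centralizer ((ncl V (cS M hc x (nM M x)) : Subgroup S) : Set S)) :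
    ((p = 7 ∧ Nat.card (ncl V (cS M hc x (nM M x))) = 8) ∨ (p = 5 ∧ Nat.card (ncl V (cS M hc x (nM M x))) = 16)) ∧
      ncl V (cS M hc x (nM M x)) ≤ cS M hc x (nM M x) ⊔ DC hc x z := by
  obtain ⟨y, B, hyV, hBU, hBle, hVB, hnum, hirr⟩ := core hc h2 hx3 h4 hp h5 hV hxV hz hzC
  set D := cS M hc x (nM M x) with hD
  set U := ncl V D with hU
  have hUM : U ≤ M := U_le hc
  have h8 : 8 ≤ Nat.card B := by rcases hnum with ⟨_, h⟩ | ⟨_, h⟩ <;> omega
  -- `x` normalizes `B`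
  have hxB : x ∈ Subgroup.normalizer (B : Set S) := by
    set K : Subgroup S := B ⊓ B.map (MulAut.conj x).toMonoidHom with hK
    have hmemK : ∀ z, z ∈ K ↔ z ∈ B ∧ x⁻¹ * z * x ∈ B := by
      intro z
      rw [hK, Subgroup.mem_inf, Subgroup.mem_map]
      refine and_congr_right fun _ => ⟨?_, fun h => ⟨_, h, ?_⟩⟩
      · rintro ⟨w, hw, rfl⟩
        have : x⁻¹ * (MulAut.conj x).toMonoidHom w * x = w := by
          simp [MulAut.conj_apply, mul_assoc]
        rw [this]; exact hw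
      · simp [MulAut.conj_apply, mul_assoc]
    have hyK : ∀ k ∈ K, y * k * y⁻¹ ∈ K := by
      intro k hk
      obtain ⟨h1, h3⟩ := (hmemK k).1 hk
      refine (hmemK _).2 ⟨conj_mem (hVB hyV) h1, ?_⟩
      have h6 : x⁻¹ * (y * k * y⁻¹) * x = (x⁻¹ * y * x) * (x⁻¹ * k * x) * (x⁻¹ * y * x)⁻¹ := by group
      rw [h6]
      exact conj_mem (hVB (conj_mem' hxV hyV)) h3
    by_cases hKb : K = ⊥
    · exfalso
      have hinj : Function.Injective (fun b : B => (⟨⁅x, (b : S)⁆, comm_mem hc (hUM (hBU b.2))⟩ : D)) := by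
        intro a b hab
        have h1 : ⁅x, (a : S)⁆ = ⁅x, (b : S)⁆ := congrArg Subtype.val hab
        have h3 : phi M hc x (nM M x) (⟨a, hUM (hBU a.2)⟩ * ⟨b, hUM (hBU b.2)⟩⁻¹) = 1 := by
          rw [map_mul, map_inv]
          change ⁅x, (a : S)⁆ * ⁅x, (b : S)⁆⁻¹ = 1
          rw [h1, mul_inv_cancel]
        have h6 : ⁅x, (a : S) * (b : S)⁻¹⁆ = 1 := h3
        rw [commutatorElement_eq_one_iff_mul_comm] at h6
        have h7 : (a : S) * (b : S)⁻¹ ∈ K := by
          refine (hmemK _).2 ⟨B.mul_mem a.2 (B.inv_mem b.2), ?_⟩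
          have h9 : x⁻¹ * ((a : S) * (b : S)⁻¹) * x = (a : S) * (b : S)⁻¹ := by
            rw [mul_assoc, ← h6]; group
          rw [h9]; exact B.mul_mem a.2 (B.inv_mem b.2)
        rw [hKb, Subgroup.mem_bot] at h7
        exact Subtype.ext (mul_inv_eq_one.1 h7)
      have h1 := Nat.card_le_card_of_injective _ hinj
      have h4' : Nat.card D = 4 := h4
      omega
    · have hKB : K = B := hirr K (by rw [hK]; exact inf_le_left) hKb hyK
      have h6 : x⁻¹ ∈ Subgroup.normalizer (B : Set S) := by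
        refine mem_norm_of_conj fun b hb => ?_
        have := ((hmemK b).1 (by rw [hKB]; exact hb)).2
        simpa using this
      simpa using Subgroup.inv_mem _ h6
  have hDB : D ≤ B := by
    by_cases hbot : D ⊓ B = ⊥
    · exfalso
      have h1 := card_mul_le (le_sup_left : D ≤ D ⊔ DC hc x z) hBle hbot
      have h3 : Nat.card ↥(D ⊔ DC hc x z) ≤ 16 := card_sup_DC hc h4 z
      have h4' : Nat.card D = 4 := h4
      rw [h4'] at h1
      omega
    · have h1 : D ⊓ B = D := by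
        obtain ⟨e, he1⟩ := (Subgroup.ne_bot_iff_exists_ne_one (H := D ⊓ B)).1 hbot
        obtain ⟨heD, heB⟩ := Subgroup.mem_inf.1 e.2
        refine sub_eq hc h2 hx3 h4 inf_le_left e.2 (fun h => he1 (Subtype.ext h)) ?_
        exact Subgroup.mem_inf.2 ⟨conj_mem (x_norm hc) heD, conj_mem hxB heB⟩
      rw [← h1]; exact inf_le_right
  have hUB : U ≤ B := ncl_le fun v hv d hd => conj_mem (hVB hv) (hDB hd)
  have hUeq : U = B := le_antisymm hUB hBU
  rw [hUeq]
  exact ⟨hnum, hBle⟩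

include h2 hx3 h4 hp h5 hV hxV in
theorem p_ne_five {z : S} (hz : z ∈ ZZ hc V x)
    (hzC : z ∉ V ⊓ Subgroup.centralizer ((ncl V (cS M hc x (nM M x)) : Subgroup S) : Set S)) :
    p = 7 ∧ Nat.card (ncl V (cS M hc x (nM M x))) = 8 := by
  rcases (core2 hc h2 hx3 h4 hp h5 hV hxV hz hzC).1 with h | ⟨hp5, h16⟩
  · exact h
  exfalso
  have hpf := Fact.mk hp
  set D := cS M hc x (nM M x) with hD
  set U := ncl V D with hU
  have hUM : U ≤ M := U_le hc
  have h4' : Nat.card D = 4 := h4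
  have hDU : D ≤ U := le_ncl _ _
  have hxU : x ∈ Subgroup.normalizer (U : Set S) := U_norm hc hxV
  have hVU : V ≤ Subgroup.normalizer (U : Set S) := le_normalizer_ncl _ _
  -- intersections
  have hint : ∀ w ∈ ZZ hc V x, w ∉ V ⊓ Subgroup.centralizer (U : Set S) → D ⊓ DC hc x w = ⊥ := by
    intro w hw hwC
    have hle := (core2 hc h2 hx3 h4 hp h5 hV hxV hw hwC).2
    refine inf_eq_bot_of_card (fun d hd b hb => hc d (cS_le hd) b (DC_le hc hb)) ?_
    rw [card_DC, h4]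
    calc 4 * 4 = 16 := rfl
      _ = Nat.card U := h16.symm
      _ ≤ _ := Nat.card_le_card_of_injective _ (Subgroup.inclusion_injective hle)
  -- powers of `z`
  obtain ⟨hzV, hzc⟩ := mem_zm.1 hz
  have hpow : ∀ i : ℕ, 0 < i → i < 5 → z ^ i ∉ V ⊓ Subgroup.centralizer (U : Set S) := by
    intro i hi hi5 hmem
    apply hzC
    obtain ⟨k, hk⟩ := IsPGroup.iff_orderOf.1 hV ⟨z, hzV⟩
    rw [Subgroup.orderOf_mk, hp5] at hk
    have h1 : z ∈ Subgroup.zpowers (z ^ i) := by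
      rw [mem_zpowers_pow_iff, hk]
      refine Nat.Coprime.pow_right k ?_
      interval_cases i <;> decide
    exact (Subgroup.zpowers_le.2 hmem) h1
  -- a fixed point of `x` in `U`
  obtain ⟨t, htU, ht1, hxt⟩ : ∃ t ∈ U, t ≠ 1 ∧ x * t = t * x := by
    by_contra hno
    push Not at hno
    have hinj : Function.Injective (fun b : U => (⟨⁅x, (b : S)⁆, comm_mem hc (hUM b.2)⟩ : D)) := by
      intro a b hab
      have h1 : ⁅x, (a : S)⁆ = ⁅x, (b : S)⁆ := congrArg Subtype.val hab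
      have h3 : phi M hc x (nM M x) (⟨a, hUM a.2⟩ * ⟨b, hUM b.2⟩⁻¹) = 1 := by
        rw [map_mul, map_inv]
        change ⁅x, (a : S)⁆ * ⁅x, (b : S)⁆⁻¹ = 1
        rw [h1, mul_inv_cancel]
      have h6 : ⁅x, (a : S) * (b : S)⁻¹⁆ = 1 := h3
      rw [commutatorElement_eq_one_iff_mul_comm] at h6
      by_contra hne
      refine hno ((a : S) * (b : S)⁻¹) (U.mul_mem a.2 (U.inv_mem b.2)) (fun h => hne ?_) h6
      exact Subtype.ext (mul_inv_eq_one.1 h)
    have h1 := Nat.card_le_card_of_injective _ hinj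
    omega
  -- the conjugates of `D` cover `U`
  have hcover : ∃ i : ℕ, i < 5 ∧ ∃ d ∈ D, z ^ i * d * (z ^ i)⁻¹ = t := by
    classical
    have := Fintype.ofFinite S
    have hU' : ∀ i : ℕ, ∀ d ∈ D, z ^ i * d * (z ^ i)⁻¹ ∈ U := fun i d hd =>
      conj_mem (hVU (V.pow_mem hzV i)) (hDU hd)
    let f : Fin 5 × {d : D | d ≠ 1} → {u : U | u ≠ 1} := fun q =>
      ⟨⟨z ^ (q.1 : ℕ) * (q.2 : D) * (z ^ (q.1 : ℕ))⁻¹, hU' _ _ (q.2 : D).2⟩, fun h => q.2.2 (by
        have h1 : z ^ (q.1 : ℕ) * ((q.2 : D) : S) * (z ^ (q.1 : ℕ))⁻¹ = 1 := congrArg Subtype.val h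
        exact Subtype.ext (conj_eq_one_iff.1 h1))⟩
    have key : ∀ (i j : ℕ) (d d' : S), i < j → j < 5 → d ∈ D → d' ∈ D → d ≠ 1 →
        z ^ i * d * (z ^ i)⁻¹ ≠ z ^ j * d' * (z ^ j)⁻¹ := by
      intro i j d d' hij hj hd hd' hd1 heq
      have h1 : d = z ^ (j - i) * d' * (z ^ (j - i))⁻¹ := by
        have h3 : z ^ j = z ^ i * z ^ (j - i) := by rw [← pow_add]; congr 1; omega
        rw [h3] at heq
        have h6 : z ^ i * d * (z ^ i)⁻¹ = z ^ i * (z ^ (j - i) * d' * (z ^ (j - i))⁻¹) * (z ^ i)⁻¹ := by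
          rw [heq]; simp only [mul_inv_rev, mul_assoc]
        exact mul_left_cancel (mul_right_cancel h6)
      have h3 : d ∈ D ⊓ DC hc x (z ^ (j - i)) := by
        refine Subgroup.mem_inf.2 ⟨hd, ?_⟩
        rw [mem_DC, h1]
        have : (z ^ (j - i))⁻¹ * (z ^ (j - i) * d' * (z ^ (j - i))⁻¹) * z ^ (j - i) = d' := by group
        rw [this]; exact hd'
      rw [hint _ ((ZZ hc V x).pow_mem hz _) (hpow _ (by omega) (by omega)), Subgroup.mem_bot] at h3
      exact hd1 h3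
    have hinj : Function.Injective f := by
      rintro ⟨i, d⟩ ⟨j, d'⟩ hf
      have h1 : z ^ (i : ℕ) * ((d : D) : S) * (z ^ (i : ℕ))⁻¹ = z ^ (j : ℕ) * ((d' : D) : S) * (z ^ (j : ℕ))⁻¹ :=
        congrArg (fun q : {u : U | u ≠ 1} => ((q : U) : S)) hf
      have hd1 : ((d : D) : S) ≠ 1 := fun h => d.2 (Subtype.ext h)
      have hd1' : ((d' : D) : S) ≠ 1 := fun h => d'.2 (Subtype.ext h)
      rcases lt_trichotomy (i : ℕ) (j : ℕ) with hlt | heq | hgt
      · exact absurd h1 (key _ _ _ _ hlt j.2 (d : D).2 (d' : D).2 hd1)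
      · rw [heq] at h1
        have h3 := mul_left_cancel (mul_right_cancel h1)
        exact Prod.ext (Fin.ext heq) (Subtype.ext (Subtype.ext h3))
      · exact absurd h1.symm (key _ _ _ _ hgt i.2 (d' : D).2 (d : D).2 hd1')
    have hcD : Nat.card {d : D | d ≠ 1} = 3 := by
      rw [Nat.card_eq_fintype_card, Set.card_ne_eq, ← Nat.card_eq_fintype_card, h4']
    have hcU : Nat.card {u : U | u ≠ 1} = 15 := by
      rw [Nat.card_eq_fintype_card, Set.card_ne_eq, ← Nat.card_eq_fintype_card, h16]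
    have hbij : Function.Bijective f := by
      rw [Nat.bijective_iff_injective_and_card]
      refine ⟨hinj, ?_⟩
      rw [Nat.card_prod, hcD, hcU, Nat.card_fin]
    obtain ⟨⟨i, d⟩, hf⟩ := hbij.2 ⟨⟨t, htU⟩, fun h => ht1 (congrArg Subtype.val h)⟩
    exact ⟨i, i.2, (d : D), (d : D).2, congrArg (fun q : {u : U | u ≠ 1} => ((q : U) : S)) hf⟩
  obtain ⟨i, hi, d, hd, hdt⟩ := hcover
  have hd1 : d ≠ 1 := by rintro rfl; apply ht1; rw [← hdt]; simp
  rcases Nat.eq_zero_or_pos i with rfl | hi0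
  · have h1 : d = t := by simpa using hdt
    exact hd1 (fix_one hc h2 hx3 hd (by rw [h1]; exact hxt))
  · set w := z ^ i with hw
    have hwZ : w ∈ ZZ hc V x := (ZZ hc V x).pow_mem hz _
    have hwC := hpow i hi0 hi
    have hwV : w ∈ V := V.pow_mem hzV _
    -- `g = w⁻¹ (x w x⁻¹)`
    have hgZ : w⁻¹ * (x * w * x⁻¹) ∈ ZZ hc V x :=
      (ZZ hc V x).mul_mem ((ZZ hc V x).inv_mem hwZ) (Z_norm hc hxV hwZ)
    have hgd : d ∈ D ⊓ DC hc x (w⁻¹ * (x * w * x⁻¹)) := by
      refine Subgroup.mem_inf.2 ⟨hd, ?_⟩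
      rw [mem_DC]
      have h1 : (w⁻¹ * (x * w * x⁻¹))⁻¹ * d * (w⁻¹ * (x * w * x⁻¹)) = x * d * x⁻¹ := by
        have h3 : x * (w * d * w⁻¹) * x⁻¹ = w * d * w⁻¹ := by
          rw [hdt, hxt]; group
        have h6 : (w⁻¹ * (x * w * x⁻¹))⁻¹ * d * (w⁻¹ * (x * w * x⁻¹)) =
            x * w⁻¹ * x⁻¹ * (w * d * w⁻¹) * x * w * x⁻¹ := by group
        rw [h6, ← h3]; group
      rw [h1]
      exact conj_mem (x_norm hc) hd
    by_cases hgC : w⁻¹ * (x * w * x⁻¹) ∈ V ⊓ Subgroup.centralizer (U : Set S)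
    · apply hwC
      refine L1 hc h2 hx3 h4 hp h5 hV hxV hwZ ?_
      have h1 := C_conj U hVU w hwV _ hgC
      have h3 : w * (w⁻¹ * (x * w * x⁻¹)) * w⁻¹ = ⁅x, w⁆ := by simp only [commutatorElement_def]; group
      rwa [h3] at h1
    · rw [hint _ hgZ hgC, Subgroup.mem_bot] at hgd
      exact hd1 hgd

include h2 hx3 h4 hp h5 hV hxV in
/-- **Lemma B** -/
theorem lemmaB (F : Subgroup S) (hF : F ≤ V) :
    Nat.card F ≤ p * Nat.card ↥(F ⊓ Subgroup.centralizer ((cS M hc x (nM M x) : Subgroup S) : Set S)) := by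
  have hpf := Fact.mk hp
  set D := cS M hc x (nM M x) with hD
  set U := ncl V D with hU
  have hUM : U ≤ M := U_le hc
  have h4' : Nat.card D = 4 := h4
  have hDU : D ≤ U := le_ncl _ _
  have hVU : V ≤ Subgroup.normalizer (U : Set S) := le_normalizer_ncl _ _
  by_cases hVC : V ⊓ Subgroup.centralizer (U : Set S) = V
  · have h1 : F ⊓ Subgroup.centralizer (D : Set S) = F := by
      refine inf_eq_left.2 (hF.trans ?_)
      rw [← hVC]
      exact inf_le_right.trans (Subgroup.centralizer_le hDU)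
    rw [h1]
    exact Nat.le_mul_of_pos_left _ (by omega)
  · obtain ⟨z, hz, hzC⟩ := exists_mem_zm hV inf_le_left (C_conj U hVU) hVC
    obtain ⟨hp7, h8⟩ := p_ne_five hc h2 hx3 h4 hp h5 hV hxV hz hzC
    have hDnt : Nontrivial D := by
      rw [← Finite.one_lt_card_iff_nontrivial, h4']; norm_num
    obtain ⟨d, hd1⟩ := exists_ne (1 : D)
    have hd1' : (d : S) ≠ 1 := fun h => hd1 (Subtype.ext h)
    classical
    have := Fintype.ofFinite S
    have h1 := card_le_mul_card_centralizer F (d : S) ((U : Set S) \ {1}) (by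
      intro n hn
      refine ⟨conj_mem (hVU (hF hn)) (hDU d.2), fun h => hd1' (conj_eq_one_iff.1 h)⟩)
    have h3 : Nat.card ↥((U : Set S) \ {1}) = 7 := by
      rw [Nat.card_coe_set_eq, Set.ncard_sdiff_singleton_of_mem U.one_mem, ← Nat.card_coe_set_eq]
      have : Nat.card ↥(U : Set S) = 8 := h8
      rw [this]
    rw [h3] at h1
    rw [hp7]
    refine h1.trans (Nat.mul_le_mul_left 7 (Nat.card_le_card_of_injective _ (Subgroup.inclusion_injective ?_)))
    intro v hv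
    obtain ⟨hvF, hvd⟩ := Subgroup.mem_inf.1 hv
    refine Subgroup.mem_inf.2 ⟨hvF, ?_⟩
    have hvd' := Subgroup.mem_centralizer_singleton_iff.1 hvd
    have h6 := card_modEq_fix U v (hVU (hF hvF)) (zp_pgroup hV (hF hvF))
    have h7 : Nat.card U = 8 := h8
    have h9 : U ⊓ Subgroup.centralizer ({v} : Set S) = U := by
      obtain ⟨j, hj⟩ := card_two_pow (B := U ⊓ Subgroup.centralizer ({v} : Set S))
        (fun b hb => h2 b (hUM (Subgroup.mem_inf.1 hb).1))
      have hK1 : 1 < Nat.card ↥(U ⊓ Subgroup.centralizer ({v} : Set S)) := by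
        rw [Finite.one_lt_card_iff_nontrivial, Subgroup.nontrivial_iff_exists_ne_one]
        exact ⟨d, Subgroup.mem_inf.2 ⟨hDU d.2, Subgroup.mem_centralizer_singleton_iff.2 hvd'.symm⟩, hd1'⟩
      have hle : Nat.card ↥(U ⊓ Subgroup.centralizer ({v} : Set S)) ≤ Nat.card U :=
        Nat.card_le_card_of_injective _ (Subgroup.inclusion_injective inf_le_left)
      have h10 := numeric2 (p := p) (n := 8) (Or.inl ⟨hp7, rfl⟩) hj (by rw [← h7]; exact hle) hK1 (by
        rw [h7, hp7] at h6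
        rw [hp7]
        exact h6.symm.trans (by decide))
      exact Subgroup.eq_of_le_of_card_ge inf_le_left (by rw [h7, h10])
    rw [Subgroup.mem_centralizer_iff]
    intro e he
    have h11 : e ∈ U ⊓ Subgroup.centralizer ({v} : Set S) := by rw [h9]; exact hDU he
    exact Subgroup.mem_centralizer_singleton_iff.1 (Subgroup.mem_inf.1 h11).2

end main

end Cfsg.Agent.BlkInd.NG
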