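import Cfsg.Agent.BlkInd.NGf
import Cfsg.Agent.BG.Sec5a
import Cfsg.Agent.BG.Rank2Prime
import Cfsg.Agent.BG.PiHall
import Cfsg.Agent.BG.PStructure
import Cfsg.Agent.H76.PSolvable
import Cfsg.Agent.ZJ.SolvFact

/-!
# solvable `{3,p}`-groups of 3-rank two, `p ≥ 5` (tools for S4404)
-/

set_option autoImplicit false

namespace Cfsg.Agent.BlkInd.NG

open scoped commutatorElement Pointwise

theorem p_elements_in_core {H : Type*} [Group H] [Finite H] [Group.IsSolvable H] {p : ℕ} (hp : p.Prime) (h5 : 5 ≤ p)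
    (hr : Cfsg.PRankLE 3 2 H) (h : H) (hh : ∃ k, orderOf h = p ^ k) : h ∈ Cfsg.pPrimeCore 3 H := by
  have h3f := Fact.mk Nat.prime_three
  have hpf := Fact.mk hp
  set V := Cfsg.pPrimeCore 3 H with hV
  have hcop : (Nat.card V).Coprime 3 := Cfsg.Agent.Solv.pPrimeCore_card_coprime 3
  have hVn : V.Normal := inferInstance
  have hcore : Cfsg.pPrimeCore 3 (H ⧸ V) = ⊥ := Cfsg.Agent.Solv.pPrimeCore_quotient_pPrimeCore 3
  have hsolv : Group.IsSolvable (H ⧸ V) := inferInstance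
  have hcen := Cfsg.Agent.H76.centralizer_pCore_le (Cfsg.Agent.ZJ.isPSolvable_of_isSolvable 3 hsolv) hcore
  set T := Cfsg.pCore 3 (H ⧸ V) with hT
  have hTp : IsPGroup 3 T := Cfsg.Agent.Solv.pCore_isPGroup 3
  have hTr : Cfsg.PRankLE 3 2 T := Cfsg.Agent.BG.PRankLE.subgroup (Cfsg.Agent.BG.PRankLE.quotient_coprime V hcop hr) T
  have hTn : T.Normal := inferInstance
  set g : H ⧸ V := QuotientGroup.mk h with hg
  obtain ⟨k, hk⟩ := hh
  have hgk : g ^ p ^ k = 1 := by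
    rw [hg, ← QuotientGroup.mk_pow, ← hk, pow_orderOf_eq_one]; rfl
  set a : MulAut T := MulAut.conjNormal g with ha
  have ha1 : a = 1 := by
    by_contra hne
    have hak : a ^ p ^ k = 1 := by rw [ha, ← map_pow, hgk, map_one]
    obtain ⟨j, _, hj⟩ := (Nat.dvd_prime_pow hp).1 (orderOf_dvd_of_pow_eq_one hak)
    have hj0 : j ≠ 0 := by
      rintro rfl
      rw [pow_zero, orderOf_eq_one_iff] at hj
      exact hne hj
    have hord : orderOf (a ^ p ^ (j - 1)) = p := by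
      rw [orderOf_pow_of_dvd (pow_ne_zero _ hp.ne_zero) (by rw [hj]; exact pow_dvd_pow p (by omega)), hj,
        Nat.pow_div (by omega) hp.pos]
      have : j - (j - 1) = 1 := by omega
      rw [this, pow_one]
    have := (Cfsg.Agent.BG.rank2_prime_mulAut (p := 3) (q := p) (by norm_num) hTp hTr (by omega) _ hord).2
    omega
  have hgT : g ∈ T := by
    apply hcen
    rw [Subgroup.mem_centralizer_iff]
    intro t ht
    have h1 : ((a ⟨t, ht⟩ : T) : H ⧸ V) = t := by rw [ha1]; rfl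
    rw [ha, MulAut.conjNormal_apply] at h1
    exact (mul_inv_eq_iff_eq_mul.1 h1).symm
  have hg1 : g = 1 := by
    obtain ⟨m, hm⟩ := hTp ⟨g, hgT⟩
    have hm' : g ^ 3 ^ m = 1 := congrArg Subtype.val hm
    have h1 : orderOf g ∣ Nat.gcd (p ^ k) (3 ^ m) :=
      Nat.dvd_gcd (orderOf_dvd_of_pow_eq_one hgk) (orderOf_dvd_of_pow_eq_one hm')
    have h3 : Nat.gcd (p ^ k) (3 ^ m) = 1 :=
      Nat.Coprime.pow _ _ ((Nat.coprime_primes hp Nat.prime_three).2 (by omega))
    rw [h3, Nat.dvd_one, orderOf_eq_one_iff] at h1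
    exact h1
  rwa [hg, QuotientGroup.eq_one_iff] at hg1

theorem core_isPGroup {H : Type*} [Group H] [Finite H] {p : ℕ}
    (hπ : ∀ r : ℕ, r.Prime → r ∣ Nat.card H → r = 3 ∨ r = p) : IsPGroup p (Cfsg.pPrimeCore 3 H) := by
  have hcop : (Nat.card (Cfsg.pPrimeCore 3 H)).Coprime 3 := Cfsg.Agent.Solv.pPrimeCore_card_coprime 3
  refine IsPGroup.of_card (n := (Nat.card (Cfsg.pPrimeCore 3 H)).primeFactorsList.length) ?_
  refine Nat.eq_prime_pow_of_unique_prime_dvd Nat.card_pos.ne' ?_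
  intro d hd hdvd
  rcases hπ d hd (hdvd.trans (Subgroup.card_subgroup_dvd_card _)) with rfl | h
  · exfalso
    have := Nat.dvd_gcd hdvd (dvd_refl 3)
    rw [hcop] at this
    omega
  · exact h

end Cfsg.Agent.BlkInd.NG
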