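import Mathlib
import Cfsg.Agent.BlkInd.CoverC
import Cfsg.Agent.Blk.Lift
import Cfsg.Agent.Blk.Orth2

set_option autoImplicit false
set_option linter.style.haveILetI false
set_option linter.unusedSimpArgs false
set_option linter.unusedSectionVars false
set_option linter.unusedVariables false

/-!
# Groups with a self-centralizing normal `p`-subgroup have one block
-/

namespace Cfsg.Agent.BlkInd

open scoped BigOperators ComplexConjugate
open Cfsg Cfsg.Agent.CharBase Cfsg.Agent.Blk

universe u v w

variable {G : Type u} [Group G] [Fintype G] {M : Ideal AlgInt} [hM : M.IsPrime] {p : ℕ} [hp : Fact p.Prime]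

/-- a group with a normal `p`-subgroup `P` such that `C_G(P) ≤ P` has a single `p`-block -/
theorem sameBlock_of_centric (hMod : IsPModular p M) {P : Subgroup G} [P.Normal] (hP : IsPGroup p P)
    (hC : Subgroup.centralizer (P : Set G) ≤ P) (χ ψ : IrrCharacter G) :
    SameBlock M (χ : G → ℂ) (ψ : G → ℂ) := by
  classical
  set B := blockOf M (χ : G → ℂ) with hBdef
  have hB : IsPBlock M B := ⟨χ, rfl⟩
  have hχ : χ ∈ B := mem_blockOf_self χ
  have hz : ∀ g : G, g ≠ 1 → blockCoeff B g = 0 := by
    intro g hg
    by_cases hgC : g ∈ Subgroup.centralizer (P : Set G)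
    · refine blockCoeff_eq_zero_of_dvd hMod hB ?_
      have h1 := hC hgC
      obtain ⟨k, hk⟩ := (IsPGroup.iff_orderOf.mp hP) ⟨g, h1⟩
      have h2 : orderOf g = p ^ k := by rw [← hk, ← Subgroup.orderOf_coe]
      rw [h2]
      rcases Nat.eq_zero_or_pos k with rfl | hk0
      · rw [pow_zero, orderOf_eq_one_iff] at h2
        exact absurd h2 hg
      · exact dvd_pow_self p hk0.ne'
    · exact blockCoeff_eq_zero_of_normal hMod hP hB hgC
  have he : eB B = blockCoeff B 1 • (1 : MonoidAlgebra ℂ G) := by
    apply ga_ext
    intro g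
    rw [coeff_smul', coeff_one']
    show blockCoeff B g = _
    split_ifs with h
    · rw [h, mul_one]
    · rw [hz g h, mul_zero]
  have h1 := om_eB_of_mem (B := B) hχ
  have h2 : ψ ∈ B := by
    by_contra hne
    have h3 := om_eB_of_not_mem hne
    rw [he, om_smul, om_one χ.2] at h1
    rw [he, om_smul, om_one ψ.2] at h3
    rw [h1] at h3
    exact one_ne_zero h3
  exact h2

end Cfsg.Agent.BlkInd
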