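import Mathlib
import Cfsg.Agent.BlkInd.SecMajor
import Cfsg.Agent.BlkInd.AmGmInt

set_option autoImplicit false
set_option linter.style.haveILetI false
set_option linter.unusedSimpArgs false
set_option linter.unusedSectionVars false
set_option linter.unusedVariables false

/-!
# Galois conjugation of the contributions
-/

namespace Cfsg.Agent.BlkInd

open scoped BigOperators ComplexConjugate
open Cfsg Cfsg.Agent.CharBase Cfsg.Agent.Blk Cfsg.Agent.BlkC Cfsg.Agent.Star MonoidAlgebra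

universe u v w

section

variable {G : Type u} [Group G] [Fintype G] {M : Ideal AlgInt} {p : ℕ}
  [hp : Fact p.Prime] {C : Subgroup G} [Fintype C] {x : G}

theorem exists_dco_pow (hC : C = Subgroup.centralizer ({x} : Set G)) (χ : IrrCharacter G)
    (η : IrrCharacter C) : ∃ ω : ℂ, ω ^ orderOf x = 1 ∧
      ∀ k : ℕ, dco (x ^ k) (χ : G → ℂ) η = ω ^ k * (resMult χ η : ℂ) := by
  obtain ⟨ω, h1, -, h2⟩ := H79.irr_central_mul η (Subgroup.inv_mem _ (mem_center_self hC))
  have h2' : ∀ (k : ℕ) (c : C), (η : C → ℂ) ((⟨x, mem_self hC⟩ : C)⁻¹ ^ k * c) =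
      ω ^ k * (η : C → ℂ) c := by
    intro k
    induction k with
    | zero => intro c; simp
    | succ k ih =>
      intro c
      rw [pow_succ, mul_assoc, ih, h2, pow_succ]; ring
  refine ⟨conj ω, ?_, fun k => ?_⟩
  · rw [← map_pow]
    have h3 : orderOf (⟨x, mem_self hC⟩ : C)⁻¹ = orderOf x := by
      rw [orderOf_inv, ← Subgroup.orderOf_coe]
    rw [h3] at h1
    rw [h1, map_one]
  · rw [← resMult_spec]
    unfold dco classInner
    rw [mul_left_comm]
    congr 1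
    rw [Finset.mul_sum]
    refine Fintype.sum_equiv (Equiv.mulLeft ((⟨x, mem_self hC⟩ : C) ^ k)) _ _ fun c => ?_
    have h4 := h2' k ((⟨x, mem_self hC⟩ : C) ^ k * c)
    rw [inv_pow, inv_mul_cancel_left] at h4
    have h5 : conj ((η : C → ℂ) c) = (conj ω) ^ k *
        conj ((η : C → ℂ) ((⟨x, mem_self hC⟩ : C) ^ k * c)) := by
      rw [h4, map_mul, map_pow]
    change (χ : G → ℂ) (x ^ k * (c : G)) * conj ((η : C → ℂ) c) =
      (conj ω) ^ k * ((χ : G → ℂ) (x ^ k * (c : G)) *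
        conj ((η : C → ℂ) ((⟨x, mem_self hC⟩ : C) ^ k * c)))
    rw [h5]
    ring

theorem dco_mem_cyc (hC : C = Subgroup.centralizer ({x} : Set G)) {n : ℕ} (hn : orderOf x ∣ n)
    (χ : IrrCharacter G) (η : IrrCharacter C) : dco x (χ : G → ℂ) η ∈ cycRing n := by
  obtain ⟨ω, hω, h⟩ := exists_dco_eq hC χ η
  rw [h]
  refine Subring.mul_mem _ (Subring.subset_closure ?_) (natCast_mem _ _)
  change ω ^ n = 1
  obtain ⟨m, hm⟩ := hn
  rw [hm, pow_mul, hω, one_pow]

theorem pow_mul_sc_mem_cyc (hC : C = Subgroup.centralizer ({x} : Set G)) {n : ℕ}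
    (hn : orderOf x ∣ n) (e : Set (IrrCharacter C)) (χ ψ : IrrCharacter G) :
    (p : ℂ) ^ blockDefect p e * sc p x e (χ : G → ℂ) (ψ : G → ℂ) ∈ cycRing n := by
  rw [pow_mul_sc]
  refine Subring.sum_mem _ fun η _ => Subring.sum_mem _ fun η' _ => ?_
  exact Subring.mul_mem _ (Subring.mul_mem _ (dco_mem_cyc hC hn χ η)
    (cycRing_conj_mem (dco_mem_cyc hC hn ψ η'))) (intCast_mem _ _)

theorem map_dco (hC : C = Subgroup.centralizer ({x} : Set G)) {n k : ℕ} (hn : orderOf x ∣ n)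
    {σ : ℂ ≃+* ℂ} (hσ : IsPow n k σ) (χ : IrrCharacter G) (η : IrrCharacter C) :
    σ (dco x (χ : G → ℂ) η) = dco (x ^ k) (χ : G → ℂ) η := by
  obtain ⟨ω, h1, h2⟩ := exists_dco_pow hC χ η
  have h3 := h2 1
  rw [pow_one, pow_one] at h3
  rw [h2 k, h3, map_mul, map_natCast, hσ ω]
  obtain ⟨m, hm⟩ := hn
  rw [hm, pow_mul, h1, one_pow]

/-- Galois conjugation of the contributions -/
theorem map_pow_mul_sc (hC : C = Subgroup.centralizer ({x} : Set G)) {n k : ℕ}
    (hn : orderOf x ∣ n) {σ : ℂ ≃+* ℂ} (hσ : IsPow n k σ) (e : Set (IrrCharacter C))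
    (χ ψ : IrrCharacter G) :
    σ ((p : ℂ) ^ blockDefect p e * sc p x e (χ : G → ℂ) (ψ : G → ℂ)) =
      (p : ℂ) ^ blockDefect p e * sc p (x ^ k) e (χ : G → ℂ) (ψ : G → ℂ) := by
  rw [pow_mul_sc, pow_mul_sc, map_sum]
  refine Finset.sum_congr rfl fun η _ => ?_
  rw [map_sum]
  refine Finset.sum_congr rfl fun η' _ => ?_
  rw [map_mul, map_mul, map_intCast, hσ.map_conj (dco_mem_cyc hC hn ψ η'), map_dco hC hn hσ,
    map_dco hC hn hσ]

theorem map_sc (hC : C = Subgroup.centralizer ({x} : Set G)) {n k : ℕ}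
    (hn : orderOf x ∣ n) {σ : ℂ ≃+* ℂ} (hσ : IsPow n k σ) (e : Set (IrrCharacter C))
    (χ ψ : IrrCharacter G) :
    σ (sc p x e (χ : G → ℂ) (ψ : G → ℂ)) = sc p (x ^ k) e (χ : G → ℂ) (ψ : G → ℂ) := by
  have h1 := map_pow_mul_sc (p := p) hC hn hσ e χ ψ
  rw [map_mul, map_pow, map_natCast] at h1
  exact mul_left_cancel₀ (pow_ne_zero _ (by exact_mod_cast hp.out.ne_zero)) h1

end

section

variable {G : Type u} [Group G] [Fintype G] {M : Ideal AlgInt} [hM : M.IsPrime] {p : ℕ}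
  [hp : Fact p.Prime]

theorem classInner_wOrb' (hMod : IsPModular p M) {C : Subgroup G} [Fintype C] {x : G}
    (hC : C = Subgroup.centralizer (Subgroup.zpowers x : Set G)) {e : Set (IrrCharacter C)}
    (hx : ∃ k : ℕ, orderOf x = p ^ k)
    (he : IsPBlock M e) {χ ψ : G → ℂ} (hχ : IsClassFunction G χ) (hψ : IsClassFunction G ψ) :
    classInner (wstar p (wOrb x (EB M C e)) χ) ψ = sc p x e χ ψ := by
  subst hC
  exact classInner_wOrb hMod hx he hχ hψ

theorem zpowers_pow_of_coprime {x : G} {k : ℕ} (h : Nat.Coprime (orderOf x) k) :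
    Subgroup.zpowers (x ^ k) = Subgroup.zpowers x := by
  apply le_antisymm
  · exact Subgroup.zpowers_le.mpr (Subgroup.pow_mem _ (Subgroup.mem_zpowers x) k)
  · rw [Subgroup.zpowers_le]
    exact mem_zpowers_pow_iff.mpr h.symm

end

end Cfsg.Agent.BlkInd
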