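import Cfsg.Agent.BlkInd.Canon2
import Cfsg.Agent.Char.Clifford

/-!
# Definitions for the three characters theorem (owner: helper16)
-/

set_option autoImplicit false

namespace Cfsg.Agent.BlkInd.TC

open scoped BigOperators ComplexConjugate
open Cfsg Cfsg.Agent.CharBase Cfsg.Agent.Blk Cfsg.Agent.BlkC Cfsg.Agent.BlkInd

universe u

/-- `χ` lies over `θ` -/
def Ov {X : Type u} [Group X] (C : Subgroup X) [Fintype C] (θ : IrrCharacter C) (χ : IrrCharacter X) : Prop :=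
  classInner (fun n : C => (χ : X → ℂ) n) (θ : C → ℂ) ≠ 0

/-- good elements of the quotient -/
def Gd {X : Type u} [Group X] (C : Subgroup X) [C.Normal] [Fintype C] (θ : IrrCharacter C) (g : X ⧸ C) : Prop :=
  ∃ χ : IrrCharacter X, Ov C θ χ ∧ ∃ t : X, (QuotientGroup.mk t : X ⧸ C) = g ∧ (χ : X → ℂ) t ≠ 0

/-- `θ` is invariant in `X` -/
def Iv {X : Type u} [Group X] (C : Subgroup X) [hC : C.Normal] (θ : IrrCharacter C) : Prop :=
  ∀ (x : X) (n : C), (θ : C → ℂ) ⟨x * n * x⁻¹, hC.conj_mem (n : X) n.2 x⟩ = (θ : C → ℂ) n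

end Cfsg.Agent.BlkInd.TC
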