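import Cfsg.Agent.H4.Dom
import Cfsg.Agent.H25.CoprimeCoset
import Cfsg.Agent.BlkInd.TCdef

/-!
# Domination for normal `p`-subgroups: ranks (owner: helper16)
-/

set_option autoImplicit false
set_option linter.unusedSectionVars false
set_option linter.style.haveILetI false

namespace Cfsg.Agent.BlkInd.TC

open scoped ComplexConjugate
open Cfsg Cfsg.Agent.CharBase Cfsg.Agent.Blk Cfsg.Agent.BlkInd Cfsg.Agent.BlkC Cfsg.Agent.H4

universe u

theorem eq_one_of_comm_regular {H : Type u} [Group H] [Finite H] {p : ℕ} [hp : Fact p.Prime] {c s : H}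
    (hc : ∃ k, orderOf c = p ^ k) (hcs : c * s = s * c) (h1 : ¬ p ∣ orderOf s) (h2 : ¬ p ∣ orderOf (c * s)) : c = 1 := by
  obtain ⟨k, hk⟩ := hc
  have h3 : c ^ (orderOf (c * s) * orderOf s) = 1 := by
    have h4 : (c * s) ^ (orderOf (c * s) * orderOf s) = c ^ (orderOf (c * s) * orderOf s) *
        s ^ (orderOf (c * s) * orderOf s) := (show Commute c s from hcs).mul_pow _
    rw [pow_mul, pow_orderOf_eq_one, one_pow] at h4
    have h5 : s ^ (orderOf (c * s) * orderOf s) = 1 := by rw [mul_comm, pow_mul, pow_orderOf_eq_one, one_pow]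
    rw [h5, mul_one] at h4
    exact h4.symm
  have h6 := orderOf_dvd_of_pow_eq_one h3
  rw [hk] at h6
  rcases Nat.eq_zero_or_pos k with h | h
  · rw [h, pow_zero] at hk
    exact orderOf_eq_one_iff.mp hk
  · exfalso
    have h7 : p ∣ orderOf (c * s) * orderOf s := (dvd_pow_self p h.ne').trans h6
    rcases (hp.out.dvd_mul).mp h7 with h8 | h8
    · exact h2 h8
    · exact h1 h8

theorem conj_regular {H : Type u} [Group H] [Finite H] {p : ℕ} [hp : Fact p.Prime] {Q : Subgroup H} [hQn : Q.Normal]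
    (hQ : IsPGroup p Q) {s t : H} (hs : ¬ p ∣ orderOf s) (ht : ¬ p ∣ orderOf t) (h : t * s⁻¹ ∈ Q) :
    ∃ x ∈ Q, x * t * x⁻¹ = s := by
  have hcop : Nat.Coprime (orderOf s) (Nat.card Q) := by
    obtain ⟨k, hk⟩ := IsPGroup.iff_card.mp hQ
    rw [hk]
    exact Nat.Coprime.pow_right k ((Nat.Prime.coprime_iff_not_dvd hp.out).mpr hs).symm
  obtain ⟨x, hx, c, hc, hcs, hxc⟩ := Cfsg.Agent.H25.coprime_coset_conj Q s
    (by rw [Subgroup.normalizer_eq_top_iff.mpr hQn]; exact Subgroup.mem_top _) hcop _ h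
  rw [inv_mul_cancel_right] at hxc
  have hc1 : c = 1 := by
    refine eq_one_of_comm_regular (p := p) ?_ hcs hs ?_
    · obtain ⟨k, hk⟩ := (IsPGroup.iff_orderOf.mp hQ) ⟨c, hc⟩
      exact ⟨k, by rw [← hk, ← Subgroup.orderOf_coe]⟩
    · have h9 : orderOf (x * t * x⁻¹) = orderOf t := MulEquiv.orderOf_eq (MulAut.conj x) t
      rw [← hxc, h9]; exact ht
  rw [hc1, one_mul] at hxc
  exact ⟨x, hx, hxc⟩

section dom

variable {H : Type u} [Group H] [Fintype H] {M : Ideal AlgInt} [M.IsPrime] {p : ℕ}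
variable [hp : Fact p.Prime] {Q : Subgroup H} [hQn : Q.Normal] {b : Set (IrrCharacter H)}
variable [Fintype (H ⧸ Q)]

/-- members of `b` are combinations of inflated characters on regular elements -/
theorem exists_expand (hM : IsPModular p M) (hQ : IsPGroup p Q)
    (hb : IsPBlock M b) {η : IrrCharacter H} (hη : η ∈ b) :
    ∃ n : IrrCharacter (H ⧸ Q) → ℂ, ∀ g : H, ¬ p ∣ orderOf g →
      (η : H → ℂ) g = ∑ ψ ∈ Bfin (dom Q b), (n ψ : ℂ) * (ψ : H ⧸ Q → ℂ) (QuotientGroup.mk g) := by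
  classical
  haveI := Fintype.ofFinite (IrrCharacter H)
  haveI := Fintype.ofFinite (IrrCharacter (H ⧸ Q))
  obtain ⟨m, hm, hm0, hmg⟩ := (exists_powCond (G := H) p).2
  set θ : H → ℂ := fun g => (η : H → ℂ) (g ^ m) with hθ
  have hreg : ∀ g : H, ¬ p ∣ orderOf (g ^ m) := by
    intro g hg
    have hn0 : Nat.card H ≠ 0 := Nat.card_pos.ne'
    have h1 : (g ^ m) ^ (Nat.card H / p ^ (Nat.card H).factorization p) = 1 := by
      rw [← pow_mul, ← orderOf_dvd_iff_pow_eq_one]
      refine (orderOf_dvd_natCard g).trans ?_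
      conv_lhs => rw [← Nat.ordProj_mul_ordCompl_eq_self (Nat.card H) p]
      exact Nat.mul_dvd_mul hm0 dvd_rfl
    exact Nat.not_dvd_ordCompl hp.out hn0 (hg.trans (orderOf_dvd_of_pow_eq_one h1))
  have hconst : ∀ (g : H) (q : H), q ∈ Q → θ (g * q) = θ g := by
    intro g q hq
    simp only [hθ]
    obtain ⟨x, hx, hxg⟩ := conj_regular hQ (hreg g) (hreg (g * q)) (by
      have h1 : (QuotientGroup.mk ((g * q) ^ m) : H ⧸ Q) = QuotientGroup.mk (g ^ m) := by
        rw [QuotientGroup.mk_pow, QuotientGroup.mk_pow, QuotientGroup.mk_mul_of_mem _ hq]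
      have h2 := QuotientGroup.eq.mp h1.symm
      have h3 := hQn.conj_mem _ h2 (g ^ m)
      have h4 : g ^ m * ((g ^ m)⁻¹ * (g * q) ^ m) * (g ^ m)⁻¹ = (g * q) ^ m * (g ^ m)⁻¹ := by group
      rwa [h4] at h3)
    rw [← hxg, irr_isClassFunction η]
  set θ' : H ⧸ Q → ℂ := fun y => θ (Quotient.out y) with hθ'
  have hmk : ∀ g : H, θ' (QuotientGroup.mk g) = θ g := by
    intro g
    obtain ⟨q, hq⟩ := QuotientGroup.mk_out_eq_mul Q g
    simp only [hθ']
    change θ (Quotient.out (QuotientGroup.mk g : H ⧸ Q)) = θ g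
    rw [hq]
    exact hconst g q q.2
  have hcl : IsClassFunction (H ⧸ Q) θ' := by
    intro y x
    obtain ⟨g, rfl⟩ := QuotientGroup.mk_surjective y
    obtain ⟨a, rfl⟩ := QuotientGroup.mk_surjective x
    have h1 : (QuotientGroup.mk a : H ⧸ Q) * QuotientGroup.mk g * (QuotientGroup.mk a)⁻¹ =
        QuotientGroup.mk (a * g * a⁻¹) := rfl
    rw [h1, hmk, hmk]
    simp only [hθ]
    rw [conj_pow, irr_isClassFunction η]
  set n : IrrCharacter (H ⧸ Q) → ℂ := fun ψ => classInner θ' (ψ : H ⧸ Q → ℂ) with hn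
  refine ⟨n, fun g hg => ?_⟩
  have hall : ∀ g : H, ¬ p ∣ orderOf g → ∑ η' : IrrCharacter H, (if η' = η then 1 else 0) * (η' : H → ℂ) g =
      ∑ ψ : IrrCharacter (H ⧸ Q), (n ψ : ℂ) * ((inflI ψ : IrrCharacter H) : H → ℂ) g := by
    intro g hg
    have h1 : (η : H → ℂ) g = θ' (QuotientGroup.mk g) := by
      rw [hmk]; simp only [hθ]; rw [hmg g hg]
    have h2 := congrFun (classFun_eq_sum hcl) (QuotientGroup.mk g)
    rw [Finset.sum_apply] at h2
    simp only [Pi.smul_apply, smul_eq_mul] at h2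
    simp only [ite_mul, one_mul, zero_mul, Finset.sum_ite_eq', Finset.mem_univ, if_true]
    rw [h1, h2]
    rfl
  have h3 := cut_block hM hb (fun ψ : IrrCharacter (H ⧸ Q) => inflI ψ) (fun ψ => (n ψ : ℂ))
    (fun η' => if η' = η then 1 else 0) hall hg
  rw [filter_dom] at h3
  simp only [ite_mul, one_mul, zero_mul] at h3
  rw [Finset.sum_ite_eq', if_pos (mem_Bfin.mpr hη)] at h3
  exact h3

theorem rank_le_card_dom' (hM : IsPModular p M) (hQ : IsPGroup p Q)
    (hb : IsPBlock M b) : blockRank p b ≤ Nat.card (dom Q b) := by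
  classical
  unfold blockRank
  set F : IrrCharacter (H ⧸ Q) → H → ℂ := fun ψ => pRegularPart p ((inflI ψ : IrrCharacter H) : H → ℂ)
    with hF
  have hle : Submodule.span ℂ ((fun χ : IrrCharacter H => pRegularPart p (χ : H → ℂ)) '' b) ≤
      Submodule.span ℂ (((Bfin (dom Q b)).image F : Finset (H → ℂ)) : Set (H → ℂ)) := by
    rw [Submodule.span_le]
    rintro _ ⟨η, hη, rfl⟩
    obtain ⟨n, hn⟩ := exists_expand hM hQ hb hη
    have h1 : (fun χ : IrrCharacter H => pRegularPart p (χ : H → ℂ)) η =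
        ∑ ψ ∈ Bfin (dom Q b), (n ψ : ℂ) • F ψ := by
      funext g
      rw [Finset.sum_apply]
      by_cases hg : p ∣ orderOf g
      · simp only [hF]
        rw [pRegularPart_apply_of_sing hg]
        symm
        refine Finset.sum_eq_zero fun ψ _ => ?_
        rw [Pi.smul_apply, pRegularPart_apply_of_sing hg, smul_zero]
      · simp only [hF]
        rw [pRegularPart_apply_of_reg hg, hn g hg]
        refine Finset.sum_congr rfl fun ψ _ => ?_
        rw [Pi.smul_apply, pRegularPart_apply_of_reg hg, smul_eq_mul]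
        rfl
    rw [SetLike.mem_coe, h1]
    refine Submodule.sum_mem _ fun ψ hψ => Submodule.smul_mem _ _ (Submodule.subset_span ?_)
    exact Finset.mem_coe.mpr (Finset.mem_image_of_mem _ hψ)
  calc Module.finrank ℂ _ ≤ Module.finrank ℂ (Submodule.span ℂ
        (((Bfin (dom Q b)).image F : Finset (H → ℂ)) : Set (H → ℂ))) :=
        Submodule.finrank_mono hle
    _ ≤ ((Bfin (dom Q b)).image F).card := finrank_span_finset_le_card _
    _ ≤ (Bfin (dom Q b)).card := Finset.card_image_le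
    _ = Nat.card (dom Q b) := natCard_eq_Bfin.symm

end dom

end Cfsg.Agent.BlkInd.TC
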