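import Cfsg.Agent.BlkInd.TCa
import Cfsg.Agent.BlkInd.Reynolds
import Cfsg.Agent.H76.FRCover
import Cfsg.Agent.AbFree.Sign
import Cfsg.Agent.H76.OneNonvan3

/-!
# Blocks with abelian normal defect group: characters over the canonical character (owner: helper16)
-/

set_option autoImplicit false
set_option linter.unusedSectionVars false
set_option linter.style.haveILetI false

namespace Cfsg.Agent.BlkInd.TC

open scoped ComplexConjugate
open Cfsg Cfsg.Agent.CharBase Cfsg.Agent.Blk Cfsg.Agent.BlkInd Cfsg.Agent.BlkC Cfsg.Agent.H4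

universe u

section base
variable {X : Type u} [Group X]

/-- `V C_X(V)` -/
abbrev NN (V : Subgroup X) : Subgroup X := V ⊔ Subgroup.centralizer (V : Set X)

/-- `V` in `V C_X(V)` -/
abbrev DD (V : Subgroup X) : Subgroup (NN V) := V.subgroupOf (NN V)

theorem DD_sup (V : Subgroup X) : DD V ⊔ Subgroup.centralizer (DD V : Set (NN V)) = ⊤ := by
  have hPN : V ≤ NN V := le_sup_left
  have hCN : Subgroup.centralizer (V : Set X) ≤ NN V := le_sup_right
  apply Subgroup.map_injective (NN V).subtype_injective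
  rw [Subgroup.map_sup, ← MonoidHom.range_eq_map, Subgroup.range_subtype]
  apply le_antisymm
  · exact sup_le (Subgroup.map_subtype_le _) (Subgroup.map_subtype_le _)
  · refine sup_le ?_ ?_
    · refine le_trans ?_ le_sup_left
      intro x hx
      exact ⟨⟨x, hPN hx⟩, Subgroup.mem_subgroupOf.mpr hx, rfl⟩
    · refine le_trans ?_ le_sup_right
      intro x hx
      refine ⟨⟨x, hCN hx⟩, ?_, rfl⟩
      rw [SetLike.mem_coe, Subgroup.mem_centralizer_iff]
      intro d hd
      exact Subtype.ext (Subgroup.mem_centralizer_iff.mp hx (d : X) (Subgroup.mem_subgroupOf.mp hd))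

/-- the action on the dual group of a normal subgroup -/
noncomputable def dact (V : Subgroup X) [V.Normal] : X →* MulAut (V →* ℂˣ) where
  toFun g :=
    { toFun := fun l => l.comp (MulAut.conjNormal g⁻¹ : MulAut V).toMonoidHom
      invFun := fun l => l.comp (MulAut.conjNormal g : MulAut V).toMonoidHom
      left_inv := by
        intro l
        ext v
        simp
      right_inv := by
        intro l
        ext v
        simp
      map_mul' := by
        intro l m
        rfl }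
  map_one' := by
    ext l v
    simp
  map_mul' := by
    intro g h
    ext l v
    simp

theorem dact_apply (V : Subgroup X) [V.Normal] (g : X) (l : V →* ℂˣ) (v : V) :
    dact V g l v = l (MulAut.conjNormal g⁻¹ v) := rfl

end base

section su
variable {X : Type u} [Group X] [Fintype X] {M : Ideal AlgInt} [M.IsPrime] {p : ℕ} [hp : Fact p.Prime]

/-- a block with abelian normal defect group, and a canonical character -/
structure Su (M : Ideal AlgInt) (p : ℕ) (V : Subgroup X) [V.Normal] [Fintype (NN V)]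
    (b : Set (IrrCharacter X)) (β : Set (IrrCharacter (NN V))) (θ : IrrCharacter (NN V)) : Prop where
  hM : IsPModular p M
  comm : ∀ a ∈ V, ∀ c ∈ V, a * c = c * a
  hb : IsPBlock M b
  hV : IsDefectGroup p M b V
  hβ : IsPBlock M β
  ind : IsInducedBlock M (NN V) β b
  hβD : IsDefectGroup p M β (DD V)
  hθ : θ ∈ β
  ker : ∀ y ∈ DD V, (θ : NN V → ℂ) y = (θ : NN V → ℂ) 1

theorem exists_su (hM : IsPModular p M) (V : Subgroup X) [V.Normal] [Fintype (NN V)]
    (hcomm : ∀ a ∈ V, ∀ c ∈ V, a * c = c * a) {b : Set (IrrCharacter X)} (hb : IsPBlock M b)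
    (hV : IsDefectGroup p M b V) : ∃ β θ, Su M p V b β θ := by
  classical
  have hPp : IsPGroup p V := isPGroup_of_isDefectGroup hV
  obtain ⟨χ₀, hχ₀⟩ := isPBlock_nonempty hb
  obtain ⟨θ₀, hθ₀⟩ := exists_constituent_restrict (N := NN V) χ₀
  have hβ : IsPBlock M (blockOf M (θ₀ : NN V → ℂ)) := ⟨θ₀, rfl⟩
  have hind : IsInducedBlock M (NN V) (blockOf M (θ₀ : NN V → ℂ)) b :=
    induced_of_cover hM V hPp hβ hb ⟨χ₀, hχ₀, θ₀, mem_blockOf_self θ₀, hθ₀⟩
  obtain ⟨E, hE⟩ := exists_defectGroup hM hβ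
  have hbD : IsDefectGroup p M (blockOf M (θ₀ : NN V → ℂ)) (DD V) := by
    have h1 : E = DD V := defect_of_inducing hM le_sup_left (sup_centralizer_le_normalizer V) hind hV hE
    rw [← h1]; exact hE
  obtain ⟨θ, hθ, hker⟩ := exists_canon hM (DD_sup V) (hPp.comap_subtype) hβ
  exact ⟨_, θ, hM, hcomm, hb, hV, hβ, hind, hbD, hθ, hker⟩

variable {V : Subgroup X} [hVn : V.Normal] [Fintype (NN V)] {b : Set (IrrCharacter X)}
  {β : Set (IrrCharacter (NN V))} {θ : IrrCharacter (NN V)}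

namespace Su

theorem hVp (s : Su M p V b β θ) : IsPGroup p V := isPGroup_of_isDefectGroup s.hV

theorem hDp (s : Su M p V b β θ) : IsPGroup p (DD V) := s.hVp.comap_subtype

theorem mem_of_over (s : Su M p V b β θ) {η : IrrCharacter (NN V)} (hη : η ∈ β) {χ : IrrCharacter X}
    (h : Ov (NN V) η χ) : χ ∈ b := by
  have h1 : IsInducedBlock M (NN V) β (blockOf M (χ : X → ℂ)) :=
    induced_of_cover s.hM V s.hVp s.hβ ⟨χ, rfl⟩ ⟨χ, mem_blockOf_self χ, η, hη, h⟩
  rw [eq_of_induced s.ind h1]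
  exact mem_blockOf_self χ

theorem vanish (s : Su M p V b β θ) : ∀ z, ppart p z ∉ DD V → (θ : NN V → ℂ) z = 0 := fun z hz => by
  haveI := normal_of_sup (DD_sup V)
  exact vanish_of_normal_defect s.hM s.hβ s.hβD s.hθ hz

/-- the linear character of `DD V` -/
noncomputable def lin (l : V →* ℂˣ) : IrrCharacter (DD V) :=
  ⟨fun d => (l ⟨((d : NN V) : X), Subgroup.mem_subgroupOf.mp d.2⟩ : ℂ),
    Char.isIrrCharacter_of_hom ((Units.coeHom ℂ).comp (l.comp
      (Subgroup.subgroupOfEquivOfLe (le_sup_left : V ≤ NN V)).toMonoidHom))⟩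

/-- the characters of `β` -/
noncomputable def eta (s : Su M p V b β θ) (l : V →* ℂˣ) : IrrCharacter (NN V) :=
  ⟨canonMul p (DD V) (lin l : DD V → ℂ) (θ : NN V → ℂ),
    canonMul_isIrrCharacter (DD_sup V) s.hDp (lin l) θ.2 s.ker s.vanish⟩

theorem eta_mem (s : Su M p V b β θ) (l : V →* ℂˣ) : s.eta l ∈ β :=
  canonMul_mem s.hM (DD_sup V) s.hDp s.hβ s.hθ s.ker (lin l) rfl

theorem eta_coe (s : Su M p V b β θ) (l : V →* ℂˣ) (v : V) :
    (s.eta l : NN V → ℂ) ⟨v, le_sup_left (a := V) v.2⟩ = (l v : ℂ) * (θ : NN V → ℂ) 1 := by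
  have := canonMul_coe (DD_sup V) s.hDp (lin l : DD V → ℂ) (irr_isCharacter θ) s.ker
    ⟨⟨v, le_sup_left (a := V) v.2⟩, Subgroup.mem_subgroupOf.mpr v.2⟩
  exact this

theorem theta_one_ne (θ : IrrCharacter (NN V)) : (θ : NN V → ℂ) 1 ≠ 0 := irr_one_ne_zero θ.2

theorem eta_one (s : Su M p V b β θ) : s.eta 1 = θ := by
  refine canon_unique s.hM (DD_sup V) s.hDp s.hβ s.hβD s.hθ s.ker (s.eta_mem 1) ?_
  intro y hy
  have h1 := s.eta_coe 1 ⟨((y : NN V) : X), Subgroup.mem_subgroupOf.mp hy⟩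
  have h2 := s.eta_coe 1 1
  simp only [MonoidHom.one_apply, Units.val_one, one_mul] at h1 h2
  exact h1.trans h2.symm

theorem eq_eta (s : Su M p V b β θ) {η : IrrCharacter (NN V)} (hη : η ∈ β) (l : V →* ℂˣ)
    (h : ∀ v : V, (η : NN V → ℂ) ⟨v, le_sup_left (a := V) v.2⟩ = (l v : ℂ) * (θ : NN V → ℂ) 1) : η = s.eta l := by
  obtain ⟨ζ, hζ⟩ := exists_canonMul s.hM (DD_sup V) s.hDp s.hβ s.hβD s.hθ s.ker hη
  have h1 : ζ = lin l := by
    apply Subtype.ext
    funext d
    have h2 := canonMul_coe (DD_sup V) s.hDp (ζ : DD V → ℂ) (irr_isCharacter θ) s.ker d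
    rw [← hζ] at h2
    have h3 := h ⟨((d : NN V) : X), Subgroup.mem_subgroupOf.mp d.2⟩
    exact mul_right_cancel₀ (theta_one_ne θ) (h2.symm.trans h3)
  apply Subtype.ext
  rw [hζ, h1]
  rfl

/-- the conjugate of a character -/
noncomputable def cjI (g : X) (η : IrrCharacter (NN V)) : IrrCharacter (NN V) :=
  ⟨Char.cj (NN V) g (η : NN V → ℂ), Char.isIrrCharacter_cj (NN V) g η.2⟩

theorem cjI_mem (s : Su M p V b β θ) {g : X} {η : IrrCharacter (NN V)} (hη : η ∈ β) (h : cjI g η ∈ β)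
    {ξ : IrrCharacter (NN V)} (hξ : ξ ∈ β) : cjI g ξ ∈ β := by
  have h1 := H76.sameBlock_cj (N := NN V) g (Blk.sameBlock_of_mem s.hβ hη hξ)
  exact BlkC.mem_of_sameBlock s.hβ h h1

theorem inertia_of_mem (s : Su M p V b β θ) {g : X} (h : cjI g θ ∈ β) :
    g ∈ Char.inertia (NN V) (θ : NN V → ℂ) := by
  have h1 : cjI g θ = θ := by
    refine canon_unique s.hM (DD_sup V) s.hDp s.hβ s.hβD s.hθ s.ker h ?_
    intro y hy
    change Char.cj (NN V) g (θ : NN V → ℂ) y = Char.cj (NN V) g (θ : NN V → ℂ) 1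
    rw [Char.cj_one_apply, Char.cj_apply]
    refine s.ker _ ?_
    rw [Subgroup.mem_subgroupOf] at hy ⊢
    exact hVn.conj_mem _ hy g
  exact congrArg Subtype.val h1

theorem cj_eta (s : Su M p V b β θ) {g : X} (hg : g ∈ Char.inertia (NN V) (θ : NN V → ℂ)) (l : V →* ℂˣ) :
    Char.cj (NN V) g (s.eta l : NN V → ℂ) = s.eta (dact V g⁻¹ l) := by
  have h0 : cjI g θ ∈ β := by
    have : cjI g θ = θ := Subtype.ext hg
    rw [this]; exact s.hθ
  have h1 := s.eq_eta (s.cjI_mem s.hθ h0 (s.eta_mem l)) (dact V g⁻¹ l) (fun v => by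
    change Char.cj (NN V) g (s.eta l : NN V → ℂ) ⟨v, _⟩ = _
    rw [Char.cj_apply]
    have h2 := s.eta_coe l (MulAut.conjNormal g v)
    rw [dact_apply, inv_inv]
    exact h2)
  exact congrArg Subtype.val h1

theorem of_cj_eta (s : Su M p V b β θ) {g : X} {l m : V →* ℂˣ}
    (h : Char.cj (NN V) g (s.eta l : NN V → ℂ) = s.eta m) :
    g ∈ Char.inertia (NN V) (θ : NN V → ℂ) ∧ dact V g⁻¹ l = m := by
  have h0 : cjI g (s.eta l) = s.eta m := Subtype.ext h
  have hg : g ∈ Char.inertia (NN V) (θ : NN V → ℂ) :=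
    s.inertia_of_mem (s.cjI_mem (s.eta_mem l) (by rw [h0]; exact s.eta_mem m) s.hθ)
  refine ⟨hg, ?_⟩
  rw [s.cj_eta hg l] at h
  ext v
  have h1 := s.eta_coe (dact V g⁻¹ l) v
  rw [h, s.eta_coe m v] at h1
  exact (mul_right_cancel₀ (theta_one_ne θ) h1).symm

/-- the members of `b` with `V` in the kernel -/
def A (V : Subgroup X) (b : Set (IrrCharacter X)) : Set (IrrCharacter X) :=
  {χ | χ ∈ b ∧ ∀ v ∈ V, (χ : X → ℂ) v = (χ : X → ℂ) 1}

theorem rank_le (s : Su M p V b β θ) : blockRank p b ≤ Nat.card (A V b) := by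
  haveI := Fintype.ofFinite (X ⧸ V)
  refine (rank_le_card_dom' s.hM s.hVp s.hb).trans ?_
  refine Nat.card_le_card_of_injective (fun ψ : dom V b => (⟨inflI ψ.1, ψ.2, ?_⟩ : A V b)) ?_
  · intro v hv
    change (ψ.1 : X ⧸ V → ℂ) (QuotientGroup.mk v) = (ψ.1 : X ⧸ V → ℂ) (QuotientGroup.mk 1)
    rw [(QuotientGroup.eq_one_iff v).mpr hv]
    rfl
  · intro ψ ψ' h
    apply Subtype.ext
    apply Subtype.ext
    funext y
    obtain ⟨g, rfl⟩ := QuotientGroup.mk_surjective y
    exact congrFun (congrArg (fun t : A V b => ((t : IrrCharacter X) : X → ℂ)) h) g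

theorem over_theta (s : Su M p V b β θ) {χ : IrrCharacter X} (h : Ov (NN V) θ χ) : χ ∈ A V b := by
  classical
  refine ⟨s.mem_of_over s.hθ h, fun v hv => ?_⟩
  have hc : IsCharacter (NN V) (fun n : NN V => (χ : X → ℂ) n) := isCharacter_restrict (irr_isCharacter χ) _
  haveI := Fintype.ofFinite (IrrCharacter (NN V))
  obtain ⟨m, hm, hsum⟩ := exists_mult_of_isCharacter hc
  have hvN : v ∈ NN V := le_sup_left (a := V) hv
  have h1 := congrFun hsum ⟨v, hvN⟩
  have h2 := congrFun hsum 1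
  change (χ : X → ℂ) v = _ at h1
  change (χ : X → ℂ) ((1 : NN V) : X) = _ at h2
  rw [Subgroup.coe_one] at h2
  rw [h1, h2, Finset.sum_apply, Finset.sum_apply]
  refine Finset.sum_congr rfl fun ξ _ => ?_
  rw [Pi.smul_apply, Pi.smul_apply]
  rcases Nat.eq_zero_or_pos (m ξ) with h3 | h3
  · rw [h3, zero_smul, zero_smul]
  · congr 1
    have h4 : classInner (fun n : NN V => (χ : X → ℂ) n) (ξ : NN V → ℂ) ≠ 0 := by
      rw [hm ξ]
      exact_mod_cast h3.ne'
    obtain ⟨g, hg⟩ := exists_cj_of_constituents χ θ ξ h h4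
    rw [← hg, Char.cj_one_apply, Char.cj_apply]
    exact s.ker _ (Subgroup.mem_subgroupOf.mpr (hVn.conj_mem _ hv g))

theorem over_eta (s : Su M p V b β θ) {l : V →* ℂˣ} (hl : l ≠ 1) {χ : IrrCharacter X}
    (h : Ov (NN V) (s.eta l) χ) : χ ∈ b ∧ χ ∉ A V b := by
  refine ⟨s.mem_of_over (s.eta_mem l) h, fun hA => hl ?_⟩
  ext v
  have hc : IsCharacter (NN V) (fun n : NN V => (χ : X → ℂ) n) := isCharacter_restrict (irr_isCharacter χ) _
  have h' : classInner (fun n : NN V => (χ : X → ℂ) n) (s.eta l : NN V → ℂ) ≠ 0 := h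
  have h1 := H76.ker_of_constituent' hc (s.eta l).2 (by convert h') (g := ⟨v, le_sup_left (a := V) v.2⟩) (by
    change (χ : X → ℂ) (v : X) = (χ : X → ℂ) ((1 : NN V) : X)
    rw [Subgroup.coe_one]
    exact hA.2 v v.2)
  have h2 := s.eta_coe l 1
  have h3 : (⟨((1 : V) : X), le_sup_left (a := V) (1 : V).2⟩ : NN V) = 1 := rfl
  rw [h3, map_one, Units.val_one, one_mul] at h2
  rw [s.eta_coe l v, h2] at h1
  rw [MonoidHom.one_apply, Units.val_one]
  exact mul_right_cancel₀ (theta_one_ne θ) (by rw [h1, one_mul])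

end Su
end su

end Cfsg.Agent.BlkInd.TC
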