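import Cfsg.Agent.BlkInd.TCb

/-!
# Blocks with abelian normal defect group: the case of three characters (owner: helper16)
-/

set_option autoImplicit false
set_option linter.unusedSectionVars false
set_option linter.style.haveILetI false

namespace Cfsg.Agent.BlkInd.TC

open scoped ComplexConjugate
open Cfsg Cfsg.Agent.CharBase Cfsg.Agent.Blk Cfsg.Agent.BlkInd Cfsg.Agent.BlkC Cfsg.Agent.H4

universe u

theorem card_dual {K : Type u} [Group K] [Finite K] (hcomm : ∀ a b : K, a * b = b * a) :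
    Nat.card (K →* ℂˣ) = Nat.card K := by
  letI : CommGroup K := { (inferInstance : Group K) with mul_comm := hcomm }
  exact CommGroup.card_monoidHom_of_hasEnoughRootsOfUnity K ℂ

theorem exists_dual_ne {K : Type u} [Group K] [Finite K] (hcomm : ∀ a b : K, a * b = b * a) {v : K} (hv : v ≠ 1) :
    ∃ l : K →* ℂˣ, l v ≠ 1 := by
  letI : CommGroup K := { (inferInstance : Group K) with mul_comm := hcomm }
  exact CommGroup.exists_apply_ne_one_of_hasEnoughRootsOfUnity K ℂ hv

section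
variable {X : Type u} [Group X] [Fintype X] {M : Ideal AlgInt} [M.IsPrime] {p : ℕ} [hp : Fact p.Prime]
variable {V : Subgroup X} [hVn : V.Normal] [Fintype (NN V)] {b : Set (IrrCharacter X)}
  {β : Set (IrrCharacter (NN V))} {θ : IrrCharacter (NN V)}

namespace Su

theorem commV (s : Su M p V b β θ) (a c : V) : a * c = c * a := Subtype.ext (s.comm a a.2 c c.2)

theorem exists_ne (s : Su M p V b β θ) (hV1 : V ≠ ⊥) : ∃ l : V →* ℂˣ, l ≠ 1 := by
  obtain ⟨v, hv⟩ := (Subgroup.ne_bot_iff_exists_ne_one).mp hV1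
  obtain ⟨l, hl⟩ := exists_dual_ne s.commV hv
  exact ⟨l, fun h => hl (by rw [h]; rfl)⟩

theorem eq_of_notMem (s : Su M p V b β θ) (hk : Nat.card b = 3) (hl : blockRank p b = 2)
    {χ χ' : IrrCharacter X} (h : χ ∈ b ∧ χ ∉ A V b) (h' : χ' ∈ b ∧ χ' ∉ A V b) : χ = χ' := by
  classical
  by_contra hne
  have h1 := s.rank_le
  rw [hl] at h1
  have h2 : (A V b ∪ {χ, χ'}).ncard = (A V b).ncard + 2 := by
    rw [Set.ncard_union_eq ?_ (Set.toFinite _) (Set.toFinite _), Set.ncard_pair hne]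
    rw [Set.disjoint_right]
    rintro x (rfl | hx)
    · exact h.2
    · rw [Set.mem_singleton_iff] at hx
      rw [hx]; exact h'.2
  have h3 : (A V b ∪ {χ, χ'}).ncard ≤ b.ncard := by
    refine Set.ncard_le_ncard ?_ (Set.toFinite _)
    rintro x (hx | hx | hx)
    · exact hx.1
    · rw [hx]; exact h.1
    · rw [Set.mem_singleton_iff] at hx
      rw [hx]; exact h'.1
  rw [h2] at h3
  have h4 : Nat.card (A V b) = (A V b).ncard := Nat.card_coe_set_eq _
  have h5 : Nat.card b = b.ncard := Nat.card_coe_set_eq _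
  omega

theorem one (s : Su M p V b β θ) (hk : Nat.card b = 3) (hl : blockRank p b = 2) {l : V →* ℂˣ} (hl1 : l ≠ 1) :
    Nat.card {χ : IrrCharacter X // Ov (NN V) (s.eta l) χ} = 1 := by
  obtain ⟨χ, hχ⟩ := exists_over (G := X) (s.eta l)
  rw [Nat.card_eq_one_iff_unique]
  refine ⟨⟨fun a c => Subtype.ext ?_⟩, ⟨⟨χ, hχ⟩⟩⟩
  exact s.eq_of_notMem hk hl (s.over_eta hl1 a.2) (s.over_eta hl1 c.2)

theorem two (s : Su M p V b β θ) (hk : Nat.card b = 3) (hne : ∃ l : V →* ℂˣ, l ≠ 1) :
    Nat.card {χ : IrrCharacter X // Ov (NN V) θ χ} ≤ 2 := by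
  obtain ⟨l, hl1⟩ := hne
  obtain ⟨χ, hχ⟩ := exists_over (G := X) (s.eta l)
  have h1 := s.over_eta hl1 hχ
  have h2 : Nat.card {χ : IrrCharacter X // Ov (NN V) θ χ} ≤ Nat.card (A V b) := by
    refine Nat.card_le_card_of_injective (fun x => (⟨x.1, s.over_theta x.2⟩ : A V b)) ?_
    intro x y hxy
    exact Subtype.ext (congrArg (fun t : A V b => (t : IrrCharacter X)) hxy)
  have h3 : (A V b).ncard < b.ncard := by
    refine Set.ncard_lt_ncard ?_ (Set.toFinite _)
    rw [Set.ssubset_iff_of_subset (fun x hx => hx.1)]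
    exact ⟨χ, h1.1, h1.2⟩
  have h4 : Nat.card (A V b) = (A V b).ncard := Nat.card_coe_set_eq _
  have h5 : Nat.card b = b.ncard := Nat.card_coe_set_eq _
  omega

theorem tr (s : Su M p V b β θ) (hk : Nat.card b = 3) (hl : blockRank p b = 2) {l m : V →* ℂˣ} (hl1 : l ≠ 1)
    (hm1 : m ≠ 1) : ∃ g ∈ Char.inertia (NN V) (θ : NN V → ℂ), dact V g l = m := by
  obtain ⟨χ, hχ⟩ := exists_over (G := X) (s.eta l)
  obtain ⟨χ', hχ'⟩ := exists_over (G := X) (s.eta m)
  have h1 := s.eq_of_notMem hk hl (s.over_eta hl1 hχ) (s.over_eta hm1 hχ')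
  rw [← h1] at hχ'
  obtain ⟨g, hg⟩ := exists_cj_of_constituents χ (s.eta l) (s.eta m) hχ hχ'
  obtain ⟨h2, h3⟩ := s.of_cj_eta hg
  exact ⟨g⁻¹, inv_mem h2, h3⟩

theorem deg (s : Su M p V b β θ) {χ : IrrCharacter X} (h : Ov (NN V) θ χ) :
    (NN V).index.factorization p + (charDegree (θ : NN V → ℂ)).factorization p ≤
      (charDegree (χ : X → ℂ)).factorization p := by
  have hχ := s.mem_of_over s.hθ h
  have h3 := factorization_index_add s.hM s.hb s.hV
  have h4 := defect_add_nuMin (p := p) (B := b) ⟨χ, hχ⟩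
  have h5 := nuMin_le (p := p) hχ
  obtain ⟨h6, -⟩ := canon_degree s.hM (DD_sup V) s.hDp s.hβ s.hβD s.hθ s.ker
  have h7 : V.index = (DD V).index * (NN V).index := by
    have := Subgroup.relIndex_mul_index (H := V) (K := NN V) le_sup_left
    exact this.symm
  have h8 : V.index.factorization p = (DD V).index.factorization p + (NN V).index.factorization p := by
    rw [h7, Nat.factorization_mul Subgroup.index_ne_zero_of_finite Subgroup.index_ne_zero_of_finite,
      Finsupp.add_apply]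
  have h9 : nu p χ = (charDegree (χ : X → ℂ)).factorization p := rfl
  omega

end Su
end

end Cfsg.Agent.BlkInd.TC
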